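import Mathlib
import Cfsg.Agent.Lib.Helper18.LSDefs
import Cfsg.Agent.Lib.Helper18.WRDefs

/-! Project WR (helper18, S2347), piece MINSUB (helper93). -/

set_option autoImplicit false

namespace Cfsg.Agent.Lib.Helper18.WR

open Matrix

universe u

variable {F : Type u} [Field F] {n : ℕ}

-- piece MINSUB
theorem exists_min_invariant {G : Type*} [Group G] {E : Type*} [AddCommGroup E] [Module ℂ E]
    [FiniteDimensional ℂ E] (ω : Representation ℂ G E) (C : Submodule ℂ E)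
    (hC : ∀ g, ∀ f ∈ C, ω g f ∈ C) (hne : C ≠ ⊥) :
    ∃ C' : Submodule ℂ E, C' ≤ C ∧ C' ≠ ⊥ ∧ (∀ g, ∀ f ∈ C', ω g f ∈ C') ∧
      ∀ C'' : Submodule ℂ E, C'' ≤ C' → (∀ g, ∀ f ∈ C'', ω g f ∈ C'') → C'' = ⊥ ∨ C'' = C' := by
  classical
  have hex : ∃ d : ℕ, ∃ C' : Submodule ℂ E, C' ≤ C ∧ C' ≠ ⊥ ∧ (∀ g, ∀ f ∈ C', ω g f ∈ C') ∧
      Module.finrank ℂ C' = d := ⟨_, C, le_rfl, hne, hC, rfl⟩
  obtain ⟨C', hC'le, hC'ne, hC'inv, hC'd⟩ := Nat.find_spec hex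
  refine ⟨C', hC'le, hC'ne, hC'inv, ?_⟩
  intro C'' hle hinv
  by_cases h0 : C'' = ⊥
  · exact Or.inl h0
  · right
    have hmin : Nat.find hex ≤ Module.finrank ℂ C'' :=
      Nat.find_min' hex ⟨C'', hle.trans hC'le, h0, hinv, rfl⟩
    exact Submodule.eq_of_le_of_finrank_le hle (by rw [hC'd]; exact hmin)

end Cfsg.Agent.Lib.Helper18.WR
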