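import Mathlib
import Cfsg.Prelude.Def_GeometricClasses
import Cfsg.Agent.Lib.Helper7.SUGenC
import Cfsg.Agent.Lib.Helper18.UnitaryTv

/-!
# The stabiliser of a pair of complementary totally isotropic subspaces is maximal in `SU_n(q)`

Helper library (helper93), used for statement S5657 (type `GL_{n/2}(q²).2` in `SU_n(q)`, `n = 2k ≥ 14`).

* `MIn M A`: the matrix `A` is the matrix of an element of the subgroup `M` of `GL`.
* `Cen q M v`: `v` is isotropic and all unitary transvections with centre `v` lie in `M`;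
  `Cen.map`, `Cen.smul`, `Cen.hyp` (closure under `M`, scalars and hyperbolic lines).
* `DualPair q n U W`: totally isotropic subspaces in duality; `DualPair.sep`, `DualPair.sep2`.
* `heis_comm`: the commutator of two Heisenberg elements `heis e w 0`, `heis e w' 0` (helper18) is the
  unitary transvection with centre `e` and parameter `h(w, w') - h(w', w)`.
* `uside`: a non-standard Heisenberg element in `M` yields a transvection centre in `U`.
* `exists_swap`: a product of unitary transvections interchanging the two subspaces of a dual pair.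
* `su_le_of_cen`: if every isotropic vector is a centre for `M` then `GU ⊓ SL ≤ M` (helper7 `suTM_eq`).
* `su_pair_isMaximalIn`: the maximality theorem.
-/

set_option autoImplicit false
set_option linter.unusedSectionVars false
set_option linter.unusedVariables false
set_option linter.unusedSimpArgs false

namespace Cfsg.Agent.Lib.Helper93

open Matrix Cfsg.Agent.Lib.Helper7 Cfsg.Agent.Lib.Helper18

section
variable {F : Type*} [Field F] [Fintype F] {q n : ℕ}

/-! ### Matrices of elements of a subgroup of `GL` -/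

/-- `A` is the matrix of an element of `M`. -/
def MIn (M : Subgroup (GL (Fin n) F)) (A : Matrix (Fin n) (Fin n) F) : Prop :=
  ∃ t ∈ M, (t : Matrix (Fin n) (Fin n) F) = A

theorem MIn.mul {M : Subgroup (GL (Fin n) F)} {A B : Matrix (Fin n) (Fin n) F}
    (hA : MIn M A) (hB : MIn M B) : MIn M (A * B) := by
  obtain ⟨s, hs, rfl⟩ := hA
  obtain ⟨t, ht, rfl⟩ := hB
  exact ⟨s * t, M.mul_mem hs ht, Units.val_mul s t⟩

theorem MIn.one (M : Subgroup (GL (Fin n) F)) : MIn M 1 := ⟨1, M.one_mem, Units.val_one⟩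

theorem MIn.of_mul_eq_one {M : Subgroup (GL (Fin n) F)} {A B : Matrix (Fin n) (Fin n) F}
    (hA : MIn M A) (h : A * B = 1) : MIn M B := by
  obtain ⟨t, ht, rfl⟩ := hA
  refine ⟨t⁻¹, M.inv_mem ht, ?_⟩
  calc ((t⁻¹ : GL (Fin n) F) : Matrix (Fin n) (Fin n) F)
      = ((t⁻¹ : GL (Fin n) F) : Matrix (Fin n) (Fin n) F) * ((t : Matrix (Fin n) (Fin n) F) * B) := by
        rw [h, mul_one]
    _ = B := by rw [← mul_assoc, ← Units.val_mul, inv_mul_cancel, Units.val_one, one_mul]

theorem MIn.mem {M : Subgroup (GL (Fin n) F)} {g : GL (Fin n) F}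
    (h : MIn M (g : Matrix (Fin n) (Fin n) F)) : g ∈ M := by
  obtain ⟨t, ht, h⟩ := h
  rwa [← Units.ext h]

/-- conjugation: if `P` is the matrix of an element of `M` and `P * A = B * P`, then `B` is in `M`
as soon as `A` is -/
theorem MIn.conj {M : Subgroup (GL (Fin n) F)} {P A B : Matrix (Fin n) (Fin n) F}
    (hP : MIn M P) (hA : MIn M A) (h : P * A = B * P) : MIn M B := by
  obtain ⟨t, ht, rfl⟩ := hP
  obtain ⟨s, hs, rfl⟩ := hA
  refine ⟨t * s * t⁻¹, M.mul_mem (M.mul_mem ht hs) (M.inv_mem ht), ?_⟩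
  rw [Units.val_mul, Units.val_mul, h, mul_assoc, ← Units.val_mul, mul_inv_cancel, Units.val_one,
    mul_one]

theorem mem_sl_iff (g : GL (Fin n) F) :
    g ∈ Cfsg.Geo.specialLinear (Fin n) F ↔ (g : Matrix (Fin n) (Fin n) F).det = 1 := by
  unfold Cfsg.Geo.specialLinear
  rw [MonoidHom.mem_ker, Units.ext_iff, Matrix.GeneralLinearGroup.val_det_apply, Units.val_one]

/-- a matrix preserving the form with determinant one is the matrix of an element of `GU ⊓ SL` -/
theorem exists_gl_of_pres {A : Matrix (Fin n) (Fin n) F} (hA : suPres q n A) (hd : A.det = 1) :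
    ∃ t : GL (Fin n) F, (t : Matrix (Fin n) (Fin n) F) = A ∧
      t ∈ Cfsg.GU n F q ⊓ Cfsg.Geo.specialLinear (Fin n) F := by
  exact ⟨Matrix.GeneralLinearGroup.mkOfDetNeZero A (by rw [hd]; exact one_ne_zero), rfl,
    Subgroup.mem_inf.mpr ⟨hA, (mem_sl_iff _).mpr hd⟩⟩

/-! ### The elements `heis e w 0` -/

theorem heis0_pres (hF : Fintype.card F = q ^ 2) (e w : Fin n → F)
    (hee : Cfsg.hermForm n F q e e = 0) (hww : Cfsg.hermForm n F q w w = 0)
    (hwe : Cfsg.hermForm n F q w e = 0) : suPres q n (heis q n e w 0) := by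
  intro x y
  apply heis_preserves hF n e w 0 hee hwe
  rw [hww, zero_pow (herm_q_ne_zero hF)]
  ring

theorem heis0_mulVec (e w x : Fin n → F) :
    heis q n e w 0 *ᵥ x = x + Cfsg.hermForm n F q x e • w - Cfsg.hermForm n F q x w • e := by
  rw [heis_mulVec, zero_mul, zero_sub, neg_smul, sub_eq_add_neg]

/-- conjugating a Heisenberg element by an isometry -/
theorem conj_heis {P : Matrix (Fin n) (Fin n) F} (hP : suPres q n P) (e w : Fin n → F) (a : F) :
    P * heis q n e w a = heis q n (P *ᵥ e) (P *ᵥ w) a * P := by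
  apply Matrix.mulVec_injective
  funext x
  rw [← Matrix.mulVec_mulVec, ← Matrix.mulVec_mulVec, heis_mulVec, heis_mulVec, hP, hP,
    Matrix.mulVec_add, Matrix.mulVec_add, Matrix.mulVec_smul, Matrix.mulVec_smul]

theorem heis_zero_w (hF : Fintype.card F = q ^ 2) (e : Fin n → F) (c : F) :
    heis q n e 0 c = Cfsg.unitaryTransvection n q e c := (transvection_eq_heis hF n e c).symm

/-- the commutator of two Heisenberg elements with the same `e` is a transvection -/
theorem heis_comm (hF : Fintype.card F = q ^ 2) (e w w' : Fin n → F)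
    (hee : Cfsg.hermForm n F q e e = 0) (hww : Cfsg.hermForm n F q w w = 0)
    (hww' : Cfsg.hermForm n F q w' w' = 0)
    (hwe : Cfsg.hermForm n F q w e = 0) (hwe' : Cfsg.hermForm n F q w' e = 0) :
    heis q n e w 0 * heis q n e w' 0 * heis q n e (-w) 0 * heis q n e (-w') 0 =
      Cfsg.unitaryTransvection n q e
        (Cfsg.hermForm n F q w w' - Cfsg.hermForm n F q w' w) := by
  have hnwe : Cfsg.hermForm n F q (-w) e = 0 := by rw [hf_neg_left, hwe, neg_zero]
  have hnwe' : Cfsg.hermForm n F q (-w') e = 0 := by rw [hf_neg_left, hwe', neg_zero]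
  rw [heis_mul hF n e w w' 0 0 hee hwe hwe',
    heis_mul hF n e (w + w') (-w) _ 0 hee (by rw [hf_add_left, hwe, hwe', add_zero]) hnwe,
    heis_mul hF n e (w + w' + -w) (-w') _ 0 hee
      (by rw [hf_add_left, hf_add_left, hwe, hwe', hnwe]; ring) hnwe',
    ← heis_zero_w hF]
  have h1 : w + w' + -w + -w' = 0 := by abel
  rw [h1]
  congr 1
  simp only [hf_neg_left, hf_add_right hF, hf_neg_right hF, hww, hww']
  ring

/-! ### Centres of transvections lying in `M` -/

theorem MIn.pres {M : Subgroup (GL (Fin n) F)}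
    (hM : M ≤ Cfsg.GU n F q ⊓ Cfsg.Geo.specialLinear (Fin n) F)
    {P : Matrix (Fin n) (Fin n) F} (hP : MIn M P) : suPres q n P := by
  obtain ⟨t, ht, rfl⟩ := hP
  exact (hM ht).1

/-- `v` is isotropic and every unitary transvection with centre `v` lies in `M` -/
def Cen (q : ℕ) (M : Subgroup (GL (Fin n) F)) (v : Fin n → F) : Prop :=
  Cfsg.hermForm n F q v v = 0 ∧
    ∀ c : F, c + c ^ q = 0 → MIn M (Cfsg.unitaryTransvection n q v c)

theorem Cen.map {M : Subgroup (GL (Fin n) F)}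
    (hM : M ≤ Cfsg.GU n F q ⊓ Cfsg.Geo.specialLinear (Fin n) F) {v : Fin n → F}
    (hv : Cen q M v) {P : Matrix (Fin n) (Fin n) F} (hP : MIn M P) : Cen q M (P *ᵥ v) := by
  have hpres := hP.pres hM
  refine ⟨by rw [hpres]; exact hv.1, fun c hc => ?_⟩
  exact MIn.conj hP (hv.2 c hc) (conj_transvection P hpres v c)

theorem transvection_smul (hF : Fintype.card F = q ^ 2) (v : Fin n → F) (μ c : F) :
    Cfsg.unitaryTransvection n q (μ • v) c = Cfsg.unitaryTransvection n q v (μ * μ ^ q * c) := by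
  apply Matrix.mulVec_injective
  funext x
  rw [unitaryTransvection_mulVec, unitaryTransvection_mulVec, hf_smul_right, smul_smul]
  congr 2
  ring

theorem Cen.smul (hF : Fintype.card F = q ^ 2) {M : Subgroup (GL (Fin n) F)} {v : Fin n → F}
    (hv : Cen q M v) (μ : F) : Cen q M (μ • v) := by
  refine ⟨by rw [hf_smul_left, hf_smul_right, hv.1, mul_zero, mul_zero], fun c hc => ?_⟩
  rw [transvection_smul hF]
  apply hv.2
  rw [mul_pow, mul_pow, herm_pow_pow hF]
  linear_combination (μ * μ ^ q) * hc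

theorem Cen.hyp {M : Subgroup (GL (Fin n) F)}
    (hM : M ≤ Cfsg.GU n F q ⊓ Cfsg.Geo.specialLinear (Fin n) F) {v₁ v₂ : Fin n → F}
    (h₁ : Cen q M v₁) (h₂ : Cen q M v₂) (c : F) (hc : c + c ^ q = 0) :
    Cen q M (v₂ + (c * Cfsg.hermForm n F q v₂ v₁) • v₁) := by
  have := h₂.map hM (h₁.2 c hc)
  rwa [unitaryTransvection_mulVec] at this

/-! ### Pairs of totally isotropic subspaces in duality -/

/-- the functional `x ↦ h(x, v)` -/
def hl (q n : ℕ) (v : Fin n → F) : (Fin n → F) →ₗ[F] F where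
  toFun x := Cfsg.hermForm n F q x v
  map_add' x y := hf_add_left n x y v
  map_smul' a x := by rw [hf_smul_left]; rfl

theorem hl_apply (v x : Fin n → F) : hl q n v x = Cfsg.hermForm n F q x v := rfl

/-- two totally isotropic subspaces meeting trivially and in duality under the form -/
structure DualPair (q n : ℕ) (U W : Submodule F (Fin n → F)) : Prop where
  disj : ∀ x, x ∈ U → x ∈ W → x = 0
  isoU : ∀ u ∈ U, ∀ u' ∈ U, Cfsg.hermForm n F q u u' = 0
  isoW : ∀ w ∈ W, ∀ w' ∈ W, Cfsg.hermForm n F q w w' = 0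
  exU : ∀ u ∈ U, u ≠ 0 → ∃ w ∈ W, Cfsg.hermForm n F q w u ≠ 0
  exW : ∀ w ∈ W, w ≠ 0 → ∃ u ∈ U, Cfsg.hermForm n F q u w ≠ 0

theorem DualPair.symm {U W : Submodule F (Fin n → F)} (hp : DualPair q n U W) :
    DualPair q n W U :=
  ⟨fun x hx hx' => hp.disj x hx' hx, hp.isoW, hp.isoU, hp.exW, hp.exU⟩

/-- a pair of complementary totally isotropic subspaces is a dual pair -/
theorem dualPair_of_compl (hF : Fintype.card F = q ^ 2) {U W : Submodule F (Fin n → F)}
    (hdisj : ∀ x, x ∈ U → x ∈ W → x = 0) (hspan : ∀ x, ∃ u ∈ U, ∃ w ∈ W, x = u + w)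
    (hU : ∀ u ∈ U, ∀ u' ∈ U, Cfsg.hermForm n F q u u' = 0)
    (hW : ∀ w ∈ W, ∀ w' ∈ W, Cfsg.hermForm n F q w w' = 0) : DualPair q n U W := by
  refine ⟨hdisj, hU, hW, ?_, ?_⟩
  · intro u hu hu0
    by_contra hcon
    push Not at hcon
    apply hu0
    apply herm_nondeg hF
    intro x
    obtain ⟨u', hu', w, hw, rfl⟩ := hspan x
    rw [hf_add_left, hU u' hu' u hu, hcon w hw, add_zero]
  · intro w hw hw0
    by_contra hcon
    push Not at hcon
    apply hw0
    apply herm_nondeg hF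
    intro x
    obtain ⟨u, hu, w', hw', rfl⟩ := hspan x
    rw [hf_add_left, hW w' hw' w hw, hcon u hu, add_zero]

/-- separating a vector from a line: `w ∈ W` orthogonal to `u` but not to `d` -/
theorem DualPair.sep (hF : Fintype.card F = q ^ 2) {U W : Submodule F (Fin n → F)}
    (hp : DualPair q n U W) {u d : Fin n → F} (hu : u ∈ U) (hd : d ∈ U)
    (hnd : d ∉ Submodule.span F {u}) :
    ∃ w ∈ W, Cfsg.hermForm n F q w u = 0 ∧ Cfsg.hermForm n F q w d ≠ 0 := by
  by_contra hcon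
  push Not at hcon
  have hd0 : d ≠ 0 := by
    rintro rfl
    exact hnd (Submodule.zero_mem _)
  by_cases hu0 : u = 0
  · obtain ⟨w, hw, hwd⟩ := hp.exU d hd hd0
    apply hwd
    apply hcon w hw
    rw [hu0, hf_zero_right hF]
  · obtain ⟨w₀, hw₀, hw₀u⟩ := hp.exU u hu hu0
    set κ : F := Cfsg.hermForm n F q w₀ d / Cfsg.hermForm n F q w₀ u with hκ
    have key : ∀ w ∈ W, Cfsg.hermForm n F q w (d - κ ^ q • u) = 0 := by
      intro w hw
      have h1 : Cfsg.hermForm n F q
          (w - (Cfsg.hermForm n F q w u / Cfsg.hermForm n F q w₀ u) • w₀) u = 0 := by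
        rw [hf_sub_left, hf_smul_left]
        field_simp
        ring
      have h2 := hcon _ (W.sub_mem hw (W.smul_mem _ hw₀)) h1
      rw [hf_sub_left, hf_smul_left] at h2
      rw [hf_sub_right hF, hf_smul_right, herm_pow_pow hF, hκ]
      field_simp
      field_simp at h2
      linear_combination h2
    have hmem : d - κ ^ q • u ∈ U := U.sub_mem hd (U.smul_mem _ hu)
    have hz : d - κ ^ q • u = 0 := by
      by_contra hne
      obtain ⟨w, hw, hwd⟩ := hp.exU _ hmem hne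
      exact hwd (key w hw)
    apply hnd
    rw [Submodule.mem_span_singleton]
    exact ⟨κ ^ q, (sub_eq_zero.mp hz).symm⟩

/-- separating two vectors from a line simultaneously -/
theorem DualPair.sep2 (hF : Fintype.card F = q ^ 2) {U W : Submodule F (Fin n → F)}
    (hp : DualPair q n U W) {u d₁ d₂ : Fin n → F} (hu : u ∈ U) (hd₁ : d₁ ∈ U) (hd₂ : d₂ ∈ U)
    (h₁ : d₁ ∉ Submodule.span F {u}) (h₂ : d₂ ∉ Submodule.span F {u}) :
    ∃ w ∈ W, Cfsg.hermForm n F q w u = 0 ∧ Cfsg.hermForm n F q w d₁ ≠ 0 ∧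
      Cfsg.hermForm n F q w d₂ ≠ 0 := by
  obtain ⟨w₁, hw₁, hw₁u, hw₁d⟩ := hp.sep hF hu hd₁ h₁
  obtain ⟨w₂, hw₂, hw₂u, hw₂d⟩ := hp.sep hF hu hd₂ h₂
  by_cases c1 : Cfsg.hermForm n F q w₁ d₂ = 0
  · by_cases c2 : Cfsg.hermForm n F q w₂ d₁ = 0
    · refine ⟨w₁ + w₂, W.add_mem hw₁ hw₂, ?_, ?_, ?_⟩
      · rw [hf_add_left, hw₁u, hw₂u, add_zero]
      · rw [hf_add_left, c2, add_zero]; exact hw₁d
      · rw [hf_add_left, c1, zero_add]; exact hw₂d
    · exact ⟨w₂, hw₂, hw₂u, c2, hw₂d⟩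
  · exact ⟨w₁, hw₁, hw₁u, hw₁d, c1⟩

/-! ### Linear algebra helpers -/

theorem exists_not_mem_two {V : Type*} [AddCommGroup V] [Module F V] (S A B : Submodule F V)
    (hA : ¬ S ≤ A) (hB : ¬ S ≤ B) : ∃ x ∈ S, x ∉ A ∧ x ∉ B := by
  obtain ⟨x, hxS, hxA⟩ := SetLike.not_le_iff_exists.mp hA
  obtain ⟨y, hyS, hyB⟩ := SetLike.not_le_iff_exists.mp hB
  by_cases hxB : x ∈ B
  · by_cases hyA : y ∈ A
    · refine ⟨x + y, S.add_mem hxS hyS, fun h => hxA ?_, fun h => hyB ?_⟩
      · exact (A.add_mem_iff_left hyA).mp h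
      · exact (B.add_mem_iff_right hxB).mp h
    · exact ⟨y, hyS, hyA, hyB⟩
  · exact ⟨x, hxS, hxA, hxB⟩

theorem finrank_inf_ker_ge (S : Submodule F (Fin n → F)) (φ : (Fin n → F) →ₗ[F] F) :
    Module.finrank F S ≤ Module.finrank F ↥(S ⊓ LinearMap.ker φ) + 1 := by
  have h1 := Submodule.finrank_sup_add_finrank_inf_eq S (LinearMap.ker φ)
  have h2 := LinearMap.finrank_range_add_finrank_ker φ
  have h3 : Module.finrank F (LinearMap.range φ) ≤ 1 := by
    have := Submodule.finrank_le (LinearMap.range φ)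
    rwa [Module.finrank_self] at this
  have h4 := Submodule.finrank_le (S ⊔ LinearMap.ker φ)
  omega

theorem finrank_span_singleton_le_one (d : Fin n → F) :
    Module.finrank F (Submodule.span F {d}) ≤ 1 := by
  by_cases hd : d = 0
  · rw [hd, Submodule.span_zero_singleton, finrank_bot]; omega
  · rw [finrank_span_singleton hd]

/-- a vector of `U` orthogonal to `c₁`, `c₂` and outside the lines of `d₁`, `d₂` -/
theorem exists_u1 (U : Submodule F (Fin n → F)) (hk : 4 ≤ Module.finrank F U)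
    (c₁ c₂ d₁ d₂ : Fin n → F) :
    ∃ u ∈ U, Cfsg.hermForm n F q u c₁ = 0 ∧ Cfsg.hermForm n F q u c₂ = 0 ∧
      u ∉ Submodule.span F {d₁} ∧ u ∉ Submodule.span F {d₂} := by
  have h1 := finrank_inf_ker_ge U (hl q n c₁)
  have h2 := finrank_inf_ker_ge (U ⊓ LinearMap.ker (hl q n c₁)) (hl q n c₂)
  have hline : ∀ d : Fin n → F,
      ¬ U ⊓ LinearMap.ker (hl q n c₁) ⊓ LinearMap.ker (hl q n c₂) ≤ Submodule.span F {d} := by
    intro d hle
    have h3 := Submodule.finrank_mono hle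
    have h4 := finrank_span_singleton_le_one d
    omega
  obtain ⟨u, huS, h1, h2⟩ := exists_not_mem_two _ _ _ (hline d₁) (hline d₂)
  exact ⟨u, huS.1.1, LinearMap.mem_ker.mp huS.1.2, LinearMap.mem_ker.mp huS.2, h1, h2⟩

theorem exists_not_fixed (hF : Fintype.card F = q ^ 2) : ∃ ξ : F, ξ ^ q ≠ ξ := by
  by_contra hcon
  push Not at hcon
  obtain ⟨c, hc0, hc⟩ := exists_trace_zero_ne hF
  obtain ⟨l, hl⟩ := exists_trace_one hF
  rw [hcon] at hc
  rw [hcon] at hl
  have h2 : (2 : F) = 0 := by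
    have : (2 : F) * c = 0 := by linear_combination hc
    rcases mul_eq_zero.mp this with h | h
    · exact h
    · exact absurd h hc0
  have : (1 : F) = 0 := by linear_combination (-1 : F) * hl + l * h2
  exact one_ne_zero this

theorem not_mem_span_swap {u d : Fin n → F} (hd0 : d ≠ 0) (h : u ∉ Submodule.span F {d}) :
    d ∉ Submodule.span F {u} := by
  intro hmem
  obtain ⟨κ, hκ⟩ := Submodule.mem_span_singleton.mp hmem
  have hκ0 : κ ≠ 0 := by
    rintro rfl
    rw [zero_smul] at hκ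
    exact hd0 hκ.symm
  apply h
  rw [Submodule.mem_span_singleton]
  exact ⟨κ⁻¹, by rw [← hκ, smul_smul, inv_mul_cancel₀ hκ0, one_smul]⟩

/-! ### A transvection from a non-standard Heisenberg element -/

theorem uside (hF : Fintype.card F = q ^ 2) {U W : Submodule F (Fin n → F)}
    (hp : DualPair q n U W) (hk : 4 ≤ Module.finrank F U) {M : Subgroup (GL (Fin n) F)}
    (hM : M ≤ Cfsg.GU n F q ⊓ Cfsg.Geo.specialLinear (Fin n) F)
    (hH : ∀ u ∈ U, ∀ w ∈ W, Cfsg.hermForm n F q w u = 0 → MIn M (heis q n u w 0))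
    {aU aW bU bW : Fin n → F} (haU : aU ∈ U) (haW : aW ∈ W) (hbU : bU ∈ U) (hbW : bW ∈ W)
    (haU0 : aU ≠ 0) (hbU0 : bU ≠ 0)
    (hy : ∀ l : F, MIn M (heis q n (aU + aW) (l • (bU + bW)) 0)) :
    ∃ e ∈ U, e ≠ 0 ∧ Cen q M e := by
  obtain ⟨u₁, hu₁, hu₁a, hu₁b, hu₁d₁, hu₁d₂⟩ := exists_u1 (q := q) U hk aW bW aU bU
  have hu₁0 : u₁ ≠ 0 := fun h => hu₁d₁ (h ▸ Submodule.zero_mem _)
  have hd₁ : aU ∉ Submodule.span F {u₁} := not_mem_span_swap haU0 hu₁d₁
  have hd₂ : bU ∉ Submodule.span F {u₁} := not_mem_span_swap hbU0 hu₁d₂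
  obtain ⟨w, hw, hwu, hwa, hwb⟩ := hp.sep2 hF hu₁ haU hbU hd₁ hd₂
  obtain ⟨α, hα⟩ : ∃ α : F, α = Cfsg.hermForm n F q w aU := ⟨_, rfl⟩
  obtain ⟨β, hβ⟩ : ∃ β : F, β = Cfsg.hermForm n F q w bU := ⟨_, rfl⟩
  rw [← hα] at hwa
  rw [← hβ] at hwb
  obtain ⟨ξ, hξ⟩ := exists_not_fixed hF
  obtain ⟨l, hl⟩ : ∃ l : F, l = ξ / (α * β ^ q) := ⟨_, rfl⟩
  obtain ⟨a, ha⟩ : ∃ a : Fin n → F, a = aU + aW := ⟨_, rfl⟩
  obtain ⟨b, hb⟩ : ∃ b : Fin n → F, b = bU + bW := ⟨_, rfl⟩
  obtain ⟨y, hy'⟩ : ∃ y : Matrix (Fin n) (Fin n) F, y = heis q n a (l • b) 0 := ⟨_, rfl⟩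
  have hyM : MIn M y := by rw [hy', ha, hb]; exact hy l
  have hyP : suPres q n y := hyM.pres hM
  have hu₁a' : Cfsg.hermForm n F q u₁ a = 0 := by
    rw [ha, hf_add_right hF, hp.isoU u₁ hu₁ aU haU, hu₁a, add_zero]
  have hu₁b' : Cfsg.hermForm n F q u₁ b = 0 := by
    rw [hb, hf_add_right hF, hp.isoU u₁ hu₁ bU hbU, hu₁b, add_zero]
  have hwa' : Cfsg.hermForm n F q w a = α := by
    rw [ha, hf_add_right hF, hp.isoW w hw aW haW, add_zero, hα]
  have hwb' : Cfsg.hermForm n F q w b = β := by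
    rw [hb, hf_add_right hF, hp.isoW w hw bW hbW, add_zero, hβ]
  have hyu : y *ᵥ u₁ = u₁ := by
    rw [hy', heis0_mulVec, hu₁a', hf_smul_right, hu₁b', mul_zero, zero_smul, zero_smul,
      add_zero, sub_zero]
  obtain ⟨b'', hb''⟩ : ∃ b'' : Fin n → F, b'' = y *ᵥ w := ⟨_, rfl⟩
  have hb''eq : b'' = w + α • (l • b) - (l ^ q * β) • a := by
    rw [hb'', hy', heis0_mulVec, hwa', hf_smul_right, hwb']
  have hu₁iso := hp.isoU u₁ hu₁ u₁ hu₁
  have hwiso := hp.isoW w hw w hw
  have hb''iso : Cfsg.hermForm n F q b'' b'' = 0 := by rw [hb'', hyP]; exact hwiso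
  have hb''u : Cfsg.hermForm n F q b'' u₁ = 0 := by
    have := hyP w u₁
    rw [hyu] at this
    rw [hb'', this]
    exact hwu
  have hA1 : MIn M (heis q n u₁ b'' 0) := by
    have h0 := hH u₁ hu₁ w hw hwu
    have := conj_heis hyP u₁ w 0
    rw [hyu, ← hb''] at this
    exact MIn.conj hyM h0 this
  have hA1' : MIn M (heis q n u₁ (-b'') 0) := by
    have h0 := hH u₁ hu₁ (-w) (W.neg_mem hw) (by rw [hf_neg_left, hwu, neg_zero])
    have := conj_heis hyP u₁ (-w) 0
    rw [hyu, Matrix.mulVec_neg, ← hb''] at this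
    exact MIn.conj hyM h0 this
  have hval : Cfsg.hermForm n F q b'' w = ξ - ξ ^ q := by
    have hbw : Cfsg.hermForm n F q b w = β ^ q := by rw [← hwb', ← hf_conj hF]
    have haw : Cfsg.hermForm n F q a w = α ^ q := by rw [← hwa', ← hf_conj hF]
    rw [hb''eq]
    simp only [hf_sub_left, hf_add_left, hf_smul_left]
    rw [hwiso, hbw, haw, hl, div_pow, mul_pow, herm_pow_pow hF]
    have hαq : α ^ q ≠ 0 := pow_ne_zero _ hwa
    have hβq : β ^ q ≠ 0 := pow_ne_zero _ hwb
    field_simp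
    ring
  have hζ : ξ - ξ ^ q ≠ 0 := sub_ne_zero.mpr (Ne.symm hξ)
  obtain ⟨θ, hθ⟩ := exists_trace_one hF
  refine ⟨u₁, hu₁, hu₁0, hu₁iso, fun c hc => ?_⟩
  obtain ⟨μ, hμ⟩ : ∃ μ : F, μ = (θ * c / (ξ - ξ ^ q)) ^ q := ⟨_, rfl⟩
  have hμq : μ ^ q = θ * c / (ξ - ξ ^ q) := by rw [hμ, herm_pow_pow hF]
  have hB : MIn M (heis q n u₁ (μ • w) 0) :=
    hH u₁ hu₁ _ (W.smul_mem μ hw) (by rw [hf_smul_left, hwu, mul_zero])
  have hB' : MIn M (heis q n u₁ (-(μ • w)) 0) :=
    hH u₁ hu₁ _ (W.neg_mem (W.smul_mem μ hw))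
      (by rw [hf_neg_left, hf_smul_left, hwu, mul_zero, neg_zero])
  have hcomm := heis_comm hF u₁ b'' (μ • w) hu₁iso hb''iso
    (by rw [hf_smul_left, hf_smul_right, hwiso, mul_zero, mul_zero]) hb''u
    (by rw [hf_smul_left, hwu, mul_zero])
  have hprod := ((hA1.mul hB).mul hA1').mul hB'
  rw [hcomm] at hprod
  have hpar : Cfsg.hermForm n F q b'' (μ • w) - Cfsg.hermForm n F q (μ • w) b'' = c := by
    have hcq : c ^ q = -c := by linear_combination hc
    rw [hf_conj hF n b'' (μ • w), hf_smul_right, hval, hμq, div_mul_cancel₀ _ hζ, mul_pow, hcq]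
    linear_combination c * hθ
  rwa [hpar] at hprod

/-! ### Spreading the centres -/

theorem cen_all (hF : Fintype.card F = q ^ 2) {U W : Submodule F (Fin n → F)}
    (hp : DualPair q n U W) {M : Subgroup (GL (Fin n) F)}
    (hM : M ≤ Cfsg.GU n F q ⊓ Cfsg.Geo.specialLinear (Fin n) F)
    (hH : ∀ u ∈ U, ∀ w ∈ W, Cfsg.hermForm n F q w u = 0 → MIn M (heis q n u w 0))
    {e : Fin n → F} (he : e ∈ U) (he0 : e ≠ 0) (hc : Cen q M e) : ∀ u ∈ U, Cen q M u := by
  intro u hu
  by_cases hus : u ∈ Submodule.span F {e}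
  · obtain ⟨κ, rfl⟩ := Submodule.mem_span_singleton.mp hus
    exact hc.smul hF κ
  · have hd : u - e ∈ U := U.sub_mem hu he
    have hed : e ∉ Submodule.span F {u - e} := by
      intro hmem
      obtain ⟨κ, hκ⟩ := Submodule.mem_span_singleton.mp hmem
      apply hus
      rw [Submodule.mem_span_singleton]
      have hκ0 : κ ≠ 0 := by
        rintro rfl
        rw [zero_smul] at hκ
        exact he0 hκ.symm
      refine ⟨1 + κ⁻¹, ?_⟩
      have h1 : u - e = κ⁻¹ • e := by
        calc u - e = κ⁻¹ • (κ • (u - e)) := by rw [smul_smul, inv_mul_cancel₀ hκ0, one_smul]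
          _ = κ⁻¹ • e := by rw [hκ]
      rw [add_smul, one_smul, ← h1]
      abel
    obtain ⟨w, hw, hwd, hwe⟩ := hp.sep hF hd he hed
    have hew : Cfsg.hermForm n F q e w ≠ 0 := by
      rw [hf_conj hF n w e]
      exact pow_ne_zero _ hwe
    obtain ⟨μ, hμ⟩ : ∃ μ : F, μ = ((-1) / Cfsg.hermForm n F q e w) ^ q := ⟨_, rfl⟩
    have hμq : μ ^ q = (-1) / Cfsg.hermForm n F q e w := by rw [hμ, herm_pow_pow hF]
    have hin := hH (u - e) hd (μ • w) (W.smul_mem μ hw) (by rw [hf_smul_left, hwd, mul_zero])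
    have h2 := hc.map hM hin
    rw [heis0_mulVec, hp.isoU e he (u - e) hd, zero_smul, add_zero, hf_smul_right, hμq,
      div_mul_cancel₀ _ hew] at h2
    have h3 : e - (-1 : F) • (u - e) = u := by
      rw [neg_one_smul]
      abel
    rwa [h3] at h2

theorem cen_add (hF : Fintype.card F = q ^ 2) {M : Subgroup (GL (Fin n) F)}
    (hM : M ≤ Cfsg.GU n F q ⊓ Cfsg.Geo.specialLinear (Fin n) F) {u w : Fin n → F}
    (hu : Cen q M u) (hw : Cen q M w) (hs : Cfsg.hermForm n F q w u ≠ 0)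
    (htr : Cfsg.hermForm n F q w u + Cfsg.hermForm n F q w u ^ q = 0) : Cen q M (u + w) := by
  have hc : (Cfsg.hermForm n F q w u)⁻¹ + ((Cfsg.hermForm n F q w u)⁻¹) ^ q = 0 := by
    have h1 : Cfsg.hermForm n F q w u ^ q = -Cfsg.hermForm n F q w u := by
      linear_combination htr
    rw [inv_pow, h1, inv_neg]
    ring
  have h2 := Cen.hyp hM hu hw _ hc
  rw [inv_mul_cancel₀ hs, one_smul, add_comm] at h2
  exact h2

theorem cen_all_iso (hF : Fintype.card F = q ^ 2) {U W : Submodule F (Fin n → F)}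
    (hp : DualPair q n U W) (hspan : ∀ x, ∃ u ∈ U, ∃ w ∈ W, x = u + w)
    {M : Subgroup (GL (Fin n) F)}
    (hM : M ≤ Cfsg.GU n F q ⊓ Cfsg.Geo.specialLinear (Fin n) F)
    (hU : ∀ u ∈ U, Cen q M u) (hW : ∀ w ∈ W, Cen q M w) :
    ∀ v, Cfsg.hermForm n F q v v = 0 → Cen q M v := by
  intro v hv
  obtain ⟨u, hu, w, hw, rfl⟩ := hspan v
  have htr : Cfsg.hermForm n F q w u + Cfsg.hermForm n F q w u ^ q = 0 := by
    rw [hf_add_left, hf_add_right hF, hf_add_right hF, hp.isoU u hu u hu, hp.isoW w hw w hw,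
      hf_conj hF n w u] at hv
    linear_combination hv
  by_cases hs : Cfsg.hermForm n F q w u = 0
  · by_cases hu0 : u = 0
    · rw [hu0, zero_add]
      exact hW w hw
    · obtain ⟨w'', hw'', hne⟩ := hp.exU u hu hu0
      obtain ⟨c₀, hc₀0, hc₀⟩ := exists_trace_zero_ne hF
      obtain ⟨w', hw'eq⟩ : ∃ w' : Fin n → F,
          w' = (c₀ / Cfsg.hermForm n F q w'' u) • w'' := ⟨_, rfl⟩
      have hw' : w' ∈ W := by rw [hw'eq]; exact W.smul_mem _ hw''
      have hw'u : Cfsg.hermForm n F q w' u = c₀ := by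
        rw [hw'eq, hf_smul_left, div_mul_cancel₀ _ hne]
      have h1 : Cen q M (u + w') := by
        apply cen_add hF hM (hU u hu) (hW w' hw')
        · rw [hw'u]; exact hc₀0
        · rw [hw'u, hc₀]; ring
      have hval : Cfsg.hermForm n F q (w - w') (u + w') = -c₀ := by
        rw [hf_sub_left, hf_add_right hF, hf_add_right hF, hs, hp.isoW w hw w' hw', hw'u,
          hp.isoW w' hw' w' hw']
        ring
      have h2 : Cen q M ((u + w') + (w - w')) := by
        apply cen_add hF hM h1 (hW _ (W.sub_mem hw hw'))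
        · rw [hval]; exact neg_ne_zero.mpr hc₀0
        · rw [hval, herm_neg_pow hF, hc₀]; ring
      have h3 : (u + w') + (w - w') = u + w := by abel
      rwa [h3] at h2
  · exact cen_add hF hM (hU u hu) (hW w hw) hs htr

theorem su_le_of_cen (hF : Fintype.card F = q ^ 2) (hn : 4 ≤ n) {M : Subgroup (GL (Fin n) F)}
    (hall : ∀ v, Cfsg.hermForm n F q v v = 0 → Cen q M v) :
    Cfsg.GU n F q ⊓ Cfsg.Geo.specialLinear (Fin n) F ≤ M := by
  intro g hg
  have hmat : (g : Matrix (Fin n) (Fin n) F) ∈ suTM F q n :=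
    suTM_eq hF n (by omega) (Or.inl hn) _ hg.1 ((mem_sl_iff g).mp hg.2)
  have key : ∀ A ∈ suTM F q n, MIn M A := by
    intro A hA
    induction hA using Submonoid.closure_induction with
    | mem A hA =>
      obtain ⟨v, c, hv, hc, rfl⟩ := hA
      exact (hall v hv).2 c hc
    | one => exact MIn.one M
    | mul A B _ _ hA hB => exact hA.mul hB
  exact (key _ hmat).mem

/-! ### The element interchanging the two subspaces -/

theorem weyl (hF : Fintype.card F = q ^ 2) {u w : Fin n → F}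
    (huu : Cfsg.hermForm n F q u u = 0) (hww : Cfsg.hermForm n F q w w = 0)
    (huw : Cfsg.hermForm n F q u w = 1) (hwu : Cfsg.hermForm n F q w u = 1) {c : F}
    (hc0 : c ≠ 0) (hc : c ^ q = -c) :
    ∃ N ∈ suTM F q n, N *ᵥ u = (-c⁻¹) • w ∧ N *ᵥ w = c • u ∧
      ∀ x, Cfsg.hermForm n F q x u = 0 → Cfsg.hermForm n F q x w = 0 → N *ᵥ x = x := by
  have hc1 : c + c ^ q = 0 := by rw [hc]; ring
  have hc2 : (-c⁻¹) + (-c⁻¹) ^ q = 0 := by
    rw [herm_neg_pow hF, inv_pow, hc, inv_neg]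
    ring
  have e1 : -c⁻¹ * c = -1 := by field_simp
  have e2 : c * -c⁻¹ = -1 := by field_simp
  refine ⟨Cfsg.unitaryTransvection n q u c * Cfsg.unitaryTransvection n q w (-c⁻¹) *
      Cfsg.unitaryTransvection n q u c, ?_, ?_, ?_, ?_⟩
  · exact Submonoid.mul_mem _ (Submonoid.mul_mem _
      (Submonoid.subset_closure ⟨u, c, huu, hc1, rfl⟩)
      (Submonoid.subset_closure ⟨w, -c⁻¹, hww, hc2, rfl⟩))
      (Submonoid.subset_closure ⟨u, c, huu, hc1, rfl⟩)
  · rw [← Matrix.mulVec_mulVec, ← Matrix.mulVec_mulVec]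
    simp only [unitaryTransvection_mulVec, hf_add_left, hf_smul_left, huu, hww, huw, hwu,
      mul_zero, mul_one, zero_smul, add_zero, zero_add, e1, e2]
    module
  · rw [← Matrix.mulVec_mulVec, ← Matrix.mulVec_mulVec]
    simp only [unitaryTransvection_mulVec, hf_add_left, hf_smul_left, huu, hww, huw, hwu,
      mul_zero, mul_one, zero_smul, add_zero, zero_add, e1, e2]
    module
  · intro x hxu hxw
    rw [← Matrix.mulVec_mulVec, ← Matrix.mulVec_mulVec]
    simp only [unitaryTransvection_mulVec, hxu, hxw, mul_zero, zero_smul, add_zero]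

theorem swap_bot {U W : Submodule F (Fin n → F)} (hp : DualPair q n U W) (hU : U = ⊥) :
    ∃ J ∈ suTM F q n, (∀ x ∈ U, J *ᵥ x ∈ W) ∧ (∀ x ∈ W, J *ᵥ x ∈ U) ∧
      (∀ x, (∀ v ∈ U, Cfsg.hermForm n F q x v = 0) → (∀ v ∈ W, Cfsg.hermForm n F q x v = 0) →
        J *ᵥ x = x) := by
  have hW : ∀ x ∈ W, x = 0 := by
    intro x hx
    by_contra hx0
    obtain ⟨u, hu, huw⟩ := hp.exW x hx hx0
    rw [hU, Submodule.mem_bot] at hu
    rw [hu, hf_zero_left] at huw
    exact huw rfl
  refine ⟨1, Submonoid.one_mem _, ?_, ?_, ?_⟩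
  · intro x hx
    rw [hU, Submodule.mem_bot] at hx
    rw [hx, Matrix.mulVec_zero]
    exact W.zero_mem
  · intro x hx
    rw [hW x hx, Matrix.mulVec_zero]
    exact U.zero_mem
  · intro x _ _
    exact Matrix.one_mulVec x

theorem exists_swap (hF : Fintype.card F = q ^ 2) :
    ∀ (m : ℕ) (U W : Submodule F (Fin n → F)), DualPair q n U W → Module.finrank F U ≤ m →
      ∃ J ∈ suTM F q n, (∀ x ∈ U, J *ᵥ x ∈ W) ∧ (∀ x ∈ W, J *ᵥ x ∈ U) ∧
        (∀ x, (∀ v ∈ U, Cfsg.hermForm n F q x v = 0) →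
          (∀ v ∈ W, Cfsg.hermForm n F q x v = 0) → J *ᵥ x = x) := by
  intro m
  induction m with
  | zero =>
    intro U W hp hfin
    exact swap_bot hp (Submodule.finrank_eq_zero.mp (Nat.le_zero.mp hfin))
  | succ m ih =>
    intro U W hp hfin
    by_cases hU : U = ⊥
    · exact swap_bot hp hU
    · obtain ⟨u, hu, hu0⟩ := Submodule.exists_mem_ne_zero_of_ne_bot hU
      obtain ⟨w₀, hw₀, hw₀u⟩ := hp.exU u hu hu0
      obtain ⟨w, hweq⟩ : ∃ w : Fin n → F, w = (Cfsg.hermForm n F q w₀ u)⁻¹ • w₀ := ⟨_, rfl⟩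
      have hw : w ∈ W := by rw [hweq]; exact W.smul_mem _ hw₀
      have hwu : Cfsg.hermForm n F q w u = 1 := by
        rw [hweq, hf_smul_left, inv_mul_cancel₀ hw₀u]
      have huw : Cfsg.hermForm n F q u w = 1 := by rw [hf_conj hF n w u, hwu, one_pow]
      have huu := hp.isoU u hu u hu
      have hww := hp.isoW w hw w hw
      have hp' : DualPair q n (U ⊓ LinearMap.ker (hl q n w)) (W ⊓ LinearMap.ker (hl q n u)) := by
        refine ⟨fun x hx hx' => hp.disj x hx.1 hx'.1, fun a ha b hb => hp.isoU a ha.1 b hb.1,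
          fun a ha b hb => hp.isoW a ha.1 b hb.1, ?_, ?_⟩
        · intro u' hu' hu'0
          obtain ⟨w'', hw'', hne⟩ := hp.exU u' hu'.1 hu'0
          refine ⟨w'' - Cfsg.hermForm n F q w'' u • w,
            Submodule.mem_inf.mpr ⟨W.sub_mem hw'' (W.smul_mem _ hw), LinearMap.mem_ker.mpr ?_⟩, ?_⟩
          · rw [hl_apply, hf_sub_left, hf_smul_left, hwu, mul_one, sub_self]
          · have h0 : Cfsg.hermForm n F q w u' = 0 :=
              hf_eq_zero_symm hF n _ _ (LinearMap.mem_ker.mp hu'.2)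
            rw [hf_sub_left, hf_smul_left, h0, mul_zero, sub_zero]
            exact hne
        · intro w' hw' hw'0
          obtain ⟨u'', hu'', hne⟩ := hp.exW w' hw'.1 hw'0
          refine ⟨u'' - Cfsg.hermForm n F q u'' w • u,
            Submodule.mem_inf.mpr ⟨U.sub_mem hu'' (U.smul_mem _ hu), LinearMap.mem_ker.mpr ?_⟩, ?_⟩
          · rw [hl_apply, hf_sub_left, hf_smul_left, huw, mul_one, sub_self]
          · have h0 : Cfsg.hermForm n F q u w' = 0 :=
              hf_eq_zero_symm hF n _ _ (LinearMap.mem_ker.mp hw'.2)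
            rw [hf_sub_left, hf_smul_left, h0, mul_zero, sub_zero]
            exact hne
      have hlt : U ⊓ LinearMap.ker (hl q n w) < U := by
        refine lt_of_le_of_ne inf_le_left (fun h => ?_)
        have h1 : u ∈ U ⊓ LinearMap.ker (hl q n w) := by rw [h]; exact hu
        have h2 := LinearMap.mem_ker.mp h1.2
        rw [hl_apply, huw] at h2
        exact one_ne_zero h2
      have hfin' : Module.finrank F ↥(U ⊓ LinearMap.ker (hl q n w)) ≤ m := by
        have := Submodule.finrank_lt_finrank_of_lt hlt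
        omega
      obtain ⟨J', hJ', hJU, hJW, hJfix⟩ := ih _ _ hp' hfin'
      obtain ⟨c, hc0, hc⟩ := exists_trace_zero_ne hF
      obtain ⟨N, hN, hNu, hNw, hNfix⟩ := weyl hF huu hww huw hwu hc0 hc
      have hJ'u : J' *ᵥ u = u := by
        apply hJfix
        · intro v hv
          exact hp.isoU u hu v hv.1
        · intro v hv
          exact hf_eq_zero_symm hF n _ _ (LinearMap.mem_ker.mp hv.2)
      have hJ'w : J' *ᵥ w = w := by
        apply hJfix
        · intro v hv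
          exact hf_eq_zero_symm hF n _ _ (LinearMap.mem_ker.mp hv.2)
        · intro v hv
          exact hp.isoW w hw v hv.1
      refine ⟨N * J', Submonoid.mul_mem _ hN hJ', ?_, ?_, ?_⟩
      · intro x hx
        have hx' : x - Cfsg.hermForm n F q x w • u ∈ U ⊓ LinearMap.ker (hl q n w) := by
          refine Submodule.mem_inf.mpr ⟨U.sub_mem hx (U.smul_mem _ hu), LinearMap.mem_ker.mpr ?_⟩
          rw [hl_apply, hf_sub_left, hf_smul_left, huw, mul_one, sub_self]
        have h1 := hJU _ hx'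
        have hxe : x = (x - Cfsg.hermForm n F q x w • u) + Cfsg.hermForm n F q x w • u := by
          abel
        rw [hxe, ← Matrix.mulVec_mulVec, Matrix.mulVec_add, Matrix.mulVec_smul, hJ'u,
          Matrix.mulVec_add, Matrix.mulVec_smul, hNu,
          hNfix _ (LinearMap.mem_ker.mp h1.2) (hp.isoW _ h1.1 w hw)]
        exact W.add_mem h1.1 (W.smul_mem _ (W.smul_mem _ hw))
      · intro x hx
        have hx' : x - Cfsg.hermForm n F q x u • w ∈ W ⊓ LinearMap.ker (hl q n u) := by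
          refine Submodule.mem_inf.mpr ⟨W.sub_mem hx (W.smul_mem _ hw), LinearMap.mem_ker.mpr ?_⟩
          rw [hl_apply, hf_sub_left, hf_smul_left, hwu, mul_one, sub_self]
        have h1 := hJW _ hx'
        have hxe : x = (x - Cfsg.hermForm n F q x u • w) + Cfsg.hermForm n F q x u • w := by
          abel
        rw [hxe, ← Matrix.mulVec_mulVec, Matrix.mulVec_add, Matrix.mulVec_smul, hJ'w,
          Matrix.mulVec_add, Matrix.mulVec_smul, hNw,
          hNfix _ (hp.isoU _ h1.1 u hu) (LinearMap.mem_ker.mp h1.2)]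
        exact U.add_mem h1.1 (U.smul_mem _ (U.smul_mem _ hu))
      · intro x hxU hxW
        rw [← Matrix.mulVec_mulVec, hJfix x (fun v hv => hxU v hv.1) (fun v hv => hxW v hv.1)]
        exact hNfix x (hxU u hu) (hxW w hw)

/-! ### Elements not preserving the pair -/

theorem lin_union {S A B : Submodule F (Fin n → F)} (g : Matrix (Fin n) (Fin n) F)
    (h : ∀ x ∈ S, g *ᵥ x ∈ A ∨ g *ᵥ x ∈ B) :
    (∀ x ∈ S, g *ᵥ x ∈ A) ∨ (∀ x ∈ S, g *ᵥ x ∈ B) := by
  by_contra hcon
  push Not at hcon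
  obtain ⟨⟨x, hx, hxA⟩, ⟨y, hy, hyB⟩⟩ := hcon
  have hxB : g *ᵥ x ∈ B := (h x hx).resolve_left hxA
  have hyA : g *ᵥ y ∈ A := (h y hy).resolve_right hyB
  rcases h (x + y) (S.add_mem hx hy) with h1 | h1
  · rw [Matrix.mulVec_add] at h1
    exact hxA ((A.add_mem_iff_left hyA).mp h1)
  · rw [Matrix.mulVec_add] at h1
    exact hyB ((B.add_mem_iff_right hxB).mp h1)

theorem exists_perp_ne {W : Submodule F (Fin n → F)} (hkW : 2 ≤ Module.finrank F W)
    (u : Fin n → F) : ∃ w ∈ W, w ≠ 0 ∧ Cfsg.hermForm n F q w u = 0 := by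
  have h1 := finrank_inf_ker_ge W (hl q n u)
  have h2 : W ⊓ LinearMap.ker (hl q n u) ≠ ⊥ := by
    rw [← Submodule.one_le_finrank_iff]
    omega
  obtain ⟨w, hw, hw0⟩ := Submodule.exists_mem_ne_zero_of_ne_bot h2
  exact ⟨w, hw.1, hw0, LinearMap.mem_ker.mp hw.2⟩

theorem std_or (hF : Fintype.card F = q ^ 2) {U W : Submodule F (Fin n → F)}
    (hp : DualPair q n U W) (hkU : 2 ≤ Module.finrank F U) (hkW : 2 ≤ Module.finrank F W)
    {g : Matrix (Fin n) (Fin n) F} (hinj : ∀ x, g *ᵥ x = 0 → x = 0)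
    (hstd : ∀ u ∈ U, ∀ w ∈ W, u ≠ 0 → w ≠ 0 → Cfsg.hermForm n F q w u = 0 →
      (g *ᵥ u ∈ U ∧ g *ᵥ w ∈ W) ∨ (g *ᵥ u ∈ W ∧ g *ᵥ w ∈ U)) :
    ((∀ u ∈ U, g *ᵥ u ∈ U) ∧ (∀ w ∈ W, g *ᵥ w ∈ W)) ∨
      ((∀ u ∈ U, g *ᵥ u ∈ W) ∧ (∀ w ∈ W, g *ᵥ w ∈ U)) := by
  have hU : ∀ u ∈ U, g *ᵥ u ∈ U ∨ g *ᵥ u ∈ W := by
    intro u hu
    by_cases hu0 : u = 0
    · left
      rw [hu0, Matrix.mulVec_zero]
      exact U.zero_mem
    · obtain ⟨w, hw, hw0, hwu⟩ := exists_perp_ne (q := q) hkW u
      rcases hstd u hu w hw hu0 hw0 hwu with h | h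
      · exact Or.inl h.1
      · exact Or.inr h.1
  have hW : ∀ w ∈ W, g *ᵥ w ∈ W ∨ g *ᵥ w ∈ U := by
    intro w hw
    by_cases hw0 : w = 0
    · left
      rw [hw0, Matrix.mulVec_zero]
      exact W.zero_mem
    · obtain ⟨u, hu, hu0, huw⟩ := exists_perp_ne (q := q) hkU w
      rcases hstd u hu w hw hu0 hw0 (hf_eq_zero_symm hF n _ _ huw) with h | h
      · exact Or.inl h.2
      · exact Or.inr h.2
  obtain ⟨u, hu, hu0⟩ : ∃ u ∈ U, u ≠ 0 := by
    apply Submodule.exists_mem_ne_zero_of_ne_bot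
    rw [← Submodule.one_le_finrank_iff]
    omega
  obtain ⟨w, hw, hw0, hwu⟩ := exists_perp_ne (q := q) hkW u
  have hgu : g *ᵥ u ≠ 0 := fun h => hu0 (hinj u h)
  have hgw : g *ᵥ w ≠ 0 := fun h => hw0 (hinj w h)
  rcases lin_union g hU with hUU | hUW
  · rcases lin_union g hW with hWW | hWU
    · exact Or.inl ⟨hUU, hWW⟩
    · exfalso
      rcases hstd u hu w hw hu0 hw0 hwu with h | h
      · exact hgw (hp.disj _ (hWU w hw) h.2)
      · exact hgu (hp.disj _ (hUU u hu) h.1)
  · rcases lin_union g hW with hWW | hWU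
    · exfalso
      rcases hstd u hu w hw hu0 hw0 hwu with h | h
      · exact hgu (hp.disj _ h.1 (hUW u hu))
      · exact hgw (hp.disj _ h.2 (hWW w hw))
    · exact Or.inr ⟨hUW, hWU⟩

theorem gl_inj (g : GL (Fin n) F) (x : Fin n → F)
    (h : (g : Matrix (Fin n) (Fin n) F) *ᵥ x = 0) : x = 0 := by
  have h1 := congrArg (fun v => ((g⁻¹ : GL (Fin n) F) : Matrix (Fin n) (Fin n) F) *ᵥ v) h
  simpa [Matrix.mulVec_mulVec, ← Units.val_mul] using h1

theorem map_eq_of_forall {S T : Submodule F (Fin n → F)} (g : GL (Fin n) F)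
    (h : ∀ x ∈ S, (g : Matrix (Fin n) (Fin n) F) *ᵥ x ∈ T)
    (hfin : Module.finrank F T ≤ Module.finrank F S) :
    S.map (Matrix.toLin' (g : Matrix (Fin n) (Fin n) F)) = T := by
  have hinj : Function.Injective (Matrix.toLin' (g : Matrix (Fin n) (Fin n) F)) := by
    intro x y hxy
    rw [Matrix.toLin'_apply, Matrix.toLin'_apply] at hxy
    have h0 : (g : Matrix (Fin n) (Fin n) F) *ᵥ (x - y) = 0 := by
      rw [Matrix.mulVec_sub, hxy, sub_self]
    exact sub_eq_zero.mp (gl_inj g _ h0)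
  apply Submodule.eq_of_le_of_finrank_le
  · rintro _ ⟨x, hx, rfl⟩
    rw [Matrix.toLin'_apply]
    exact h x hx
  · rw [← (Submodule.equivMapOfInjective _ hinj S).finrank_eq]
    exact hfin

theorem heis_swap (hF : Fintype.card F = q ^ 2) (u w : Fin n → F) :
    heis q n w u 0 = heis q n u (-w) 0 := by
  apply Matrix.mulVec_injective
  funext x
  rw [heis0_mulVec, heis0_mulVec, hf_neg_right hF]
  module

/-! ### The stabiliser of a pair of complementary totally isotropic subspaces is maximal -/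

theorem heis_mem_stab (hF : Fintype.card F = q ^ 2) (D : Fin 2 → Submodule F (Fin n → F))
    (hts : ∀ i, Cfsg.Geo.IsTotallySingularFor (Cfsg.hermForm n F q) (D i))
    {u w : Fin n → F} (hu : u ∈ D 0) (hw : w ∈ D 1) (hwu : Cfsg.hermForm n F q w u = 0) :
    ∃ t ∈ Cfsg.Geo.decompositionStabilizer D ⊓
        (Cfsg.GU n F q ⊓ Cfsg.Geo.specialLinear (Fin n) F),
      (t : Matrix (Fin n) (Fin n) F) = heis q n u w 0 := by
  have huu := hts 0 u hu u hu
  have hww := hts 1 w hw w hw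
  obtain ⟨t, ht, htG⟩ := exists_gl_of_pres (heis0_pres hF u w huu hww hwu)
    (heis_det hF n u w 0 huu hwu)
  refine ⟨t, Subgroup.mem_inf.mpr ⟨⟨1, ?_⟩, htG⟩, ht⟩
  rw [Fin.forall_fin_two]
  constructor
  · rw [Equiv.Perm.one_apply]
    apply map_eq_of_forall t _ le_rfl
    intro x hx
    rw [ht, heis0_mulVec, hts 0 x hx u hu, zero_smul, add_zero]
    exact (D 0).sub_mem hx ((D 0).smul_mem _ hu)
  · rw [Equiv.Perm.one_apply]
    apply map_eq_of_forall t _ le_rfl
    intro x hx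
    rw [ht, heis0_mulVec, hts 1 x hx w hw, zero_smul, sub_zero]
    exact (D 1).add_mem hx ((D 1).smul_mem _ hw)

theorem su_pair_isMaximalIn (n q : ℕ) (hF : Fintype.card F = q ^ 2) (hn : 13 ≤ n) (k : ℕ)
    (hk : 2 * k = n) (D : Fin 2 → Submodule F (Fin n → F))
    (hD : Cfsg.Geo.IsMDecomposition k D)
    (hts : ∀ i, Cfsg.Geo.IsTotallySingularFor (Cfsg.hermForm n F q) (D i)) :
    Cfsg.Geo.IsMaximalIn (Cfsg.GU n F q ⊓ Cfsg.Geo.specialLinear (Fin n) F)
      (Cfsg.Geo.decompositionStabilizer D ⊓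
        (Cfsg.GU n F q ⊓ Cfsg.Geo.specialLinear (Fin n) F)) := by
  have hk7 : 7 ≤ k := by omega
  have hfU : Module.finrank F (D 0) = k := hD.finrank_eq 0
  have hfW : Module.finrank F (D 1) = k := hD.finrank_eq 1
  have hdisj : ∀ x, x ∈ D 0 → x ∈ D 1 → x = 0 := by
    have h1 : Disjoint (D 0) (⨆ j, ⨆ (_ : j ≠ 0), D j) := hD.indep 0
    have h2 : D 1 ≤ ⨆ j, ⨆ (_ : j ≠ 0), D j := le_iSup₂_of_le 1 (by decide) le_rfl
    exact Submodule.disjoint_def.mp (h1.mono_right h2)
  have hspan : ∀ x, ∃ u ∈ D 0, ∃ w ∈ D 1, x = u + w := by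
    intro x
    have h1 : iSup D ≤ D 0 ⊔ D 1 := by
      apply iSup_le
      rw [Fin.forall_fin_two]
      exact ⟨le_sup_left, le_sup_right⟩
    have h2 : x ∈ D 0 ⊔ D 1 := h1 (by rw [hD.iSup_eq_top]; trivial)
    obtain ⟨u, hu, w, hw, rfl⟩ := Submodule.mem_sup.mp h2
    exact ⟨u, hu, w, hw, rfl⟩
  have hp : DualPair q n (D 0) (D 1) := dualPair_of_compl hF hdisj hspan (hts 0) (hts 1)
  -- the interchanging element
  obtain ⟨J, hJ, hJU, hJW, -⟩ := exists_swap hF k (D 0) (D 1) hp (le_of_eq hfU)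
  obtain ⟨hJP, hJd⟩ := suHM_pres_det hF (suTM_le_HM hF n hJ)
  obtain ⟨tJ, htJ, htJG⟩ := exists_gl_of_pres hJP hJd
  have htJU : (D 0).map (Matrix.toLin' (tJ : Matrix (Fin n) (Fin n) F)) = D 1 :=
    map_eq_of_forall tJ (by rw [htJ]; exact hJU) (by rw [hfU, hfW])
  have htJW : (D 1).map (Matrix.toLin' (tJ : Matrix (Fin n) (Fin n) F)) = D 0 :=
    map_eq_of_forall tJ (by rw [htJ]; exact hJW) (by rw [hfU, hfW])
  have htJS : tJ ∈ Cfsg.Geo.decompositionStabilizer D := by
    refine ⟨Equiv.swap 0 1, ?_⟩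
    rw [Fin.forall_fin_two]
    exact ⟨by rw [Equiv.swap_apply_left]; exact htJU, by rw [Equiv.swap_apply_right]; exact htJW⟩
  have hU0 : D 0 ≠ ⊥ := by
    rw [← Submodule.one_le_finrank_iff]
    omega
  obtain ⟨u₀, hu₀, hu₀0⟩ := Submodule.exists_mem_ne_zero_of_ne_bot hU0
  refine ⟨lt_of_le_of_ne inf_le_right ?_, ?_⟩
  · -- a transvection outside the stabiliser
    intro heq
    obtain ⟨w₀, hw₀, hw₀u⟩ := hp.exU u₀ hu₀ hu₀0
    obtain ⟨c, hc0, hc⟩ := exists_trace_zero_ne hF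
    have huu := hts 0 u₀ hu₀ u₀ hu₀
    obtain ⟨t, ht, htG⟩ := exists_gl_of_pres
      (transvection_preserves hF n u₀ c huu (by rw [hc]; ring)) (transvection_det n u₀ c huu)
    rw [← heq] at htG
    obtain ⟨σ, hσ⟩ := htG.1
    have hmem : (t : Matrix (Fin n) (Fin n) F) *ᵥ w₀ ∈ D (σ 1) := by
      rw [← hσ 1]
      exact ⟨w₀, hw₀, Matrix.toLin'_apply _ _⟩
    rw [ht, unitaryTransvection_mulVec] at hmem
    have hne : (c * Cfsg.hermForm n F q w₀ u₀) • u₀ ≠ 0 :=
      smul_ne_zero (mul_ne_zero hc0 hw₀u) hu₀0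
    have hcases : ∀ j : Fin 2, j = 0 ∨ j = 1 := by decide
    rcases hcases (σ 1) with h | h
    · rw [h] at hmem
      have h1 : w₀ ∈ D 0 := ((D 0).add_mem_iff_left ((D 0).smul_mem _ hu₀)).mp hmem
      have h2 := hdisj w₀ h1 hw₀
      rw [h2, hf_zero_left] at hw₀u
      exact hw₀u rfl
    · rw [h] at hmem
      have h1 : (c * Cfsg.hermForm n F q w₀ u₀) • u₀ ∈ D 1 :=
        ((D 1).add_mem_iff_right hw₀).mp hmem
      exact hne (hdisj _ ((D 0).smul_mem _ hu₀) h1)
  · intro M hHM hMG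
    by_cases hMH : M ≤ Cfsg.Geo.decompositionStabilizer D ⊓
        (Cfsg.GU n F q ⊓ Cfsg.Geo.specialLinear (Fin n) F)
    · left
      exact le_antisymm hMH hHM
    · right
      apply le_antisymm hMG
      obtain ⟨g, hgM, hgH⟩ := SetLike.not_le_iff_exists.mp hMH
      have hgS : g ∉ Cfsg.Geo.decompositionStabilizer D := fun h => hgH ⟨h, hMG hgM⟩
      have hgP : suPres q n (g : Matrix (Fin n) (Fin n) F) := (hMG hgM).1
      have hgIn : MIn M (g : Matrix (Fin n) (Fin n) F) := ⟨g, hgM, rfl⟩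
      -- standard Heisenberg elements
      have hH : ∀ u ∈ D 0, ∀ w ∈ D 1, Cfsg.hermForm n F q w u = 0 →
          MIn M (heis q n u w 0) := by
        intro u hu w hw hwu
        obtain ⟨t, ht, hte⟩ := heis_mem_stab hF D hts hu hw hwu
        exact ⟨t, hHM ht, hte⟩
      have hH' : ∀ w ∈ D 1, ∀ u ∈ D 0, Cfsg.hermForm n F q u w = 0 →
          MIn M (heis q n w u 0) := by
        intro w hw u hu huw
        rw [heis_swap hF]
        apply hH u hu (-w) ((D 1).neg_mem hw)
        rw [hf_neg_left, hf_eq_zero_symm hF n _ _ huw, neg_zero]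
      have hJM : MIn M J := ⟨tJ, hHM (Subgroup.mem_inf.mpr ⟨htJS, htJG⟩), htJ⟩
      -- a non-standard pair
      have hex : ∃ u ∈ D 0, ∃ w ∈ D 1, u ≠ 0 ∧ w ≠ 0 ∧ Cfsg.hermForm n F q w u = 0 ∧
          ¬ (((g : Matrix (Fin n) (Fin n) F) *ᵥ u ∈ D 0 ∧
              (g : Matrix (Fin n) (Fin n) F) *ᵥ w ∈ D 1) ∨
            ((g : Matrix (Fin n) (Fin n) F) *ᵥ u ∈ D 1 ∧
              (g : Matrix (Fin n) (Fin n) F) *ᵥ w ∈ D 0)) := by
        by_contra hcon
        push Not at hcon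
        apply hgS
        rcases std_or hF hp (by omega) (by omega) (gl_inj g)
          (fun u hu w hw hu0 hw0 hwu => hcon u hu w hw hu0 hw0 hwu) with h | h
        · refine ⟨1, ?_⟩
          rw [Fin.forall_fin_two]
          exact ⟨by rw [Equiv.Perm.one_apply]; exact map_eq_of_forall g h.1 le_rfl,
            by rw [Equiv.Perm.one_apply]; exact map_eq_of_forall g h.2 le_rfl⟩
        · refine ⟨Equiv.swap 0 1, ?_⟩
          rw [Fin.forall_fin_two]
          exact ⟨by rw [Equiv.swap_apply_left]; exact map_eq_of_forall g h.1 (by rw [hfU, hfW]),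
            by rw [Equiv.swap_apply_right]; exact map_eq_of_forall g h.2 (by rw [hfU, hfW])⟩
      obtain ⟨u, hu, w, hw, hu0, hw0, hwu, hns⟩ := hex
      have hfam : ∀ l : F, MIn M (heis q n ((g : Matrix (Fin n) (Fin n) F) *ᵥ u)
          (l • ((g : Matrix (Fin n) (Fin n) F) *ᵥ w)) 0) := by
        intro l
        have h0 := hH u hu (l • w) ((D 1).smul_mem l hw) (by rw [hf_smul_left, hwu, mul_zero])
        have h1 := conj_heis hgP u (l • w) 0
        rw [Matrix.mulVec_smul] at h1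
        exact MIn.conj hgIn h0 h1
      obtain ⟨aU, haU, aW, haW, hae⟩ := hspan ((g : Matrix (Fin n) (Fin n) F) *ᵥ u)
      obtain ⟨bU, hbU, bW, hbW, hbe⟩ := hspan ((g : Matrix (Fin n) (Fin n) F) *ᵥ w)
      have hga0 : (g : Matrix (Fin n) (Fin n) F) *ᵥ u ≠ 0 := fun h => hu0 (gl_inj g u h)
      have hgb0 : (g : Matrix (Fin n) (Fin n) F) *ᵥ w ≠ 0 := fun h => hw0 (gl_inj g w h)
      rw [hae, hbe] at hfam hns
      rw [hae] at hga0
      rw [hbe] at hgb0
      have hcen : (∀ x ∈ D 0, Cen q M x) ∧ (∀ x ∈ D 1, Cen q M x) := by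
        by_cases c1 : aU ≠ 0 ∧ bU ≠ 0
        · obtain ⟨e, he, he0, hce⟩ := uside hF hp (by omega) hMG hH haU haW hbU hbW c1.1 c1.2 hfam
          have hallU := cen_all hF hp hMG hH he he0 hce
          refine ⟨hallU, fun x hx => ?_⟩
          rw [← htJU] at hx
          obtain ⟨x', hx', rfl⟩ := hx
          rw [Matrix.toLin'_apply, htJ]
          exact (hallU x' hx').map hMG hJM
        · by_cases c2 : aW ≠ 0 ∧ bW ≠ 0
          · have hfam' : ∀ l : F, MIn M (heis q n (aW + aU) (l • (bW + bU)) 0) := by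
              intro l
              rw [add_comm aW aU, add_comm bW bU]
              exact hfam l
            obtain ⟨e, he, he0, hce⟩ := uside hF hp.symm (by omega) hMG hH' haW haU hbW hbU
              c2.1 c2.2 hfam'
            have hallW := cen_all hF hp.symm hMG hH' he he0 hce
            refine ⟨fun x hx => ?_, hallW⟩
            rw [← htJW] at hx
            obtain ⟨x', hx', rfl⟩ := hx
            rw [Matrix.toLin'_apply, htJ]
            exact (hallW x' hx').map hMG hJM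
          · exfalso
            apply hns
            by_cases haU0 : aU = 0
            · have haW0 : aW ≠ 0 := by
                intro h
                apply hga0
                rw [haU0, h, add_zero]
              have hbW0 : bW = 0 := by
                by_contra h
                exact c2 ⟨haW0, h⟩
              right
              rw [haU0, hbW0, zero_add, add_zero]
              exact ⟨haW, hbU⟩
            · have hbU0 : bU = 0 := by
                by_contra h
                exact c1 ⟨haU0, h⟩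
              have hbW0 : bW ≠ 0 := by
                intro h
                apply hgb0
                rw [hbU0, h, add_zero]
              have haW0 : aW = 0 := by
                by_contra h
                exact c2 ⟨h, hbW0⟩
              left
              rw [haW0, hbU0, zero_add, add_zero]
              exact ⟨haU, hbW⟩
      exact su_le_of_cen hF (by omega) (cen_all_iso hF hp hspan hMG hcen.1 hcen.2)

end

end Cfsg.Agent.Lib.Helper93
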