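import Mathlib
import Cfsg.Agent.Lib.Helper18.LSDefs
import Cfsg.Agent.Lib.Helper18.WRDefs

/-! Project WR (helper18, S2347), piece TRIVA (helper93). -/

set_option autoImplicit false

namespace Cfsg.Agent.Lib.Helper18.WR

open Matrix

universe u

variable {F : Type u} [Field F] {n : ℕ}

-- piece TRIVA
theorem triv_span {E V : Type*} [AddCommGroup E] [Module ℂ E] [AddCommGroup V]
    (W : V → Module.End ℂ E) (P : Module.End ℂ E) (hPW : ∀ v, P * W v = W (-v) * P)
    (hPP : P * P = 1) (h0 : W 0 = 1) (hspan : Submodule.span ℂ (Set.range W) = ⊤) (v₀ : V)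
    (hS : ∀ v, v ≠ 0 → (W v + W (-v)) * (1 - P) = (W v₀ + W (-v₀)) * (1 - P)) :
    ∀ D : Module.End ℂ E, ∃ α β : ℂ,
      (1 - P) * D * (1 - P) = α • (1 - P) + β • ((W v₀ + W (-v₀)) * (1 - P)) := by
  intro D
  have hD : D ∈ Submodule.span ℂ (Set.range W) := by
    rw [hspan]
    exact Submodule.mem_top
  induction hD using Submodule.span_induction with
  | mem x hx =>
    obtain ⟨v, rfl⟩ := hx
    have key : (1 - P) * W v * (1 - P) = (W v + W (-v)) * (1 - P) := by
      have h1 : P * W v * P = W (-v) := by rw [hPW, mul_assoc, hPP, mul_one]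
      calc (1 - P) * W v * (1 - P) = W v - W v * P - P * W v + P * W v * P := by noncomm_ring
        _ = W v - W v * P - W (-v) * P + W (-v) := by rw [h1, hPW]
        _ = (W v + W (-v)) * (1 - P) := by noncomm_ring
    by_cases hv : v = 0
    · subst hv
      refine ⟨2, 0, ?_⟩
      rw [key, neg_zero, h0, zero_smul, add_zero, two_smul, add_mul, one_mul]
    · refine ⟨0, 1, ?_⟩
      rw [key, hS v hv, zero_smul, zero_add, one_smul]
  | zero => exact ⟨0, 0, by simp⟩
  | add x y hx hy ihx ihy =>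
    obtain ⟨a1, b1, h1⟩ := ihx
    obtain ⟨a2, b2, h2⟩ := ihy
    refine ⟨a1 + a2, b1 + b2, ?_⟩
    rw [mul_add, add_mul, h1, h2, add_smul, add_smul]
    abel
  | smul c x hx ih =>
    obtain ⟨a, b, h⟩ := ih
    refine ⟨c * a, c * b, ?_⟩
    rw [mul_smul_comm, smul_mul_assoc, h, smul_add, smul_smul, smul_smul]

end Cfsg.Agent.Lib.Helper18.WR
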