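import Mathlib

/-! Project QB (helper48, S2359), piece QB-QUOT (helper93): the centralizer of an element of odd
prime order `r` in `S ⧸ center S` when the center has order 2: it is the image of the centralizer
of a lift of order `r`. -/

set_option autoImplicit false

namespace Cfsg.Agent.Lib.Helper48.QB

-- QB-QUOT
theorem quot_cent {S : Type*} [Group S] [Finite S] (hZ : Nat.card (Subgroup.center S) = 2)
    (r A : ℕ) (hr : r.Prime) (hr2 : r ≠ 2)
    (hS : ∀ g : S, orderOf g = r → Nat.card (Subgroup.centralizer {g}) = A ∧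
      ∀ a ∈ Subgroup.centralizer {g}, ∀ b ∈ Subgroup.centralizer {g}, a * b = b * a)
    (l : S ⧸ Subgroup.center S) (hl : orderOf l = r) :
    Nat.card (Subgroup.centralizer {l}) = A / 2 ∧
      ∀ a ∈ Subgroup.centralizer {l}, ∀ b ∈ Subgroup.centralizer {l}, a * b = b * a := by
  classical
  haveI : Fact r.Prime := ⟨hr⟩
  have hz2 : ∀ z ∈ Subgroup.center S, z ^ 2 = 1 := by
    intro z hz
    have h1 : (⟨z, hz⟩ : Subgroup.center S) ^ Nat.card (Subgroup.center S) = 1 :=
      pow_card_eq_one'
    rw [hZ] at h1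
    simpa using congrArg Subtype.val h1
  obtain ⟨m, hm⟩ := hr.odd_of_ne_two hr2
  obtain ⟨g₀, rfl⟩ := QuotientGroup.mk_surjective l
  have hl1 : (g₀ : S ⧸ Subgroup.center S) ^ r = 1 := by
    rw [← hl]
    exact pow_orderOf_eq_one _
  have hg0r : g₀ ^ r ∈ Subgroup.center S := by
    rw [← QuotientGroup.eq_one_iff, QuotientGroup.mk_pow]
    exact hl1
  obtain ⟨g, hgdef⟩ : ∃ g : S, g = g₀ ^ (r + 1) := ⟨_, rfl⟩
  have hπg : (g : S ⧸ Subgroup.center S) = (g₀ : S ⧸ Subgroup.center S) := by
    rw [hgdef, QuotientGroup.mk_pow, pow_succ, hl1, one_mul]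
  have hgr : g ^ r = 1 := by
    have h1 : r + 1 = 2 * (m + 1) := by omega
    rw [hgdef, ← pow_mul, mul_comm, pow_mul, h1, pow_mul, hz2 _ hg0r, one_pow]
  have hg1 : g ≠ 1 := by
    intro h
    have h2 : (g₀ : S ⧸ Subgroup.center S) = 1 := by
      rw [← hπg, h]
      rfl
    rw [h2, orderOf_one] at hl
    exact hr.one_lt.ne hl
  have hog : orderOf g = r := orderOf_eq_prime hgr hg1
  obtain ⟨hcard, hcomm⟩ := hS g hog
  have hclaim : ∀ x : S, (x : S ⧸ Subgroup.center S) ∈
      Subgroup.centralizer {(g₀ : S ⧸ Subgroup.center S)} ↔ x ∈ Subgroup.centralizer {g} := by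
    intro x
    rw [Subgroup.mem_centralizer_singleton_iff, Subgroup.mem_centralizer_singleton_iff]
    constructor
    · intro h
      have hz : x * g * x⁻¹ * g⁻¹ ∈ Subgroup.center S := by
        rw [← QuotientGroup.eq_one_iff]
        simp only [QuotientGroup.mk_mul, QuotientGroup.mk_inv, hπg]
        rw [h]
        group
      obtain ⟨z, hzdef⟩ : ∃ z : S, z = x * g * x⁻¹ * g⁻¹ := ⟨_, rfl⟩
      rw [← hzdef] at hz
      have hxg : x * g * x⁻¹ = z * g := by
        rw [hzdef]
        group
      have hzr : z ^ r = 1 := by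
        have h1 : (z * g) ^ r = 1 := by
          rw [← hxg, conj_pow, hgr, mul_one, mul_inv_cancel]
        have hcomm' : Commute z g := (Subgroup.mem_center_iff.mp hz g).symm
        rw [hcomm'.mul_pow, hgr, mul_one] at h1
        exact h1
      have hz1 : z = 1 := by
        have h2 := hz2 z hz
        rw [hm, pow_succ, pow_mul, h2, one_pow, one_mul] at hzr
        exact hzr
      rw [hz1, one_mul] at hxg
      have h3 := congrArg (· * x) hxg
      simpa using h3
    · intro h
      rw [← hπg, ← QuotientGroup.mk_mul, ← QuotientGroup.mk_mul, h]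
  have hcomap : Subgroup.centralizer {g} =
      (Subgroup.centralizer {(g₀ : S ⧸ Subgroup.center S)}).comap
        (QuotientGroup.mk' (Subgroup.center S)) := by
    ext x
    rw [Subgroup.mem_comap]
    exact (hclaim x).symm
  constructor
  · have hidx := Subgroup.index_comap_of_surjective
      (Subgroup.centralizer {(g₀ : S ⧸ Subgroup.center S)})
      (QuotientGroup.mk'_surjective (Subgroup.center S))
    rw [← hcomap] at hidx
    have h1 := Subgroup.card_mul_index (Subgroup.centralizer {g})
    have h2 := Subgroup.card_mul_index (Subgroup.centralizer {(g₀ : S ⧸ Subgroup.center S)})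
    have h3 := Subgroup.card_eq_card_quotient_mul_card_subgroup (Subgroup.center S)
    rw [hZ] at h3
    rw [hcard, hidx] at h1
    have hidx0 : 0 < (Subgroup.centralizer {(g₀ : S ⧸ Subgroup.center S)}).index :=
      Nat.pos_of_ne_zero Subgroup.index_ne_zero_of_finite
    have h4 : A = 2 * Nat.card (Subgroup.centralizer {(g₀ : S ⧸ Subgroup.center S)}) := by
      have h5 : A * (Subgroup.centralizer {(g₀ : S ⧸ Subgroup.center S)}).index
          = (2 * Nat.card (Subgroup.centralizer {(g₀ : S ⧸ Subgroup.center S)}))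
            * (Subgroup.centralizer {(g₀ : S ⧸ Subgroup.center S)}).index := by
        rw [h1, h3, ← h2]
        ring
      exact Nat.eq_of_mul_eq_mul_right hidx0 h5
    omega
  · intro a ha b hb
    obtain ⟨x, rfl⟩ := QuotientGroup.mk_surjective a
    obtain ⟨y, rfl⟩ := QuotientGroup.mk_surjective b
    rw [← QuotientGroup.mk_mul, ← QuotientGroup.mk_mul,
      hcomm x ((hclaim x).mp ha) y ((hclaim y).mp hb)]

end Cfsg.Agent.Lib.Helper48.QB
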