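import Mathlib

/-!
# Sylow 2-subgroups of the alternating group of degree 6

For two subgroups `D1`, `D2` of order 8 of `A₆`, the elements `a` with `D1 ∩ a D2 a⁻¹ = 1` fall
into two classes of at most 128 elements each, separated by the property `PH`.
-/

set_option autoImplicit false

namespace Cfsg.Agent.Lib.Helper93.A6Syl

open Equiv
open scoped Pointwise

section general

variable {Γ : Type*} [Group Γ]

/-- `P` meets the conjugate of `Q` by `m` trivially. -/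
def TI (P Q : Subgroup Γ) (m : Γ) : Prop := ∀ y ∈ P, m⁻¹ * y * m ∈ Q → y = 1

/-- Some nontrivial `p ∈ P` and the conjugate by `m` of some nontrivial `q ∈ Q` have a product of
order at most 2. -/
def PH (P Q : Subgroup Γ) (m : Γ) : Prop :=
  ∃ p ∈ P, ∃ q ∈ Q, p ≠ 1 ∧ q ≠ 1 ∧ (p * (m * q * m⁻¹)) * (p * (m * q * m⁻¹)) = 1

theorem TI_map {Γ' : Type*} [Group Γ'] (φ : Γ ≃* Γ') (P Q : Subgroup Γ) (m : Γ) :
    TI (P.map φ.toMonoidHom) (Q.map φ.toMonoidHom) (φ m) ↔ TI P Q m := by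
  constructor
  · intro h y hy hyQ
    have h1 := h (φ y) (Subgroup.mem_map_of_mem φ.toMonoidHom hy) (by
      have e : (φ m)⁻¹ * φ y * φ m = φ (m⁻¹ * y * m) := by simp
      rw [e]
      exact Subgroup.mem_map_of_mem φ.toMonoidHom hyQ)
    exact (MulEquiv.map_eq_one_iff φ).1 h1
  · intro h y' hy' hyQ
    obtain ⟨y, hy, rfl⟩ := Subgroup.mem_map.1 hy'
    obtain ⟨z, hz, hzeq⟩ := Subgroup.mem_map.1 hyQ
    have e : z = m⁻¹ * y * m := φ.injective (by
      have e2 : φ (m⁻¹ * y * m) = (φ m)⁻¹ * φ y * φ m := by simp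
      rw [e2]
      exact hzeq)
    rw [e] at hz
    have := h y hy hz
    rw [this]
    exact map_one φ.toMonoidHom

theorem PH_map {Γ' : Type*} [Group Γ'] (φ : Γ ≃* Γ') (P Q : Subgroup Γ) (m : Γ) :
    PH (P.map φ.toMonoidHom) (Q.map φ.toMonoidHom) (φ m) ↔ PH P Q m := by
  constructor
  · rintro ⟨p', hp', q', hq', hp1, hq1, hsq⟩
    obtain ⟨p, hp, rfl⟩ := Subgroup.mem_map.1 hp'
    obtain ⟨q, hq, rfl⟩ := Subgroup.mem_map.1 hq'
    refine ⟨p, hp, q, hq, ?_, ?_, ?_⟩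
    · rintro rfl
      exact hp1 (map_one φ.toMonoidHom)
    · rintro rfl
      exact hq1 (map_one φ.toMonoidHom)
    · apply φ.injective
      have e : φ (p * (m * q * m⁻¹) * (p * (m * q * m⁻¹)))
          = φ p * (φ m * φ q * (φ m)⁻¹) * (φ p * (φ m * φ q * (φ m)⁻¹)) := by simp
      rw [e, map_one]
      exact hsq
  · rintro ⟨p, hp, q, hq, hp1, hq1, hsq⟩
    refine ⟨φ p, Subgroup.mem_map_of_mem φ.toMonoidHom hp, φ q,
      Subgroup.mem_map_of_mem φ.toMonoidHom hq, ?_, ?_, ?_⟩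
    · intro h
      exact hp1 ((MulEquiv.map_eq_one_iff φ).1 h)
    · intro h
      exact hq1 ((MulEquiv.map_eq_one_iff φ).1 h)
    · have e : φ p * (φ m * φ q * (φ m)⁻¹) * (φ p * (φ m * φ q * (φ m)⁻¹))
          = φ (p * (m * q * m⁻¹) * (p * (m * q * m⁻¹))) := by simp
      rw [e, hsq, map_one]

theorem TI_comap (K : Subgroup Γ) (P Q : Subgroup Γ) (hP : P ≤ K) (m : K) :
    TI (P.comap K.subtype) (Q.comap K.subtype) m ↔ TI P Q (m : Γ) := by
  constructor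
  · intro h y hy hyQ
    have h1 := h ⟨y, hP hy⟩ hy hyQ
    exact congrArg Subtype.val h1
  · intro h y hy hyQ
    exact Subtype.ext (h (y : Γ) hy hyQ)

theorem PH_comap (K : Subgroup Γ) (P Q : Subgroup Γ) (hP : P ≤ K) (hQ : Q ≤ K) (m : K) :
    PH (P.comap K.subtype) (Q.comap K.subtype) m ↔ PH P Q (m : Γ) := by
  constructor
  · rintro ⟨p, hp, q, hq, hp1, hq1, hsq⟩
    refine ⟨(p : Γ), hp, (q : Γ), hq, ?_, ?_, ?_⟩
    · intro h
      exact hp1 (Subtype.ext h)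
    · intro h
      exact hq1 (Subtype.ext h)
    · exact congrArg Subtype.val hsq
  · rintro ⟨p, hp, q, hq, hp1, hq1, hsq⟩
    refine ⟨⟨p, hP hp⟩, hp, ⟨q, hQ hq⟩, hq, ?_, ?_, ?_⟩
    · intro h
      exact hp1 (congrArg Subtype.val h)
    · intro h
      exact hq1 (congrArg Subtype.val h)
    · exact Subtype.ext hsq

theorem TI_conj (P Q P' Q' : Subgroup Γ) (c c2 : Γ) (hP : ∀ y, y ∈ P' ↔ c⁻¹ * y * c ∈ P)
    (hQ : ∀ y, y ∈ Q' ↔ c2⁻¹ * y * c2 ∈ Q) (a : Γ) :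
    TI P' Q' a ↔ TI P Q (c⁻¹ * a * c2) := by
  constructor
  · intro h z hz hzQ
    have hy : c * z * c⁻¹ ∈ P' := by
      rw [hP]
      have e : c⁻¹ * (c * z * c⁻¹) * c = z := by group
      rw [e]
      exact hz
    have hyQ : a⁻¹ * (c * z * c⁻¹) * a ∈ Q' := by
      rw [hQ]
      have e : c2⁻¹ * (a⁻¹ * (c * z * c⁻¹) * a) * c2
          = (c⁻¹ * a * c2)⁻¹ * z * (c⁻¹ * a * c2) := by group
      rw [e]
      exact hzQ
    have h1 := h _ hy hyQ
    have e : z = c⁻¹ * (c * z * c⁻¹) * c := by group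
    rw [e, h1]
    group
  · intro h y hy hyQ
    have hz := (hP y).1 hy
    have hzQ : (c⁻¹ * a * c2)⁻¹ * (c⁻¹ * y * c) * (c⁻¹ * a * c2) ∈ Q := by
      have e : (c⁻¹ * a * c2)⁻¹ * (c⁻¹ * y * c) * (c⁻¹ * a * c2)
          = c2⁻¹ * (a⁻¹ * y * a) * c2 := by group
      rw [e]
      exact (hQ _).1 hyQ
    have h1 := h _ hz hzQ
    have e : y = c * (c⁻¹ * y * c) * c⁻¹ := by group
    rw [e, h1]
    group

theorem PH_conj (P Q P' Q' : Subgroup Γ) (c c2 : Γ) (hP : ∀ y, y ∈ P' ↔ c⁻¹ * y * c ∈ P)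
    (hQ : ∀ y, y ∈ Q' ↔ c2⁻¹ * y * c2 ∈ Q) (a : Γ) :
    PH P' Q' a ↔ PH P Q (c⁻¹ * a * c2) := by
  constructor
  · rintro ⟨p, hp, q, hq, hp1, hq1, hsq⟩
    refine ⟨c⁻¹ * p * c, (hP p).1 hp, c2⁻¹ * q * c2, (hQ q).1 hq, ?_, ?_, ?_⟩
    · intro h
      apply hp1
      have e : p = c * (c⁻¹ * p * c) * c⁻¹ := by group
      rw [e, h]
      group
    · intro h
      apply hq1
      have e : q = c2 * (c2⁻¹ * q * c2) * c2⁻¹ := by group
      rw [e, h]
      group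
    · have e : c⁻¹ * p * c * (c⁻¹ * a * c2 * (c2⁻¹ * q * c2) * (c⁻¹ * a * c2)⁻¹)
          * (c⁻¹ * p * c * (c⁻¹ * a * c2 * (c2⁻¹ * q * c2) * (c⁻¹ * a * c2)⁻¹))
          = c⁻¹ * (p * (a * q * a⁻¹) * (p * (a * q * a⁻¹))) * c := by group
      rw [e, hsq]
      group
  · rintro ⟨p, hp, q, hq, hp1, hq1, hsq⟩
    refine ⟨c * p * c⁻¹, ?_, c2 * q * c2⁻¹, ?_, ?_, ?_, ?_⟩
    · rw [hP]
      have e : c⁻¹ * (c * p * c⁻¹) * c = p := by group
      rw [e]
      exact hp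
    · rw [hQ]
      have e : c2⁻¹ * (c2 * q * c2⁻¹) * c2 = q := by group
      rw [e]
      exact hq
    · intro h
      apply hp1
      have e : p = c⁻¹ * (c * p * c⁻¹) * c := by group
      rw [e, h]
      group
    · intro h
      apply hq1
      have e : q = c2⁻¹ * (c2 * q * c2⁻¹) * c2 := by group
      rw [e, h]
      group
    · have e : c * p * c⁻¹ * (a * (c2 * q * c2⁻¹) * a⁻¹) * (c * p * c⁻¹ * (a * (c2 * q * c2⁻¹) * a⁻¹))
          = c * (p * (c⁻¹ * a * c2 * q * (c⁻¹ * a * c2)⁻¹)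
            * (p * (c⁻¹ * a * c2 * q * (c⁻¹ * a * c2)⁻¹))) * c⁻¹ := by group
      rw [e, hsq]
      group

theorem TI_mul_right (P Q : Subgroup Γ) (m d : Γ) (hd : d ∈ Q) :
    TI P Q (m * d) ↔ TI P Q m := by
  constructor
  · intro h y hy hyQ
    refine h y hy ?_
    have e : (m * d)⁻¹ * y * (m * d) = d⁻¹ * (m⁻¹ * y * m) * d := by group
    rw [e]
    exact Q.mul_mem (Q.mul_mem (Q.inv_mem hd) hyQ) hd
  · intro h y hy hyQ
    refine h y hy ?_
    have e : m⁻¹ * y * m = d * ((m * d)⁻¹ * y * (m * d)) * d⁻¹ := by group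
    rw [e]
    exact Q.mul_mem (Q.mul_mem hd hyQ) (Q.inv_mem hd)

theorem PH_mul_right (P Q : Subgroup Γ) (m d : Γ) (hd : d ∈ Q) :
    PH P Q (m * d) ↔ PH P Q m := by
  constructor
  · rintro ⟨p, hp, q, hq, hp1, hq1, hsq⟩
    refine ⟨p, hp, d * q * d⁻¹, Q.mul_mem (Q.mul_mem hd hq) (Q.inv_mem hd), hp1, ?_, ?_⟩
    · intro h
      apply hq1
      have e : q = d⁻¹ * (d * q * d⁻¹) * d := by group
      rw [e, h]
      group
    · have e : p * (m * (d * q * d⁻¹) * m⁻¹) * (p * (m * (d * q * d⁻¹) * m⁻¹))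
          = p * (m * d * q * (m * d)⁻¹) * (p * (m * d * q * (m * d)⁻¹)) := by group
      rw [e]
      exact hsq
  · rintro ⟨p, hp, q, hq, hp1, hq1, hsq⟩
    refine ⟨p, hp, d⁻¹ * q * d, Q.mul_mem (Q.mul_mem (Q.inv_mem hd) hq) hd, hp1, ?_, ?_⟩
    · intro h
      apply hq1
      have e : q = d * (d⁻¹ * q * d) * d⁻¹ := by group
      rw [e, h]
      group
    · have e : p * (m * d * (d⁻¹ * q * d) * (m * d)⁻¹) * (p * (m * d * (d⁻¹ * q * d) * (m * d)⁻¹))
          = p * (m * q * m⁻¹) * (p * (m * q * m⁻¹)) := by group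
      rw [e]
      exact hsq

/-- Two subgroups of the order of a Sylow subgroup are conjugate. -/
theorem exists_conj_of_card [Finite Γ] (p : ℕ) [Fact p.Prime] (P0 P1 : Subgroup Γ)
    (h0 : Nat.card P0 = p ^ (Nat.card Γ).factorization p)
    (h1 : Nat.card P1 = p ^ (Nat.card Γ).factorization p) :
    ∃ c : Γ, ∀ y, y ∈ P1 ↔ c⁻¹ * y * c ∈ P0 := by
  obtain ⟨c, hc⟩ := MulAction.exists_smul_eq Γ (Sylow.ofCard P0 h0) (Sylow.ofCard P1 h1)
  refine ⟨c, fun y => ?_⟩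
  have e : P1 = MulAut.conj c • P0 := by
    have := congrArg (fun S : Sylow p Γ => (S : Subgroup Γ)) hc
    exact this.symm
  rw [e, Subgroup.mem_pointwise_smul_iff_inv_smul_mem]
  rfl

end general

/-! ### The explicit subgroup and coset representatives -/

/-- A permutation of six points as a product of transpositions. -/
def swp (l : List (ℕ × ℕ)) : Perm (Fin 6) :=
  (l.map (fun ab => Equiv.swap (Fin.ofNat 6 ab.1) (Fin.ofNat 6 ab.2))).prod

/-- The eight elements of a dihedral subgroup of order 8. -/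
def dT : List (List (ℕ × ℕ)) := [[],
  [(0, 3), (0, 1), (0, 2), (4, 5)],
  [(0, 1), (2, 3)],
  [(0, 2), (0, 1), (0, 3), (4, 5)],
  [(0, 1), (4, 5)],
  [(0, 2), (1, 3)],
  [(2, 3), (4, 5)],
  [(0, 3), (1, 2)]]

/-- Representatives of its 45 left cosets in the alternating group. -/
def repT : List (List (ℕ × ℕ)) := [[],
  [(3, 5), (3, 4)],
  [(3, 4), (3, 5)],
  [(2, 4), (2, 3)],
  [(2, 5), (2, 3)],
  [(2, 4), (3, 5)],
  [(1, 2), (4, 5)],
  [(1, 2), (3, 4)],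
  [(1, 2), (3, 5)],
  [(1, 4), (1, 2)],
  [(1, 5), (1, 2)],
  [(1, 2), (1, 3)],
  [(1, 4), (1, 3)],
  [(1, 5), (1, 3)],
  [(1, 3), (2, 4)],
  [(1, 3), (2, 5)],
  [(1, 2), (1, 4)],
  [(1, 3), (1, 4)],
  [(1, 5), (1, 4)],
  [(1, 4), (3, 5)],
  [(1, 4), (2, 5)],
  [(1, 2), (1, 5)],
  [(1, 3), (1, 5)],
  [(1, 4), (1, 5)],
  [(1, 5), (3, 4)],
  [(1, 5), (2, 4)],
  [(0, 4), (0, 1)],
  [(0, 5), (0, 1)],
  [(0, 4), (0, 2)],
  [(0, 5), (0, 2)],
  [(0, 4), (0, 3)],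
  [(0, 5), (0, 3)],
  [(0, 4), (3, 5)],
  [(0, 4), (2, 5)],
  [(0, 4), (1, 5)],
  [(0, 5), (3, 4)],
  [(0, 5), (2, 4)],
  [(1, 5), (1, 3), (1, 4), (1, 2)],
  [(1, 4), (1, 2), (1, 5), (1, 3)],
  [(1, 2), (1, 5), (1, 3), (1, 4)],
  [(1, 2), (1, 4), (1, 3), (1, 5)],
  [(0, 4), (0, 2), (0, 1), (3, 5)],
  [(0, 5), (0, 3), (0, 1), (2, 4)],
  [(0, 5), (0, 3), (0, 2), (1, 4)],
  [(0, 4), (0, 3), (0, 2), (1, 5)]]

def dS (k : Fin 8) : Perm (Fin 6) := swp (dT.getD k.val [])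

def rep (j : Fin 45) : Perm (Fin 6) := swp (repT.getD j.val [])

theorem sign_rep : ∀ j : Fin 45, Perm.sign (rep j) = 1 := by
  decide +kernel

theorem sign_dS : ∀ k : Fin 8, Perm.sign (dS k) = 1 := by
  decide +kernel

theorem dS_zero : dS 0 = 1 := by
  decide +kernel

theorem dS_mul : ∀ k k' : Fin 8, ∃ k'' : Fin 8, dS k * dS k' = dS k'' := by
  decide +kernel

theorem dS_inv : ∀ k : Fin 8, ∃ k' : Fin 8, (dS k)⁻¹ = dS k' := by
  decide +kernel

theorem dS_inj : ∀ k k' : Fin 8, dS k = dS k' → k = k' := by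
  decide +kernel

theorem rep_coset : ∀ j j' : Fin 45, ∀ k : Fin 8, rep j' = rep j * dS k → j' = j := by
  decide +kernel

/-- Index form of `TI` for a representative. -/
def Tj (j : Fin 45) : Prop := ∀ k k' : Fin 8, k ≠ 0 → (rep j)⁻¹ * dS k * rep j ≠ dS k'

/-- Index form of `PH` for a representative. -/
def Fj (j : Fin 45) : Prop := ∃ k k' : Fin 8, k ≠ 0 ∧ k' ≠ 0 ∧
  (dS k * (rep j * dS k' * (rep j)⁻¹)) * (dS k * (rep j * dS k' * (rep j)⁻¹)) = 1

instance : DecidablePred Tj := fun j => by unfold Tj; infer_instance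

instance : DecidablePred Fj := fun j => by unfold Fj; infer_instance

theorem count_A : (Finset.univ.filter (fun j => Tj j ∧ Fj j)).card ≤ 16 := by
  decide +kernel

theorem count_B : (Finset.univ.filter (fun j => Tj j ∧ ¬ Fj j)).card ≤ 16 := by
  decide +kernel

/-! ### The subgroup `D0` and the count -/

/-- The dihedral subgroup of order 8, in the symmetric group. -/
def D0S : Subgroup (Perm (Fin 6)) where
  carrier := Set.range dS
  mul_mem' := by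
    rintro _ _ ⟨k, rfl⟩ ⟨k', rfl⟩
    obtain ⟨k'', h⟩ := dS_mul k k'
    exact ⟨k'', h.symm⟩
  one_mem' := ⟨0, dS_zero⟩
  inv_mem' := by
    rintro _ ⟨k, rfl⟩
    obtain ⟨k', h⟩ := dS_inv k
    exact ⟨k', h.symm⟩

theorem mem_D0S (y : Perm (Fin 6)) : y ∈ D0S ↔ ∃ k, dS k = y := Iff.rfl

theorem D0S_le : D0S ≤ alternatingGroup (Fin 6) := by
  rintro _ ⟨k, rfl⟩
  exact Equiv.Perm.mem_alternatingGroup.2 (sign_dS k)

/-- The dihedral subgroup of order 8, in the alternating group. -/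
def D0 : Subgroup ↥(alternatingGroup (Fin 6)) := D0S.comap (alternatingGroup (Fin 6)).subtype

theorem card_D0 : Nat.card D0 = 8 := by
  have e : Nat.card (Fin 8) = Nat.card D0 := by
    apply Nat.card_congr
    refine Equiv.ofBijective
      (fun k => (⟨⟨dS k, Equiv.Perm.mem_alternatingGroup.2 (sign_dS k)⟩, ⟨k, rfl⟩⟩ : D0)) ⟨?_, ?_⟩
    · intro k k' h
      have h1 : dS k = dS k' :=
        congrArg (fun z : D0 => ((z : ↥(alternatingGroup (Fin 6))) : Perm (Fin 6))) h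
      exact dS_inj k k' h1
    · rintro ⟨a, k, hk⟩
      exact ⟨k, Subtype.ext (Subtype.ext hk)⟩
  rw [← e, Nat.card_fin]

theorem card_A6 : Nat.card ↥(alternatingGroup (Fin 6)) = 360 := by
  rw [nat_card_alternatingGroup, Nat.card_fin]
  rfl

theorem factorization_360 : (360 : ℕ).factorization 2 = 3 := by
  have e : (360 : ℕ) = 2 ^ 3 * 45 := by norm_num
  rw [e, Nat.factorization_mul (by norm_num) (by norm_num), Nat.Prime.factorization_pow Nat.prime_two]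
  simp [Nat.factorization_eq_zero_of_not_dvd (show ¬ 2 ∣ 45 by norm_num)]

theorem TI_iff (b : Perm (Fin 6)) :
    TI D0S D0S b ↔ ∀ k k' : Fin 8, k ≠ 0 → b⁻¹ * dS k * b ≠ dS k' := by
  constructor
  · intro h k k' hk heq
    have h1 := h (dS k) ⟨k, rfl⟩ ⟨k', heq.symm⟩
    rw [← dS_zero] at h1
    exact hk (dS_inj _ _ h1)
  · rintro h _ ⟨k, rfl⟩ ⟨k', hk'⟩
    by_contra hne
    have hk : k ≠ 0 := by
      rintro rfl
      exact hne dS_zero
    exact h k k' hk hk'.symm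

theorem PH_iff (b : Perm (Fin 6)) :
    PH D0S D0S b ↔ ∃ k k' : Fin 8, k ≠ 0 ∧ k' ≠ 0 ∧
      (dS k * (b * dS k' * b⁻¹)) * (dS k * (b * dS k' * b⁻¹)) = 1 := by
  constructor
  · rintro ⟨_, ⟨k, rfl⟩, _, ⟨k', rfl⟩, hp1, hq1, hsq⟩
    refine ⟨k, k', ?_, ?_, hsq⟩
    · rintro rfl
      exact hp1 dS_zero
    · rintro rfl
      exact hq1 dS_zero
  · rintro ⟨k, k', hk, hk', hsq⟩
    refine ⟨dS k, ⟨k, rfl⟩, dS k', ⟨k', rfl⟩, ?_, ?_, hsq⟩
    · intro h
      rw [← dS_zero] at h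
      exact hk (dS_inj _ _ h)
    · intro h
      rw [← dS_zero] at h
      exact hk' (dS_inj _ _ h)

theorem exists_rep (a : ↥(alternatingGroup (Fin 6))) :
    ∃ j k, (a : Perm (Fin 6)) = rep j * dS k := by
  have hinj : Function.Injective (fun jk : Fin 45 × Fin 8 =>
      (⟨rep jk.1 * dS jk.2, Equiv.Perm.mem_alternatingGroup.2 (by
        rw [Perm.sign_mul, sign_rep, sign_dS, one_mul])⟩ : ↥(alternatingGroup (Fin 6)))) := by
    rintro ⟨j, k⟩ ⟨j', k'⟩ h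
    have h1 : rep j * dS k = rep j' * dS k' :=
      congrArg (fun z : ↥(alternatingGroup (Fin 6)) => (z : Perm (Fin 6))) h
    obtain ⟨ki, hki⟩ := dS_inv k'
    obtain ⟨k'', hk''⟩ := dS_mul k ki
    have h2 : rep j' = rep j * dS k'' := by
      rw [← hk'', ← hki, ← mul_assoc, h1]
      group
    have hj := rep_coset j j' k'' h2
    subst hj
    have h3 : dS k = dS k' := mul_left_cancel h1
    rw [dS_inj k k' h3]
  have hcard : Fintype.card (Fin 45 × Fin 8) = Fintype.card ↥(alternatingGroup (Fin 6)) := by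
    rw [Fintype.card_prod, Fintype.card_fin, Fintype.card_fin, ← Nat.card_eq_fintype_card, card_A6]
  obtain ⟨⟨j, k⟩, h⟩ := ((Fintype.bijective_iff_injective_and_card _).2 ⟨hinj, hcard⟩).2 a
  exact ⟨j, k, (congrArg (fun z : ↥(alternatingGroup (Fin 6)) => (z : Perm (Fin 6))) h).symm⟩

theorem count_t (t : Prop) : Nat.card {j : Fin 45 // Tj j ∧ (Fj j ↔ t)} ≤ 16 := by
  classical
  by_cases ht : t
  · have e : Nat.card {j : Fin 45 // Tj j ∧ (Fj j ↔ t)} = Nat.card {j : Fin 45 // Tj j ∧ Fj j} :=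
      Nat.card_congr (Equiv.subtypeEquivRight (fun j => by simp [ht]))
    rw [e, Nat.card_eq_fintype_card, Fintype.card_subtype]
    convert count_A
  · have e : Nat.card {j : Fin 45 // Tj j ∧ (Fj j ↔ t)} = Nat.card {j : Fin 45 // Tj j ∧ ¬ Fj j} :=
      Nat.card_congr (Equiv.subtypeEquivRight (fun j => by simp [ht]))
    rw [e, Nat.card_eq_fintype_card, Fintype.card_subtype]
    convert count_B

theorem bound_D0 (t : Prop) :
    Nat.card {a : ↥(alternatingGroup (Fin 6)) // TI D0 D0 a ∧ (PH D0 D0 a ↔ t)} ≤ 128 := by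
  classical
  have key : ∀ a : ↥(alternatingGroup (Fin 6)), ∀ j k, (a : Perm (Fin 6)) = rep j * dS k →
      (TI D0 D0 a ↔ Tj j) ∧ (PH D0 D0 a ↔ Fj j) := by
    intro a j k ha
    constructor
    · rw [show D0 = D0S.comap (alternatingGroup (Fin 6)).subtype from rfl,
        TI_comap _ _ _ D0S_le, ha,
        TI_mul_right D0S D0S (rep j) (dS k) (show dS k ∈ D0S from ⟨k, rfl⟩), TI_iff]
      rfl
    · rw [show D0 = D0S.comap (alternatingGroup (Fin 6)).subtype from rfl,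
        PH_comap _ _ _ D0S_le D0S_le, ha,
        PH_mul_right D0S D0S (rep j) (dS k) (show dS k ∈ D0S from ⟨k, rfl⟩), PH_iff]
      rfl
  choose J K hJK using exists_rep
  let f : {a : ↥(alternatingGroup (Fin 6)) // TI D0 D0 a ∧ (PH D0 D0 a ↔ t)} →
      {j : Fin 45 // Tj j ∧ (Fj j ↔ t)} × Fin 8 := fun a =>
    (⟨J a.1, by
      obtain ⟨h1, h2⟩ := key a.1 (J a.1) (K a.1) (hJK a.1)
      exact ⟨h1.1 a.2.1, by rw [← h2]; exact a.2.2⟩⟩, K a.1)
  have hf : Function.Injective f := by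
    rintro ⟨a, ha⟩ ⟨b, hb⟩ h
    have h1 : J a = J b := congrArg (fun z => (z.1 : Fin 45)) h
    have h2 : K a = K b := congrArg (fun z => z.2) h
    apply Subtype.ext
    apply Subtype.ext
    rw [hJK a, hJK b, h1, h2]
  have h1 := Nat.card_le_card_of_injective f hf
  rw [Nat.card_prod, Nat.card_fin] at h1
  have h2 := count_t t
  calc Nat.card {a : ↥(alternatingGroup (Fin 6)) // TI D0 D0 a ∧ (PH D0 D0 a ↔ t)}
      ≤ Nat.card {j : Fin 45 // Tj j ∧ (Fj j ↔ t)} * 8 := h1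
    _ ≤ 16 * 8 := Nat.mul_le_mul_right 8 h2
    _ = 128 := by norm_num

/-- For subgroups `D1`, `D2` of order 8 of `A₆`, each class has at most 128 elements. -/
theorem a6_bound (D1 D2 : Subgroup ↥(alternatingGroup (Fin 6))) (h1 : Nat.card D1 = 8)
    (h2 : Nat.card D2 = 8) (t : Prop) :
    Nat.card {a : ↥(alternatingGroup (Fin 6)) // TI D1 D2 a ∧ (PH D1 D2 a ↔ t)} ≤ 128 := by
  have : Fact (Nat.Prime 2) := ⟨Nat.prime_two⟩
  have hS : (8 : ℕ) = 2 ^ (Nat.card ↥(alternatingGroup (Fin 6))).factorization 2 := by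
    rw [card_A6, factorization_360]
    norm_num
  obtain ⟨c1, hc1⟩ := exists_conj_of_card 2 D0 D1 (by rw [card_D0, hS]) (by rw [h1, hS])
  obtain ⟨c2, hc2⟩ := exists_conj_of_card 2 D0 D2 (by rw [card_D0, hS]) (by rw [h2, hS])
  let g : {a : ↥(alternatingGroup (Fin 6)) // TI D1 D2 a ∧ (PH D1 D2 a ↔ t)} →
      {a : ↥(alternatingGroup (Fin 6)) // TI D0 D0 a ∧ (PH D0 D0 a ↔ t)} := fun a =>
    ⟨c1⁻¹ * a.1 * c2, by
      rw [← TI_conj D0 D0 D1 D2 c1 c2 hc1 hc2, ← PH_conj D0 D0 D1 D2 c1 c2 hc1 hc2]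
      exact a.2⟩
  have hg : Function.Injective g := by
    rintro ⟨a, ha⟩ ⟨b, hb⟩ h
    have h3 : c1⁻¹ * a * c2 = c1⁻¹ * b * c2 := congrArg Subtype.val h
    apply Subtype.ext
    exact mul_left_cancel (mul_right_cancel h3)
  exact (Nat.card_le_card_of_injective g hg).trans (bound_D0 t)

end Cfsg.Agent.Lib.Helper93.A6Syl
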