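import Mathlib
import Cfsg.Agent.Lib.Helper81.AQDefs

/-! Project AQ (helper81, S3911), piece ASMAB (helper93): the join of central subgroups of `Ls`
is commutative and inside `Ls`. -/

set_option autoImplicit false

namespace Cfsg.Agent.Lib.Helper81.AQ

variable {G : Type*} [Group G]

-- piece ASMAB
theorem asm_abelian (Ls : Subgroup G) (S : Finset ℕ) (Z : ℕ → Subgroup G)
    (hZ : ∀ p ∈ S, Z p ≤ Ls ∧ ∀ z ∈ Z p, ∀ l ∈ Ls, z * l = l * z) :
    IsMulCommutative ↥(⨆ p ∈ S, Z p) ∧ (⨆ p ∈ S, Z p) ≤ Ls := by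
  have hle : (⨆ p ∈ S, Z p) ≤ Ls ⊓ Subgroup.centralizer (Ls : Set G) := by
    refine iSup₂_le (fun p hp => ?_)
    intro z hz
    refine Subgroup.mem_inf.mpr ⟨(hZ p hp).1 hz, ?_⟩
    rw [Subgroup.mem_centralizer_iff]
    intro h hh
    exact ((hZ p hp).2 z hz h hh).symm
  refine ⟨⟨⟨fun a b => Subtype.ext ?_⟩⟩, hle.trans inf_le_left⟩
  have ha : (a : G) ∈ Subgroup.centralizer (Ls : Set G) := (Subgroup.mem_inf.mp (hle a.2)).2
  have hb : (b : G) ∈ Ls := (Subgroup.mem_inf.mp (hle b.2)).1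
  rw [Subgroup.mem_centralizer_iff] at ha
  exact (ha (b : G) hb).symm

end Cfsg.Agent.Lib.Helper81.AQ
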