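import Cfsg.Prelude.Def_BaumannBlocks
import Mathlib

/-!
# S2983, piece JB-BAU (helper93): the Baumann subgroup `B(T)` is normalized by `T`, and
`B(T^g) = B(T)` as soon as `B(T) ≤ T^g`.
-/

set_option autoImplicit false

namespace Cfsg.Agent.Lib.Helper93.Jb

open scoped commutatorElement

/-- elementary abelian subgroups are transported by isomorphisms -/
theorem bau_ea_map {P P' : Type*} [Group P] [Group P'] (p : ℕ) (e : P ≃* P') (A : Subgroup P)
    (hA : Cfsg.IsElementaryAbelian p A) : Cfsg.IsElementaryAbelian p (A.map e.toMonoidHom) := by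
  obtain ⟨hc, hp⟩ := hA
  refine ⟨⟨⟨?_⟩⟩, ?_⟩
  · rintro ⟨_, ⟨x, hx, rfl⟩⟩ ⟨_, ⟨y, hy, rfl⟩⟩
    apply Subtype.ext
    have h := hc.is_comm.comm (⟨x, hx⟩ : ↥A) ⟨y, hy⟩
    have h' : x * y = y * x := congrArg Subtype.val h
    show e.toMonoidHom x * e.toMonoidHom y = e.toMonoidHom y * e.toMonoidHom x
    rw [← map_mul, ← map_mul, h']
  · rintro _ ⟨x, hx, rfl⟩
    rw [← map_pow, hp x hx, map_one]

theorem bau_card_map {P P' : Type*} [Group P] [Group P'] (e : P ≃* P') (A : Subgroup P) :
    Nat.card (A.map e.toMonoidHom) = Nat.card A :=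
  Subgroup.card_map_of_injective e.injective

theorem bau_map_symm_map {P P' : Type*} [Group P] [Group P'] (e : P ≃* P') (A : Subgroup P') :
    (A.map e.symm.toMonoidHom).map e.toMonoidHom = A := by
  ext x
  constructor
  · rintro ⟨_, ⟨y, hy, rfl⟩, rfl⟩
    have : e.toMonoidHom (e.symm.toMonoidHom y) = y := e.apply_symm_apply y
    rw [this]; exact hy
  · intro hx
    exact ⟨e.symm x, ⟨x, hx, rfl⟩, e.apply_symm_apply x⟩

theorem bau_maxEA_map {P P' : Type*} [Group P] [Group P'] (p : ℕ) (e : P ≃* P') (A : Subgroup P)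
    (hA : A ∈ Cfsg.maxElementaryAbelianSubgroups p P) :
    A.map e.toMonoidHom ∈ Cfsg.maxElementaryAbelianSubgroups p P' := by
  obtain ⟨hea, hmax⟩ := hA
  refine ⟨bau_ea_map p e A hea, fun B hB => ?_⟩
  have h1 := hmax _ (bau_ea_map p e.symm B hB)
  rw [bau_card_map e.symm B] at h1
  rw [bau_card_map e A]
  exact h1

theorem bau_thompson_map {P P' : Type*} [Group P] [Group P'] (p : ℕ) (e : P ≃* P') :
    Cfsg.thompsonSubgroup p P' = (Cfsg.thompsonSubgroup p P).map e.toMonoidHom := by
  unfold Cfsg.thompsonSubgroup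
  apply le_antisymm
  · apply sSup_le
    intro A hA
    have h1 : A.map e.symm.toMonoidHom ≤ sSup (Cfsg.maxElementaryAbelianSubgroups p P) :=
      le_sSup (bau_maxEA_map p e.symm A hA)
    have h2 := Subgroup.map_mono (f := e.toMonoidHom) h1
    rwa [bau_map_symm_map] at h2
  · rw [Subgroup.map_le_iff_le_comap]
    apply sSup_le
    intro A hA
    rw [← Subgroup.map_le_iff_le_comap]
    exact le_sSup (bau_maxEA_map p e A hA)

variable {G : Type*} [Group G]

/-- the Thompson subgroup commutes with conjugation -/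
theorem bau_thompsonOf_map (p : ℕ) (T : Subgroup G) (g : G) :
    Cfsg.thompsonSubgroupOf p (T.map (MulAut.conj g).toMonoidHom) =
      (Cfsg.thompsonSubgroupOf p T).map (MulAut.conj g).toMonoidHom := by
  unfold Cfsg.thompsonSubgroupOf
  rw [bau_thompson_map p (Subgroup.equivMapOfInjective T (MulAut.conj g).toMonoidHom
    (MulAut.conj g).injective), Subgroup.map_map, Subgroup.map_map]
  congr 1

theorem bau_centralizer_map (H : Subgroup G) (g : G) :
    Subgroup.centralizer ((H.map (MulAut.conj g).toMonoidHom : Subgroup G) : Set G) =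
      (Subgroup.centralizer (H : Set G)).map (MulAut.conj g).toMonoidHom := by
  ext x
  rw [Subgroup.mem_centralizer_iff]
  constructor
  · intro hx
    refine ⟨g⁻¹ * x * g, ?_, ?_⟩
    · rw [SetLike.mem_coe, Subgroup.mem_centralizer_iff]
      intro h hh
      have h1 := hx (g * h * g⁻¹) ⟨h, hh, rfl⟩
      calc h * (g⁻¹ * x * g) = g⁻¹ * (g * h * g⁻¹ * x) * g := by group
        _ = g⁻¹ * (x * (g * h * g⁻¹)) * g := by rw [h1]
        _ = g⁻¹ * x * g * h := by group
    · show g * (g⁻¹ * x * g) * g⁻¹ = x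
      group
  · rintro ⟨y, hy, rfl⟩
    rw [SetLike.mem_coe, Subgroup.mem_centralizer_iff] at hy
    rintro _ ⟨h, hh, rfl⟩
    have h1 := hy h hh
    show g * h * g⁻¹ * (g * y * g⁻¹) = g * y * g⁻¹ * (g * h * g⁻¹)
    calc g * h * g⁻¹ * (g * y * g⁻¹) = g * (h * y) * g⁻¹ := by group
      _ = g * (y * h) * g⁻¹ := by rw [h1]
      _ = g * y * g⁻¹ * (g * h * g⁻¹) := by group

theorem bau_omegaOne_map (p : ℕ) (H : Subgroup G) (g : G) :
    Cfsg.omegaOne p (H.map (MulAut.conj g).toMonoidHom) =
      (Cfsg.omegaOne p H).map (MulAut.conj g).toMonoidHom := by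
  unfold Cfsg.omegaOne
  rw [MonoidHom.map_closure]
  congr 1
  ext x
  constructor
  · rintro ⟨⟨y, hy, rfl⟩, hxp⟩
    refine ⟨y, ⟨hy, ?_⟩, rfl⟩
    have h1 : (MulAut.conj g).toMonoidHom (y ^ p) = (MulAut.conj g).toMonoidHom 1 := by
      rw [map_pow, map_one]; exact hxp
    exact (MulAut.conj g).injective h1
  · rintro ⟨y, ⟨hy, hyp⟩, rfl⟩
    refine ⟨⟨y, hy, rfl⟩, ?_⟩
    rw [← map_pow, hyp, map_one]

theorem bau_centerThompson_map (p : ℕ) (T : Subgroup G) (g : G) :
    Cfsg.centerThompsonOf p (T.map (MulAut.conj g).toMonoidHom) =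
      (Cfsg.centerThompsonOf p T).map (MulAut.conj g).toMonoidHom := by
  unfold Cfsg.centerThompsonOf
  rw [bau_thompsonOf_map, bau_centralizer_map,
    Subgroup.map_inf _ _ _ (MulAut.conj g).injective]

/-- the Baumann subgroup commutes with conjugation -/
theorem bau_map (p : ℕ) (T : Subgroup G) (g : G) :
    Cfsg.baumannSubgroupOf p (T.map (MulAut.conj g).toMonoidHom) =
      (Cfsg.baumannSubgroupOf p T).map (MulAut.conj g).toMonoidHom := by
  unfold Cfsg.baumannSubgroupOf
  rw [bau_centerThompson_map, bau_omegaOne_map, bau_centralizer_map,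
    Subgroup.map_inf _ _ _ (MulAut.conj g).injective]

theorem bau_map_self (T : Subgroup G) (t : G) (ht : t ∈ T) :
    T.map (MulAut.conj t).toMonoidHom = T := by
  ext x
  constructor
  · rintro ⟨y, hy, rfl⟩
    exact T.mul_mem (T.mul_mem ht hy) (T.inv_mem ht)
  · intro hx
    refine ⟨t⁻¹ * x * t, T.mul_mem (T.mul_mem (T.inv_mem ht) hx) ht, ?_⟩
    show t * (t⁻¹ * x * t) * t⁻¹ = x
    group

theorem bau_normal {G : Type*} [Group G] (p : ℕ) (T : Subgroup G) :
    T ≤ Subgroup.normalizer (Cfsg.baumannSubgroupOf p T : Set G) := by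
  intro t ht
  have h := bau_map p T t
  rw [bau_map_self T t ht] at h
  rw [Subgroup.mem_normalizer_iff]
  intro x
  constructor
  · intro hx
    rw [h]
    exact ⟨x, hx, rfl⟩
  · intro hx
    rw [h] at hx
    obtain ⟨y, hy, hyx⟩ := hx
    have e : y = x := by
      have h1 : t * y * t⁻¹ = t * x * t⁻¹ := hyx
      have h2 : y = t⁻¹ * (t * y * t⁻¹) * t := by group
      rw [h2, h1]; group
    rw [← e]; exact hy

theorem bau_omegaOne_le (p : ℕ) (H : Subgroup G) : Cfsg.omegaOne p H ≤ H := by
  unfold Cfsg.omegaOne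
  rw [Subgroup.closure_le]
  intro x hx
  exact hx.1

theorem bau_thompson_le_self (p : ℕ) (T : Subgroup G) : Cfsg.thompsonSubgroupOf p T ≤ T :=
  Subgroup.map_subtype_le _

/-- `J(T) ≤ B(T)` -/
theorem bau_thompson_le (p : ℕ) (T : Subgroup G) :
    Cfsg.thompsonSubgroupOf p T ≤ Cfsg.baumannSubgroupOf p T := by
  unfold Cfsg.baumannSubgroupOf
  refine le_inf (bau_thompson_le_self p T) ?_
  rw [Subgroup.le_centralizer_iff]
  refine (bau_omegaOne_le p _).trans ?_
  unfold Cfsg.centerThompsonOf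
  exact inf_le_right

theorem bau_eq_of_le {G : Type*} [Group G] [Finite G] (p : ℕ) (T : Subgroup G) (g : G)
    (h : Cfsg.baumannSubgroupOf p T ≤ T.map (MulAut.conj g).toMonoidHom) :
    Cfsg.baumannSubgroupOf p (T.map (MulAut.conj g).toMonoidHom) = Cfsg.baumannSubgroupOf p T := by
  set T' := T.map (MulAut.conj g).toMonoidHom with hT'
  set e := Subgroup.equivMapOfInjective T (MulAut.conj g).toMonoidHom (MulAut.conj g).injective
    with he
  have hJT' : Cfsg.thompsonSubgroupOf p T ≤ T' := (bau_thompson_le p T).trans h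
  -- J(T) ≤ J(T')
  have hJle : Cfsg.thompsonSubgroupOf p T ≤ Cfsg.thompsonSubgroupOf p T' := by
    have hJT'' := hJT'
    unfold Cfsg.thompsonSubgroupOf Cfsg.thompsonSubgroup at hJT'' ⊢
    rw [Subgroup.map_le_iff_le_comap]
    apply sSup_le
    intro A hA
    rw [← Subgroup.map_le_iff_le_comap]
    have hAT' : A.map T.subtype ≤ T' := by
      refine le_trans ?_ hJT''
      exact Subgroup.map_mono (le_sSup hA)
    obtain ⟨⟨hc, hp⟩, hmax⟩ := hA
    have hmem : (A.map T.subtype).subgroupOf T' ∈ Cfsg.maxElementaryAbelianSubgroups p ↥T' := by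
      have hcard : Nat.card ((A.map T.subtype).subgroupOf T') = Nat.card A := by
        have h1 := Subgroup.card_map_of_injective (K := (A.map T.subtype).subgroupOf T')
          (Subgroup.subtype_injective T')
        rw [Subgroup.map_subgroupOf_eq_of_le hAT'] at h1
        rw [← h1]
        exact Subgroup.card_map_of_injective (Subgroup.subtype_injective T)
      refine ⟨⟨⟨⟨?_⟩⟩, ?_⟩, ?_⟩
      · rintro ⟨x, hx⟩ ⟨y, hy⟩
        apply Subtype.ext
        apply Subtype.ext
        obtain ⟨a, ha, hax⟩ := Subgroup.mem_subgroupOf.mp hx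
        obtain ⟨b, hb, hby⟩ := Subgroup.mem_subgroupOf.mp hy
        have h1 := hc.is_comm.comm (⟨a, ha⟩ : ↥A) ⟨b, hb⟩
        have h2 : a * b = b * a := congrArg Subtype.val h1
        have h3 : (a : G) * (b : G) = (b : G) * (a : G) := congrArg Subtype.val h2
        show (x : G) * (y : G) = (y : G) * (x : G)
        rw [← hax, ← hby]
        exact h3
      · intro x hx
        obtain ⟨a, ha, hax⟩ := Subgroup.mem_subgroupOf.mp hx
        apply Subtype.ext
        have h1 : ((a ^ p : ↥T) : G) = 1 := by rw [hp a ha]; rfl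
        show ((x ^ p : ↥T') : G) = 1
        rw [Subgroup.coe_pow, ← hax]
        rw [Subgroup.coe_pow] at h1
        exact h1
      · intro B hB
        rw [hcard]
        have h1 := hmax _ (bau_ea_map p e.symm B hB)
        rw [bau_card_map e.symm B] at h1
        exact h1
    have h2 : (A.map T.subtype).subgroupOf T' ≤ sSup (Cfsg.maxElementaryAbelianSubgroups p ↥T') :=
      le_sSup hmem
    have h3 := Subgroup.map_mono (f := T'.subtype) h2
    rwa [Subgroup.map_subgroupOf_eq_of_le hAT'] at h3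
  -- J(T') = J(T)
  have hJeq : Cfsg.thompsonSubgroupOf p T' = Cfsg.thompsonSubgroupOf p T := by
    symm
    apply Subgroup.eq_of_le_of_card_ge hJle
    rw [hT', bau_thompsonOf_map, Subgroup.card_map_of_injective (MulAut.conj g).injective]
  have hZeq : Cfsg.omegaOne p (Cfsg.centerThompsonOf p T') =
      Cfsg.omegaOne p (Cfsg.centerThompsonOf p T) := by
    unfold Cfsg.centerThompsonOf
    rw [hJeq]
  have hBle : Cfsg.baumannSubgroupOf p T ≤ Cfsg.baumannSubgroupOf p T' := by
    have h1 : Cfsg.baumannSubgroupOf p T ≤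
        Subgroup.centralizer (Cfsg.omegaOne p (Cfsg.centerThompsonOf p T) : Set G) := by
      unfold Cfsg.baumannSubgroupOf
      exact inf_le_right
    have h2 : Cfsg.baumannSubgroupOf p T' =
        T' ⊓ Subgroup.centralizer (Cfsg.omegaOne p (Cfsg.centerThompsonOf p T) : Set G) := by
      unfold Cfsg.baumannSubgroupOf
      rw [hZeq]
    rw [h2]
    exact le_inf h h1
  symm
  apply Subgroup.eq_of_le_of_card_ge hBle
  rw [hT', bau_map, Subgroup.card_map_of_injective (MulAut.conj g).injective]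

end Cfsg.Agent.Lib.Helper93.Jb
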