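import Cfsg.Prelude.Def_BaumannBlocks
import Mathlib

/-!
# S2983, piece JB-GN (helper93): a subgroup normalized by `E ⊔ B` and normalizing `B` normalizes `E`
(the proof of S2941 with "odd order" replaced by "order prime to `p`").
-/

set_option autoImplicit false

namespace Cfsg.Agent.Lib.Helper93.Jb

open scoped commutatorElement

theorem gn_mem_normalizer_of_conj {G : Type*} [Group G] {H : Subgroup G} {g : G}
    (h1 : ∀ k ∈ H, g * k * g⁻¹ ∈ H) (h2 : ∀ k ∈ H, g⁻¹ * k * g ∈ H) :
    g ∈ Subgroup.normalizer (H : Set G) := by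
  rw [Subgroup.mem_normalizer_iff]
  intro k
  refine ⟨h1 k, fun hk => ?_⟩
  have := h2 _ hk
  simpa [mul_assoc] using this

theorem gn_conj_mem {G : Type*} [Group G] {H : Subgroup G} {g : G}
    (hg : g ∈ Subgroup.normalizer (H : Set G)) {k : G} (hk : k ∈ H) : g * k * g⁻¹ ∈ H :=
  (Subgroup.mem_normalizer_iff.mp hg k).mp hk

theorem gn_conj_mem' {G : Type*} [Group G] {H : Subgroup G} {g : G}
    (hg : g ∈ Subgroup.normalizer (H : Set G)) {k : G} (hk : k ∈ H) : g⁻¹ * k * g ∈ H := by
  have := gn_conj_mem (Subgroup.inv_mem _ hg) hk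
  simpa using this

/-- the right factor normalizes a commutator subgroup -/
theorem gn_right_le_normalizer_commutator {G : Type*} [Group G] (K J : Subgroup G) :
    J ≤ Subgroup.normalizer ((⁅K, J⁆ : Subgroup G) : Set G) := by
  have key : ∀ j ∈ J, ∀ x ∈ ⁅K, J⁆, j * x * j⁻¹ ∈ ⁅K, J⁆ := by
    intro j hj x hx
    have hle : ⁅K, J⁆ ≤ (⁅K, J⁆ : Subgroup G).comap (MulAut.conj j).toMonoidHom := by
      rw [Subgroup.commutator_le]
      intro k hk j' hj'
      rw [Subgroup.mem_comap]
      have e : (MulAut.conj j).toMonoidHom ⁅k, j'⁆ = ⁅k, j⁆⁻¹ * ⁅k, j * j'⁆ := by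
        simp [MulAut.conj_apply, commutatorElement_def, mul_assoc]
      rw [e]
      exact Subgroup.mul_mem _ (Subgroup.inv_mem _ (Subgroup.commutator_mem_commutator hk hj))
        (Subgroup.commutator_mem_commutator hk (J.mul_mem hj hj'))
    have := hle hx
    simpa [Subgroup.mem_comap, MulAut.conj_apply] using this
  intro j hj
  refine gn_mem_normalizer_of_conj (key j hj) ?_
  intro k hk
  have := key j⁻¹ (J.inv_mem hj) k hk
  simpa using this

theorem gn_normalizer {G : Type*} [Group G] [Finite G] (p : ℕ) [Fact p.Prime] (E B Q : Subgroup G)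
    (hB : IsPGroup p ↥B) (hEB : ⁅E, B⁆ = E) (hres : Cfsg.pResidualOf p E = E)
    (hQ1 : E ⊔ B ≤ Subgroup.normalizer (Q : Set G)) (hQ2 : Q ≤ Subgroup.normalizer (B : Set G)) :
    Q ≤ Subgroup.normalizer (E : Set G) := by
  -- B normalizes E
  have hBE : B ≤ Subgroup.normalizer (E : Set G) := by
    have := gn_right_le_normalizer_commutator E B
    rwa [hEB] at this
  have hXM : E ⊔ B ≤ Subgroup.normalizer (E : Set G) := sup_le Subgroup.le_normalizer hBE
  -- Q normalizes X = E ⊔ B
  have hQX : ∀ q ∈ Q, ∀ x ∈ E ⊔ B, q * x * q⁻¹ ∈ E ⊔ B := by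
    intro q hq x hx
    have hle : E ⊔ B ≤ (E ⊔ B : Subgroup G).comap (MulAut.conj q).toMonoidHom := by
      refine sup_le ?_ ?_
      · have h1 : ⁅E, B⁆ ≤ (E ⊔ B : Subgroup G).comap (MulAut.conj q).toMonoidHom := by
          rw [Subgroup.commutator_le]
          intro k hk j hj
          rw [Subgroup.mem_comap]
          have hj'' : q * j * q⁻¹ ∈ B := gn_conj_mem (hQ2 hq) hj
          have hkN : k ∈ Subgroup.normalizer (Q : Set G) := hQ1 (Subgroup.mem_sup_left hk)
          have hq' : k⁻¹ * q * k * q⁻¹ ∈ Q :=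
            Q.mul_mem (gn_conj_mem' hkN hq) (Q.inv_mem hq)
          have hc : ⁅k⁻¹ * q * k * q⁻¹, q * j * q⁻¹⁆ ∈ B := by
            rw [commutatorElement_def]
            exact B.mul_mem (gn_conj_mem (hQ2 hq') hj'') (B.inv_mem hj'')
          have e : (MulAut.conj q).toMonoidHom ⁅k, j⁆
              = k * ⁅k⁻¹ * q * k * q⁻¹, q * j * q⁻¹⁆ * k⁻¹ * ⁅k, q * j * q⁻¹⁆ := by
            simp [MulAut.conj_apply, commutatorElement_def, mul_assoc]
          rw [e]
          refine Subgroup.mul_mem _ (Subgroup.mul_mem _ (Subgroup.mul_mem _ ?_ ?_) ?_) ?_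
          · exact Subgroup.mem_sup_left hk
          · exact Subgroup.mem_sup_right hc
          · exact Subgroup.mem_sup_left (E.inv_mem hk)
          · have : ⁅k, q * j * q⁻¹⁆ ∈ ⁅E, B⁆ := Subgroup.commutator_mem_commutator hk hj''
            rw [hEB] at this
            exact Subgroup.mem_sup_left this
        rwa [hEB] at h1
      · intro j hj
        rw [Subgroup.mem_comap]
        have := gn_conj_mem (hQ2 hq) hj
        exact Subgroup.mem_sup_right (by simpa [MulAut.conj_apply] using this)
    have := hle hx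
    simpa [Subgroup.mem_comap, MulAut.conj_apply] using this
  -- elements of E ⊔ B of order prime to p lie in E
  have hcopE : ∀ x ∈ E ⊔ B, Nat.Coprime (orderOf x) p → x ∈ E := by
    intro x hx hcopx
    set M := Subgroup.normalizer (E : Set G) with hM
    have : (E.subgroupOf M).Normal := Subgroup.normal_in_normalizer
    have hmem : (⟨x, hXM hx⟩ : M) ∈ (E ⊔ B).subgroupOf M := by
      rw [Subgroup.mem_subgroupOf]; exact hx
    rw [Subgroup.subgroupOf_sup Subgroup.le_normalizer hBE] at hmem
    have hmap : (QuotientGroup.mk' (E.subgroupOf M)) ⟨x, hXM hx⟩ ∈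
        (B.subgroupOf M).map (QuotientGroup.mk' (E.subgroupOf M)) := by
      have h1 := Subgroup.mem_map_of_mem (QuotientGroup.mk' (E.subgroupOf M)) hmem
      rw [Subgroup.map_sup, QuotientGroup.map_mk'_self, bot_sup_eq] at h1
      exact h1
    have hBMp : IsPGroup p ↥(B.subgroupOf M) := hB.comap_subtype
    have hmapp : IsPGroup p ↥((B.subgroupOf M).map (QuotientGroup.mk' (E.subgroupOf M))) :=
      hBMp.map _
    obtain ⟨n, hn⟩ := hmapp ⟨_, hmap⟩
    have hn' : ((QuotientGroup.mk' (E.subgroupOf M)) ⟨x, hXM hx⟩) ^ (p ^ n) = 1 := by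
      have := congrArg Subtype.val hn
      simpa using this
    have hord : ((QuotientGroup.mk' (E.subgroupOf M)) ⟨x, hXM hx⟩) ^ (orderOf x) = 1 := by
      rw [← map_pow]
      have : (⟨x, hXM hx⟩ : M) ^ orderOf x = 1 := by
        ext; simp [pow_orderOf_eq_one]
      rw [this, map_one]
    have hcop : Nat.Coprime (p ^ n) (orderOf x) :=
      Nat.Coprime.pow_left n hcopx.symm
    have hone : (QuotientGroup.mk' (E.subgroupOf M)) ⟨x, hXM hx⟩ = 1 := by
      have h1 := orderOf_dvd_of_pow_eq_one hn'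
      have h2 := orderOf_dvd_of_pow_eq_one hord
      have := Nat.eq_one_of_dvd_coprimes hcop h1 h2
      exact orderOf_eq_one_iff.mp this
    have : (⟨x, hXM hx⟩ : M) ∈ E.subgroupOf M := by
      rwa [QuotientGroup.mk'_apply, QuotientGroup.eq_one_iff] at hone
    exact Subgroup.mem_subgroupOf.mp this
  -- conclusion
  have key : ∀ q ∈ Q, ∀ k ∈ E, q * k * q⁻¹ ∈ E := by
    intro q hq k hk
    have hle : Cfsg.pResidualOf p E ≤ E.comap (MulAut.conj q).toMonoidHom := by
      unfold Cfsg.pResidualOf Cfsg.pResidual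
      rw [Subgroup.map_le_iff_le_comap, Subgroup.closure_le]
      intro g hg
      have hgc : Nat.Coprime (orderOf (g : G)) p := by
        have hg' : Nat.Coprime (orderOf g) p := hg
        rwa [Subgroup.orderOf_coe]
      show (MulAut.conj q).toMonoidHom (E.subtype g) ∈ E
      have h1 : q * (g : G) * q⁻¹ ∈ E ⊔ B := hQX q hq g (Subgroup.mem_sup_left g.2)
      have h2 : Nat.Coprime (orderOf (q * (g : G) * q⁻¹)) p := by
        have e : orderOf (q * (g : G) * q⁻¹) = orderOf (g : G) := by
          have := MulEquiv.orderOf_eq (MulAut.conj q) (g : G)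
          simpa [MulAut.conj_apply] using this
        rw [e]
        exact hgc
      have := hcopE _ h1 h2
      simpa [MulAut.conj_apply] using this
    rw [hres] at hle
    have := hle hk
    simpa [Subgroup.mem_comap, MulAut.conj_apply] using this
  intro q hq
  refine gn_mem_normalizer_of_conj (key q hq) ?_
  intro k hk
  have := key q⁻¹ (Q.inv_mem hq) k hk
  simpa using this

end Cfsg.Agent.Lib.Helper93.Jb
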