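import Mathlib

/-!
# Parameters for two conjugate regular unipotent elements of `SU_3(q)` whose product is
semisimple with prescribed eigenvalues: field identities (helper93)

The variables `t u γ β` are independent here; later `u = t ^ q`, `γ ^ q = -γ` and
`β * β ^ q = pr t u γ`.
-/

set_option autoImplicit false
set_option linter.unusedSectionVars false
set_option linter.unusedVariables false

namespace Cfsg.Agent.Lib.Helper93.RU3

section alg
variable {K : Type*} [Field K]

/-- the norm of `β` -/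
def pr (t u γ : K) : K := (u - t) / (γ * (t * u - 1))
/-- the conjugate of `β` -/
def pbb (t u γ β : K) : K := pr t u γ / β
def pab (t u γ : K) : K := (1 - t) / (γ * (1 - t * u))
def pabq (t u γ : K) : K := (u - 1) / (γ * (1 - t * u))
def pa (t u β : K) : K := (u - t) * β / t
def paq (t u γ β : K) : K := (t - u) * pbb t u γ β / u
def pa' (t u γ β : K) : K := γ * (t * u - 1) * β / t
def pa'q (t u γ β : K) : K := -(γ * (u * t - 1) * pbb t u γ β / u)
def pb' (t u γ : K) : K := γ * (1 - t * u) / u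
def pb'q (t u γ : K) : K := -(γ * (1 - u * t) / t)
def pb (t u γ : K) : K := (t * u + t * u + t * u - u * u * t - t * t - u) / (u * γ * (t * u - 1))
def pbq (t u γ : K) : K :=
  -((u * t + u * t + u * t - t * t * u - u * u - t) / (t * γ * (u * t - 1)))
def pb₁ (t u γ β : K) : K := pb t u γ + pa t u β * pbb t u γ β - paq t u γ β * β
def pb₁q (t u γ β : K) : K := pbq t u γ + paq t u γ β * β - pa t u β * pbb t u γ β
/-- first coordinate of `E` -/
def pE₁ (t u γ : K) : K := 1 - γ * pab t u γ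
/-- conjugate of the first coordinate of `E` -/
def pE₁q (t u γ : K) : K := 1 + γ * pabq t u γ
/-- the parameter `κ₀ = r² b' - b₁` -/
def pκ (t u γ β : K) : K := pr t u γ * pr t u γ * pb' t u γ - pb₁ t u γ β
def pκq (t u γ β : K) : K := pr t u γ * pr t u γ * pb'q t u γ - pb₁q t u γ β

variable (t u γ β : K)

section ids
variable (ht : t ≠ 0) (hu : u ≠ 0) (hγ : γ ≠ 0) (hβ : β ≠ 0) (h1 : t * u - 1 ≠ 0)
include ht hu hγ hβ h1

theorem pbb_mul : β * pbb t u γ β = pr t u γ := by
  unfold pbb; field_simp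

theorem pa_eq : pa t u β = pr t u γ * pa' t u γ β := by
  have h3 : u * t - 1 ≠ 0 := by rwa [mul_comm]
  unfold pa pr pa'; field_simp

theorem paq_eq : paq t u γ β = pr t u γ * pa'q t u γ β := by
  have h2 : u * t - 1 ≠ 0 := by rwa [mul_comm]
  unfold paq pr pa'q pbb pr; field_simp; ring

theorem pb_rel : pb t u γ + pbq t u γ + pa t u β * paq t u γ β = 0 := by
  have h2 : u * t - 1 ≠ 0 := by rwa [mul_comm]
  unfold pb pbq pa paq pbb pr; field_simp; ring

theorem pb₁_rel : pb₁ t u γ β + pb₁q t u γ β + pa t u β * paq t u γ β = 0 := by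
  have := pb_rel t u γ β ht hu hγ hβ h1
  unfold pb₁ pb₁q
  linear_combination this

theorem pb'_rel : pb' t u γ + pb'q t u γ + pa' t u γ β * pa'q t u γ β = 0 := by
  have h2 : u * t - 1 ≠ 0 := by rwa [mul_comm]
  unfold pb' pb'q pa' pa'q pbb pr; field_simp; ring

theorem pκ_rel : pκ t u γ β + pκq t u γ β = 0 := by
  have h2 : u * t - 1 ≠ 0 := by rwa [mul_comm]
  unfold pκ pκq pb₁ pb₁q pb pbq pb' pb'q pa paq pbb pr; field_simp; ring

/-- `N(a) γ` -/
theorem pa_norm : pa t u β * paq t u γ β * γ * (t * u * (1 - t * u)) = (u - t) ^ 3 := by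
  have h3 : u * t - 1 ≠ 0 := by rwa [mul_comm]
  unfold pa paq pbb pr; field_simp; ring

theorem pb_diff : (2 * pb t u γ + pa t u β * paq t u γ β) * (t * u * γ * (t * u - 1)) =
    3 * t ^ 2 * u + 3 * t * u ^ 2 - 2 * t ^ 2 * u ^ 2 - t ^ 3 - u ^ 3 - 2 * t * u := by
  unfold pb pa paq pbb pr; field_simp; ring

/-! the frame `E, W, Fv` -/

theorem pEE : pE₁ t u γ * γ + γ * β * -(γ * pbb t u γ β) + -γ * pE₁q t u γ = 0 := by
  have h2 : 1 - t * u ≠ 0 := fun h => h1 (by linear_combination -h)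
  unfold pE₁ pE₁q pab pabq pbb pr; field_simp; ring

theorem pFF : pab t u γ + -β * -pbb t u γ β + pabq t u γ = 0 := by
  have h2 : 1 - t * u ≠ 0 := fun h => h1 (by linear_combination -h)
  unfold pab pabq pbb pr; field_simp; ring

theorem pEF : pE₁ t u γ + γ * β * -pbb t u γ β + -γ * pabq t u γ = 1 := by
  have h2 : 1 - t * u ≠ 0 := fun h => h1 (by linear_combination -h)
  unfold pE₁ pab pabq pbb pr; field_simp; ring

/-! eigenvector equations for `S = x y` -/

theorem pSE₃ : -γ + pb' t u γ * pE₁ t u γ - pa'q t u γ β * (γ * β) = t * -γ := by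
  have h2 : 1 - t * u ≠ 0 := fun h => h1 (by linear_combination -h)
  have h3 : u * t - 1 ≠ 0 := by rwa [mul_comm]
  unfold pb' pE₁ pa'q pab pbb pr; field_simp; ring

theorem pSE₂ : γ * β + pa' t u γ β * pE₁ t u γ + pa t u β * (t * -γ) = t * (γ * β) := by
  have h2 : 1 - t * u ≠ 0 := fun h => h1 (by linear_combination -h)
  unfold pa' pE₁ pa pab; field_simp; ring

theorem pSE₁ : pE₁ t u γ + pb₁ t u γ β * (t * -γ) -
    paq t u γ β * (γ * β + pa' t u γ β * pE₁ t u γ) = t * pE₁ t u γ := by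
  have h2 : 1 - t * u ≠ 0 := fun h => h1 (by linear_combination -h)
  unfold pb₁ pb pa paq pa' pE₁ pab pbb pr; field_simp; ring

theorem pSW₃ : 0 + pb' t u γ * pbb t u γ β - pa'q t u γ β * 1 = u / t * 0 := by
  have h3 : u * t - 1 ≠ 0 := by rwa [mul_comm]
  unfold pb' pa'q pbb pr; field_simp; ring

theorem pSW₂ : 1 + pa' t u γ β * pbb t u γ β + pa t u β * (u / t * 0) = u / t * 1 := by
  have h3 : u * t - 1 ≠ 0 := by rwa [mul_comm]
  unfold pa' pa pbb pr; field_simp; ring

theorem pSW₁ : pbb t u γ β + pb₁ t u γ β * (u / t * 0) -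
    paq t u γ β * (1 + pa' t u γ β * pbb t u γ β) = u / t * pbb t u γ β := by
  have h3 : u * t - 1 ≠ 0 := by rwa [mul_comm]
  unfold paq pa' pbb pr; field_simp; ring

theorem pSF₃ : 1 + pb' t u γ * pab t u γ - pa'q t u γ β * -β = u⁻¹ * 1 := by
  have h2 : 1 - t * u ≠ 0 := fun h => h1 (by linear_combination -h)
  have h3 : u * t - 1 ≠ 0 := by rwa [mul_comm]
  unfold pb' pa'q pab pbb pr; field_simp; ring

theorem pSF₂ : -β + pa' t u γ β * pab t u γ + pa t u β * (u⁻¹ * 1) = u⁻¹ * -β := by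
  have h2 : 1 - t * u ≠ 0 := fun h => h1 (by linear_combination -h)
  unfold pa' pa pab; field_simp; ring

theorem pSF₁ : pab t u γ + pb₁ t u γ β * (u⁻¹ * 1) -
    paq t u γ β * (-β + pa' t u γ β * pab t u γ) = u⁻¹ * pab t u γ := by
  have h2 : 1 - t * u ≠ 0 := fun h => h1 (by linear_combination -h)
  unfold pb₁ pb pa paq pa' pab pbb pr; field_simp; ring

end ids

end alg

end Cfsg.Agent.Lib.Helper93.RU3
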