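import Mathlib
import Cfsg.Agent.Lib.Helper93.SUPair
import Cfsg.Agent.Lib.Helper93.RU3Alg

/-!
# Two conjugate regular unipotent elements of `SU_3(q)` with semisimple product (helper93)

In a hyperbolic frame `e, w, f` we write down `x = heis e (a • w) b₁`, `y = heis f (a' • w) b'`,
an element `g` of `SU_3(q)` with `g x g⁻¹ = y`, and a second hyperbolic frame `E, W, Fv` of
eigenvectors of `x y`, with eigenvalues `t`, `t ^ q / t`, `(t ^ q)⁻¹`.
-/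

set_option autoImplicit false
set_option linter.unusedSectionVars false
set_option linter.unusedVariables false

namespace Cfsg.Agent.Lib.Helper93.RU3

open Matrix Cfsg.Agent.Lib.Helper7 Cfsg.Agent.Lib.Helper18 Cfsg.Agent.Lib.Helper93

section
variable {F : Type*} [Field F] [Fintype F] {q : ℕ}

/-- a hyperbolic frame of the three-dimensional Hermitian space -/
structure Frm (q : ℕ) (e w f : Fin 3 → F) : Prop where
  ee : Cfsg.hermForm 3 F q e e = 0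
  ff : Cfsg.hermForm 3 F q f f = 0
  ef : Cfsg.hermForm 3 F q e f = 1
  ww : Cfsg.hermForm 3 F q w w = 1
  we : Cfsg.hermForm 3 F q w e = 0
  wf : Cfsg.hermForm 3 F q w f = 0

/-- the matrix of an element of `SU_3(q)` -/
abbrev smx (A : Cfsg.SU 3 F q) : Matrix (Fin 3) (Fin 3) F :=
  ((A : Matrix.SpecialLinearGroup (Fin 3) F) : Matrix (Fin 3) (Fin 3) F)

theorem smx_mul_inv (A : Cfsg.SU 3 F q) : smx A * smx A⁻¹ = 1 := by
  have h1 : smx (A * A⁻¹) = smx A * smx A⁻¹ := rfl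
  rw [← h1, mul_inv_cancel]
  rfl

theorem smx_pres (A : Cfsg.SU 3 F q) (x y : Fin 3 → F) :
    Cfsg.hermForm 3 F q (smx A *ᵥ x) (smx A *ᵥ y) = Cfsg.hermForm 3 F q x y :=
  (mem_SU_iff A.1).mp A.2 x y

theorem smx_ext {A B : Cfsg.SU 3 F q} (h : smx A = smx B) : A = B :=
  Subtype.ext (Subtype.ext h)

theorem exists_smx (hF : Fintype.card F = q ^ 2) (M : Matrix (Fin 3) (Fin 3) F)
    (hdet : M.det = 1)
    (hpres : ∀ x y, Cfsg.hermForm 3 F q (M *ᵥ x) (M *ᵥ y) = Cfsg.hermForm 3 F q x y) :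
    ∃ A : Cfsg.SU 3 F q, smx A = M :=
  ⟨suMk hF M hdet (isFr_of_preserves hF M hpres), rfl⟩

/-- shifting the vector of a Heisenberg element by a multiple of the centre -/
theorem heis_shift_e (hF : Fintype.card F = q ^ 2) (e w : Fin 3 → F) (a c : F) :
    heis q 3 e (w + c • e) a = heis q 3 e w (a + c - c ^ q) := by
  apply Matrix.mulVec_injective
  funext x
  rw [heis_mulVec, heis_mulVec, hf_add_right hF, hf_smul_right]
  module

/-- scaling the centre of a Heisenberg element -/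
theorem heis_smul_cen (hF : Fintype.card F = q ^ 2) (e w : Fin 3 → F) (a c : F) :
    heis q 3 (c • e) w a = heis q 3 e (c ^ q • w) (c * c ^ q * a) := by
  apply Matrix.mulVec_injective
  funext x
  rw [heis_mulVec, heis_mulVec, hf_smul_right, hf_smul_right, herm_pow_pow hF]
  module

variable {e w f : Fin 3 → F}

theorem Frm.fe (hF : Fintype.card F = q ^ 2) (h : Frm q e w f) :
    Cfsg.hermForm 3 F q f e = 1 := by
  rw [hf_conj hF 3 e f, h.ef, one_pow]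

theorem Frm.ew (hF : Fintype.card F = q ^ 2) (h : Frm q e w f) :
    Cfsg.hermForm 3 F q e w = 0 := hf_eq_zero_symm hF 3 _ _ h.we

theorem Frm.fw (hF : Fintype.card F = q ^ 2) (h : Frm q e w f) :
    Cfsg.hermForm 3 F q f w = 0 := hf_eq_zero_symm hF 3 _ _ h.wf

/-- linear combination of the frame vectors -/
def lc (e w f : Fin 3 → F) (c₁ c₂ c₃ : F) : Fin 3 → F := c₁ • e + c₂ • w + c₃ • f

theorem lc_ext {c₁ c₂ c₃ d₁ d₂ d₃ : F} (h₁ : c₁ = d₁) (h₂ : c₂ = d₂) (h₃ : c₃ = d₃) :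
    lc e w f c₁ c₂ c₃ = lc e w f d₁ d₂ d₃ := by rw [h₁, h₂, h₃]

theorem smul_lc (s c₁ c₂ c₃ : F) :
    s • lc e w f c₁ c₂ c₃ = lc e w f (s * c₁) (s * c₂) (s * c₃) := by
  unfold lc; module

theorem hf_lc (hF : Fintype.card F = q ^ 2) (h : Frm q e w f) (c₁ c₂ c₃ d₁ d₂ d₃ : F) :
    Cfsg.hermForm 3 F q (lc e w f c₁ c₂ c₃) (lc e w f d₁ d₂ d₃) =
      c₁ * d₃ ^ q + c₂ * d₂ ^ q + c₃ * d₁ ^ q := by
  unfold lc
  simp only [hf_add_left, hf_add_right hF, hf_smul_left, hf_smul_right, h.ee, h.ff, h.ef, h.ww,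
    h.we, h.wf, h.fe hF, h.ew hF, h.fw hF]
  ring

theorem hf_lc_e (hF : Fintype.card F = q ^ 2) (h : Frm q e w f) (c₁ c₂ c₃ : F) :
    Cfsg.hermForm 3 F q (lc e w f c₁ c₂ c₃) e = c₃ := by
  unfold lc
  simp only [hf_add_left, hf_smul_left, h.ee, h.we, h.fe hF]
  ring

theorem hf_lc_w (hF : Fintype.card F = q ^ 2) (h : Frm q e w f) (c₁ c₂ c₃ : F) :
    Cfsg.hermForm 3 F q (lc e w f c₁ c₂ c₃) w = c₂ := by
  unfold lc
  simp only [hf_add_left, hf_smul_left, h.ww, h.ew hF, h.fw hF]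
  ring

theorem hf_lc_f (hF : Fintype.card F = q ^ 2) (h : Frm q e w f) (c₁ c₂ c₃ : F) :
    Cfsg.hermForm 3 F q (lc e w f c₁ c₂ c₃) f = c₁ := by
  unfold lc
  simp only [hf_add_left, hf_smul_left, h.ff, h.wf, h.ef]
  ring

theorem heis_e_lc (hF : Fintype.card F = q ^ 2) (h : Frm q e w f) (a b c₁ c₂ c₃ : F) :
    heis q 3 e (a • w) b *ᵥ lc e w f c₁ c₂ c₃ =
      lc e w f (c₁ + b * c₃ - a ^ q * c₂) (c₂ + a * c₃) c₃ := by
  rw [heis_mulVec, hf_smul_right, hf_lc_e hF h, hf_lc_w hF h]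
  unfold lc
  module

theorem heis_f_lc (hF : Fintype.card F = q ^ 2) (h : Frm q e w f) (a b c₁ c₂ c₃ : F) :
    heis q 3 f (a • w) b *ᵥ lc e w f c₁ c₂ c₃ =
      lc e w f c₁ (c₂ + a * c₁) (c₃ + b * c₁ - a ^ q * c₂) := by
  rw [heis_mulVec, hf_smul_right, hf_lc_f hF h, hf_lc_w hF h]
  unfold lc
  module

/-! ### The element interchanging `e` and `f` up to scalars -/

theorem weylN (hF : Fintype.card F = q ^ 2) (h : Frm q e w f) (μ : F) (hμ0 : μ ≠ 0)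
    (hμ : μ ^ q = μ) :
    ∃ N : Matrix (Fin 3) (Fin 3) F, suPres q 3 N ∧ N.det = 1 ∧ N *ᵥ e = μ • f ∧ N *ᵥ w = -w := by
  obtain ⟨v, hv⟩ : ∃ v : Fin 3 → F, v = e + μ • f := ⟨_, rfl⟩
  obtain ⟨c, hc⟩ : ∃ c : F, c = -μ⁻¹ := ⟨_, rfl⟩
  have hcq : c ^ q = c := by rw [hc, herm_neg_pow hF, inv_pow, hμ]
  have hvv : Cfsg.hermForm 3 F q v v = 2 * μ := by
    rw [hv]
    simp only [hf_add_left, hf_add_right hF, hf_smul_left, hf_smul_right, h.ee, h.ff, h.ef,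
      h.fe hF, hμ]
    ring
  have hev : Cfsg.hermForm 3 F q e v = μ := by
    rw [hv, hf_add_right hF, hf_smul_right, h.ee, h.ef, hμ]; ring
  have hwv : Cfsg.hermForm 3 F q w v = 0 := by
    rw [hv, hf_add_right hF, hf_smul_right, h.we, h.wf]; ring
  refine ⟨-Cfsg.unitaryTransvection 3 q v c, ?_, ?_, ?_, ?_⟩
  · intro x y
    rw [Matrix.neg_mulVec, Matrix.neg_mulVec, hf_neg_left, hf_neg_right hF, neg_neg,
      unitaryTransvection_mulVec, unitaryTransvection_mulVec]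
    simp only [hf_add_left, hf_add_right hF, hf_smul_left, hf_smul_right, hvv]
    rw [hf_conj hF 3 y v, mul_pow, hcq, hc]
    field_simp
    ring
  · rw [Matrix.det_neg, transvection_eq_vecMulVec, det_one_add_vecMulVec']
    have h2 : (fun j => v j ^ q) ⬝ᵥ (c • v) = c * Cfsg.hermForm 3 F q v v := by
      simp only [dotProduct, Cfsg.hermForm, Pi.smul_apply, smul_eq_mul, Finset.mul_sum]
      refine Finset.sum_congr rfl fun j _ => ?_
      ring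
    rw [h2, hvv, hc, Fintype.card_fin]
    field_simp
    ring
  · rw [Matrix.neg_mulVec, unitaryTransvection_mulVec, hev, hc, hv]
    have : -μ⁻¹ * μ = -1 := by field_simp
    rw [this]
    module
  · rw [Matrix.neg_mulVec, unitaryTransvection_mulVec, hwv, mul_zero, zero_smul, add_zero]

/-! ### Conjugacy of the two unipotent elements -/

theorem exists_a0 (hF : Fintype.card F = q ^ 2) (a κ : F) (ha : a ≠ 0) (hκ : κ + κ ^ q = 0) :
    ∃ a₀ : F, a₀ * a ^ q - a * a₀ ^ q = κ := by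
  obtain ⟨l, hl⟩ := exists_trace_one hF
  have haq : a ^ q ≠ 0 := pow_ne_zero _ ha
  refine ⟨κ * l / a ^ q, ?_⟩
  rw [div_pow, mul_pow, herm_pow_pow hF]
  have hκ' : κ ^ q = -κ := by linear_combination hκ
  rw [hκ']
  field_simp
  linear_combination κ * hl

theorem exists_b0 (hF : Fintype.card F = q ^ 2) (a₀ : F) :
    ∃ b₀ : F, b₀ + b₀ ^ q + a₀ * a₀ ^ q = 0 := by
  obtain ⟨l, hl⟩ := exists_trace_one hF
  refine ⟨-(a₀ * a₀ ^ q * l), ?_⟩
  rw [herm_neg_pow hF, mul_pow, mul_pow, herm_pow_pow hF]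
  linear_combination (-(a₀ * a₀ ^ q)) * hl

theorem conj_lemma (hF : Fintype.card F = q ^ 2) (h : Frm q e w f) (a a' b₁ b' r : F)
    (hr0 : r ≠ 0) (hrq : r ^ q = r) (ha0 : a ≠ 0) (har : a = r * a')
    (hb₁ : b₁ + b₁ ^ q + a * a ^ q = 0) (hb' : b' + b' ^ q + a' * a' ^ q = 0) :
    ∃ G : Matrix (Fin 3) (Fin 3) F, suPres q 3 G ∧ G.det = 1 ∧
      G * heis q 3 e (a • w) b₁ = heis q 3 f (a' • w) b' * G := by
  obtain ⟨κ, hκ⟩ : ∃ κ : F, κ = r * r * b' - b₁ := ⟨_, rfl⟩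
  have hκK : κ + κ ^ q = 0 := by
    rw [hκ, herm_sub_pow hF, mul_pow, mul_pow, hrq]
    have e1 : a ^ q = r * a' ^ q := by rw [har, mul_pow, hrq]
    rw [e1, har] at hb₁
    linear_combination (r * r) * hb' - hb₁
  obtain ⟨a₀, ha₀⟩ := exists_a0 hF a κ ha0 hκK
  obtain ⟨b₀, hb₀⟩ := exists_b0 hF a₀
  obtain ⟨μ, hμ⟩ : ∃ μ : F, μ = -r⁻¹ := ⟨_, rfl⟩
  have hμ0 : μ ≠ 0 := by rw [hμ]; exact neg_ne_zero.mpr (inv_ne_zero hr0)
  have hμq : μ ^ q = μ := by rw [hμ, herm_neg_pow hF, inv_pow, hrq]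
  obtain ⟨N, hNp, hNd, hNe, hNw⟩ := weylN hF h μ hμ0 hμq
  have hwe : ∀ s : F, Cfsg.hermForm 3 F q (s • w) e = 0 := by
    intro s; rw [hf_smul_left, h.we, mul_zero]
  have hww : ∀ s s' : F, Cfsg.hermForm 3 F q (s • w) (s' • w) = s * s' ^ q := by
    intro s s'; rw [hf_smul_left, hf_smul_right, h.ww]; ring
  have hUp : suPres q 3 (heis q 3 e (a₀ • w) b₀) := by
    intro x y
    exact heis_preserves hF 3 e (a₀ • w) b₀ h.ee (hwe a₀) (by rw [hww]; exact hb₀) x y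
  have hUd : (heis q 3 e (a₀ • w) b₀).det = 1 := heis_det hF 3 e (a₀ • w) b₀ h.ee (hwe a₀)
  refine ⟨N * heis q 3 e (a₀ • w) b₀, suPres_mul hNp hUp, by rw [Matrix.det_mul, hNd, hUd, mul_one],
    ?_⟩
  have e1 : heis q 3 e (a₀ • w) b₀ * heis q 3 e (a • w) b₁ =
      heis q 3 e (a • w) (r * r * b') * heis q 3 e (a₀ • w) b₀ := by
    rw [heis_mul hF 3 e (a₀ • w) (a • w) b₀ b₁ h.ee (hwe a₀) (hwe a),
      heis_mul hF 3 e (a • w) (a₀ • w) (r * r * b') b₀ h.ee (hwe a) (hwe a₀), hww, hww,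
      add_comm (a₀ • w) (a • w)]
    congr 1
    linear_combination hκ + ha₀
  have e2 : N * heis q 3 e (a • w) (r * r * b') = heis q 3 f (a' • w) b' * N := by
    rw [conj_heis hNp, hNe, Matrix.mulVec_smul, hNw, heis_smul_cen hF,
      hμq]
    have e3 : μ • a • -w = a' • w := by
      rw [har, hμ]
      have : -r⁻¹ * (r * a') = -a' := by field_simp
      rw [smul_smul, this]
      module
    have e4 : μ * μ * (r * r * b') = b' := by
      rw [hμ]; field_simp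
    rw [e3, e4]
  rw [mul_assoc, e1, ← mul_assoc, e2, mul_assoc]

/-! ### Conjugates of the parameters -/

section sig
variable {t u γ β : F}

theorem pr_q (hF : Fintype.card F = q ^ 2) (hu : t ^ q = u) (hu' : u ^ q = t) (hγ : γ ^ q = -γ)
    (hγ0 : γ ≠ 0) (h1 : t * u - 1 ≠ 0) : pr t u γ ^ q = pr t u γ := by
  have h3 : u * t - 1 ≠ 0 := by rwa [mul_comm]
  unfold pr
  simp only [div_pow, mul_pow, herm_sub_pow hF, one_pow, hu, hu', hγ]
  field_simp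
  ring

theorem pbb_q (hF : Fintype.card F = q ^ 2) (hβ : β ^ q = pbb t u γ β) :
    pbb t u γ β ^ q = β := by
  rw [← hβ, herm_pow_pow hF]

theorem pab_q (hF : Fintype.card F = q ^ 2) (hu : t ^ q = u) (hu' : u ^ q = t) (hγ : γ ^ q = -γ)
    (hγ0 : γ ≠ 0) (h1 : t * u - 1 ≠ 0) : pab t u γ ^ q = pabq t u γ := by
  have h2 : 1 - t * u ≠ 0 := fun h => h1 (by linear_combination -h)
  have h3 : 1 - u * t ≠ 0 := fun h => h1 (by linear_combination -h)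
  unfold pab pabq
  simp only [div_pow, mul_pow, herm_sub_pow hF, one_pow, hu, hu', hγ]
  field_simp
  ring

theorem pa_q (hF : Fintype.card F = q ^ 2) (hu : t ^ q = u) (hu' : u ^ q = t)
    (hβ : β ^ q = pbb t u γ β) : pa t u β ^ q = paq t u γ β := by
  unfold pa paq
  simp only [div_pow, mul_pow, herm_sub_pow hF, hu, hu', hβ]

theorem paq_q (hF : Fintype.card F = q ^ 2) (hu : t ^ q = u) (hu' : u ^ q = t)
    (hβ : β ^ q = pbb t u γ β) : paq t u γ β ^ q = pa t u β := by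
  rw [← pa_q hF hu hu' hβ, herm_pow_pow hF]

theorem pa'_q (hF : Fintype.card F = q ^ 2) (hu : t ^ q = u) (hu' : u ^ q = t)
    (hγ : γ ^ q = -γ) (hβ : β ^ q = pbb t u γ β) : pa' t u γ β ^ q = pa'q t u γ β := by
  unfold pa' pa'q
  simp only [div_pow, mul_pow, herm_sub_pow hF, one_pow, hu, hu', hβ, hγ]
  ring

theorem pb'_q (hF : Fintype.card F = q ^ 2) (hu : t ^ q = u) (hu' : u ^ q = t)
    (hγ : γ ^ q = -γ) : pb' t u γ ^ q = pb'q t u γ := by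
  unfold pb' pb'q
  simp only [div_pow, mul_pow, herm_sub_pow hF, one_pow, hu, hu', hγ]
  ring

theorem pb_q (hF : Fintype.card F = q ^ 2) (hu : t ^ q = u) (hu' : u ^ q = t)
    (hγ : γ ^ q = -γ) : pb t u γ ^ q = pbq t u γ := by
  unfold pb pbq
  simp only [div_pow, mul_pow, herm_sub_pow hF, herm_add_pow hF, one_pow, hu, hu', hγ]
  have e1 : t * -γ * (u * t - 1) = -(t * γ * (u * t - 1)) := by ring
  rw [e1, div_neg]

theorem pb₁_q (hF : Fintype.card F = q ^ 2) (hu : t ^ q = u) (hu' : u ^ q = t)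
    (hγ : γ ^ q = -γ) (hβ : β ^ q = pbb t u γ β) : pb₁ t u γ β ^ q = pb₁q t u γ β := by
  unfold pb₁ pb₁q
  rw [herm_sub_pow hF, herm_add_pow hF, mul_pow, mul_pow, pb_q hF hu hu' hγ, pa_q hF hu hu' hβ,
    pbb_q hF hβ, paq_q hF hu hu' hβ, hβ]

theorem pE₁_q (hF : Fintype.card F = q ^ 2) (hu : t ^ q = u) (hu' : u ^ q = t) (hγ : γ ^ q = -γ)
    (hγ0 : γ ≠ 0) (h1 : t * u - 1 ≠ 0) : pE₁ t u γ ^ q = pE₁q t u γ := by
  unfold pE₁ pE₁q
  rw [herm_sub_pow hF, one_pow, mul_pow, hγ, pab_q hF hu hu' hγ hγ0 h1]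
  ring

end sig

/-! ### The construction -/

theorem construction' (hF : Fintype.card F = q ^ 2) (h : Frm q e w f) {t u : F} (hu : t ^ q = u)
    (ht : t ≠ 0) (htu : u ≠ t) (htn : t * u ≠ 1) :
    ∃ (E W Fv : Fin 3 → F) (γ a b : F) (x g : ↥(Cfsg.SU 3 F q)),
      Frm q E W Fv ∧ γ ≠ 0 ∧ γ + γ ^ q = 0 ∧ a ≠ 0 ∧ b + b ^ q + a * a ^ q = 0 ∧
      smx x = heis q 3 (E + γ • Fv) (a • W) b ∧
      smx (x * (g * x * g⁻¹)) *ᵥ E = t • E ∧
      smx (x * (g * x * g⁻¹)) *ᵥ W = (u / t) • W ∧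
      smx (x * (g * x * g⁻¹)) *ᵥ Fv = u⁻¹ • Fv ∧
      a * a ^ q * γ * (t * u * (1 - t * u)) = (u - t) ^ 3 ∧
      (2 * b + a * a ^ q) * (t * u * γ * (t * u - 1)) =
        3 * t ^ 2 * u + 3 * t * u ^ 2 - 2 * t ^ 2 * u ^ 2 - t ^ 3 - u ^ 3 - 2 * t * u := by
  have hu' : u ^ q = t := by rw [← hu, herm_pow_pow hF]
  have hu0 : u ≠ 0 := by rw [← hu]; exact pow_ne_zero _ ht
  obtain ⟨γ, hγd⟩ : ∃ γ : F, γ = u - t := ⟨_, rfl⟩
  have hγ0 : γ ≠ 0 := by rw [hγd]; exact sub_ne_zero.mpr htu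
  have hγ : γ ^ q = -γ := by rw [hγd, herm_sub_pow hF, hu, hu']; ring
  have h1 : t * u - 1 ≠ 0 := sub_ne_zero.mpr htn
  have hr0 : pr t u γ ≠ 0 := by
    unfold pr
    exact div_ne_zero (sub_ne_zero.mpr htu) (mul_ne_zero hγ0 h1)
  have hrq : pr t u γ ^ q = pr t u γ := pr_q hF hu hu' hγ hγ0 h1
  obtain ⟨β, hβ0, hβn⟩ := herm_norm_surj hF (pr t u γ) hr0 hrq
  have hβ : β ^ q = pbb t u γ β := by
    unfold pbb
    rw [eq_div_iff hβ0, ← hβn, pow_succ]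
  have haq := pa_q hF hu hu' hβ
  have ha'q := pa'_q hF hu hu' hγ hβ
  have hbbq := pbb_q hF hβ
  have habq := pab_q hF hu hu' hγ hγ0 h1
  have hE₁q := pE₁_q hF hu hu' hγ hγ0 h1
  have hb₁q := pb₁_q hF hu hu' hγ hβ
  have hb'q := pb'_q hF hu hu' hγ
  have hbq := pb_q hF hu hu' hγ
  have ha0 : pa t u β ≠ 0 := by
    unfold pa
    exact div_ne_zero (mul_ne_zero (sub_ne_zero.mpr htu) hβ0) ht
  have hq0 : q ≠ 0 := herm_q_ne_zero hF
  -- the second frame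
  obtain ⟨E, hE⟩ : ∃ E : Fin 3 → F, E = lc e w f (pE₁ t u γ) (γ * β) (-γ) := ⟨_, rfl⟩
  obtain ⟨W, hW⟩ : ∃ W : Fin 3 → F, W = lc e w f (pbb t u γ β) 1 0 := ⟨_, rfl⟩
  obtain ⟨Fv, hFv⟩ : ∃ Fv : Fin 3 → F, Fv = lc e w f (pab t u γ) (-β) 1 := ⟨_, rfl⟩
  have hfr : Frm q E W Fv := by
    refine ⟨?_, ?_, ?_, ?_, ?_, ?_⟩
    · rw [hE, hf_lc hF h, herm_neg_pow hF, mul_pow, hγ, hβ, hE₁q]
      linear_combination pEE t u γ β ht hu0 hγ0 hβ0 h1
    · rw [hFv, hf_lc hF h, herm_neg_pow hF, one_pow, hβ, habq]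
      linear_combination pFF t u γ β ht hu0 hγ0 hβ0 h1
    · rw [hE, hFv, hf_lc hF h, herm_neg_pow hF, one_pow, hβ, habq]
      linear_combination pEF t u γ β ht hu0 hγ0 hβ0 h1
    · rw [hW, hf_lc hF h, one_pow, zero_pow hq0]
      ring
    · rw [hW, hE, hf_lc hF h, herm_neg_pow hF, mul_pow, hγ, hβ]
      ring
    · rw [hW, hFv, hf_lc hF h, herm_neg_pow hF, one_pow, hβ]
      ring
  -- the two unipotent elements
  have hwe : ∀ s : F, Cfsg.hermForm 3 F q (s • w) e = 0 := by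
    intro s; rw [hf_smul_left, h.we, mul_zero]
  have hww : ∀ s s' : F, Cfsg.hermForm 3 F q (s • w) (s' • w) = s * s' ^ q := by
    intro s s'; rw [hf_smul_left, hf_smul_right, h.ww]; ring
  have hb₁rel := pb₁_rel t u γ β ht hu0 hγ0 hβ0 h1
  have hXp : ∀ x y, Cfsg.hermForm 3 F q (heis q 3 e (pa t u β • w) (pb₁ t u γ β) *ᵥ x)
      (heis q 3 e (pa t u β • w) (pb₁ t u γ β) *ᵥ y) = Cfsg.hermForm 3 F q x y := by
    intro x y
    exact heis_preserves hF 3 e _ _ h.ee (hwe _) (by rw [hww, hb₁q, haq]; exact hb₁rel) x y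
  have hXd : (heis q 3 e (pa t u β • w) (pb₁ t u γ β)).det = 1 :=
    heis_det hF 3 e _ _ h.ee (hwe _)
  obtain ⟨x, hx⟩ := exists_smx hF _ hXd hXp
  obtain ⟨G, hGp, hGd, hGc⟩ := conj_lemma hF h (pa t u β) (pa' t u γ β) (pb₁ t u γ β)
    (pb' t u γ) (pr t u γ) hr0 hrq ha0 (pa_eq t u γ β ht hu0 hγ0 hβ0 h1)
    (by rw [hb₁q, haq]; exact hb₁rel)
    (by rw [hb'q, ha'q]; exact pb'_rel t u γ β ht hu0 hγ0 hβ0 h1)
  obtain ⟨g, hg⟩ := exists_smx hF G hGd hGp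
  have hS : smx (x * (g * x * g⁻¹)) =
      heis q 3 e (pa t u β • w) (pb₁ t u γ β) * heis q 3 f (pa' t u γ β • w) (pb' t u γ) := by
    have e1 : smx (x * (g * x * g⁻¹)) = smx x * (smx g * smx x * smx g⁻¹) := rfl
    rw [e1, hx, hg, hGc, mul_assoc (heis q 3 f (pa' t u γ β • w) (pb' t u γ)), ← hg, smx_mul_inv,
      mul_one]
  have hEe : E + γ • Fv = e := by
    rw [hE, hFv]; unfold lc pE₁; module
  have hWw : pa t u β • W = pa t u β • w + (pa t u β * pbb t u γ β) • e := by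
    rw [hW]; unfold lc; module
  refine ⟨E, W, Fv, γ, pa t u β, pb t u γ, x, g, hfr, hγ0, by rw [hγ]; ring, ha0, ?_, ?_, ?_, ?_,
    ?_, ?_, ?_⟩
  · rw [hbq, haq]
    exact pb_rel t u γ β ht hu0 hγ0 hβ0 h1
  · rw [hx, hEe, hWw, heis_shift_e hF, mul_pow, haq, hbbq]
    rfl
  · rw [hS, ← Matrix.mulVec_mulVec, hE, heis_f_lc hF h, heis_e_lc hF h, smul_lc, haq, ha'q]
    have e3 := pSE₃ t u γ β ht hu0 hγ0 hβ0 h1
    have e2 := pSE₂ t u γ β ht hu0 hγ0 hβ0 h1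
    have e1 := pSE₁ t u γ β ht hu0 hγ0 hβ0 h1
    refine lc_ext ?_ ?_ ?_
    · linear_combination e1 + pb₁ t u γ β * e3
    · linear_combination e2 + pa t u β * e3
    · linear_combination e3
  · rw [hS, ← Matrix.mulVec_mulVec, hW, heis_f_lc hF h, heis_e_lc hF h, smul_lc, haq, ha'q]
    have e3 := pSW₃ t u γ β ht hu0 hγ0 hβ0 h1
    have e2 := pSW₂ t u γ β ht hu0 hγ0 hβ0 h1
    have e1 := pSW₁ t u γ β ht hu0 hγ0 hβ0 h1
    refine lc_ext ?_ ?_ ?_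
    · linear_combination e1 + pb₁ t u γ β * e3
    · linear_combination e2 + pa t u β * e3
    · linear_combination e3
  · rw [hS, ← Matrix.mulVec_mulVec, hFv, heis_f_lc hF h, heis_e_lc hF h, smul_lc, haq, ha'q]
    have e3 := pSF₃ t u γ β ht hu0 hγ0 hβ0 h1
    have e2 := pSF₂ t u γ β ht hu0 hγ0 hβ0 h1
    have e1 := pSF₁ t u γ β ht hu0 hγ0 hβ0 h1
    refine lc_ext ?_ ?_ ?_
    · linear_combination e1 + pb₁ t u γ β * e3
    · linear_combination e2 + pa t u β * e3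
    · linear_combination e3
  · rw [haq]
    exact pa_norm t u γ β ht hu0 hγ0 hβ0 h1
  · rw [haq]
    exact pb_diff t u γ β ht hu0 hγ0 hβ0 h1

end

end Cfsg.Agent.Lib.Helper93.RU3
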