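import Mathlib
import Cfsg.Agent.Lib.Helper93.RU3Con
import Cfsg.Agent.Lib.Helper43.RU3FR
import Cfsg.Agent.Lib.Helper31.RU3Par
import Cfsg.Agent.Lib.Helper65.RU3GC
import Cfsg.Agent.Lib.Helper13.RU3TV
import Cfsg.Agent.Lib.Helper73.RU3S2

/-!
# `SU_3(q)`, `q ≥ 3`, is generated by two conjugate regular unipotent elements (helper93)

Assembly.  The pieces `exists_frame`, `frame_complete` (helper43), `par` (helper31), `gc`
(helper65), `tv` (helper13) and `step2` (helper73) were proved by other seats from the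
statements posted on the job board.
-/

set_option autoImplicit false
set_option linter.unusedSectionVars false
set_option linter.unusedVariables false

namespace Cfsg.Agent.Lib.Helper93.RU3

open Matrix Cfsg.Agent.Lib.Helper7 Cfsg.Agent.Lib.Helper18 Cfsg.Agent.Lib.Helper93

section
variable {F : Type*} [Field F] [Fintype F] {q : ℕ}

/-- the homomorphism from `SU_3(q)` to `GL_3` -/
def suGL (F : Type*) [Field F] (q : ℕ) : ↥(Cfsg.SU 3 F q) →* GL (Fin 3) F :=
  Matrix.SpecialLinearGroup.toGL.comp (Cfsg.SU 3 F q).subtype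

theorem map_suGL_le (G : Subgroup (Cfsg.SU 3 F q)) :
    G.map (suGL F q) ≤ Cfsg.GU 3 F q ⊓ Cfsg.Geo.specialLinear (Fin 3) F := by
  rintro _ ⟨A, hA, rfl⟩
  refine Subgroup.mem_inf.mpr ⟨?_, (mem_sl_iff _).mpr ?_⟩
  · exact (mem_GU_iff _).mpr (fun u v => smx_pres A u v)
  · exact A.1.2

theorem MIn_map_suGL {G : Subgroup (Cfsg.SU 3 F q)} {A : Cfsg.SU 3 F q} (hA : A ∈ G) :
    MIn (G.map (suGL F q)) (smx A) := ⟨suGL F q A, Subgroup.mem_map_of_mem _ hA, rfl⟩

/-- a subgroup of `SU_3(q)`, `q ≥ 3`, containing all unitary transvections is everything -/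
theorem top_of_cen (hF : Fintype.card F = q ^ 2) (hq : 3 ≤ q) (G : Subgroup (Cfsg.SU 3 F q))
    (hall : ∀ v : Fin 3 → F, Cfsg.hermForm 3 F q v v = 0 → Cen q (G.map (suGL F q)) v) :
    G = ⊤ := by
  rw [eq_top_iff]
  intro A _
  have hmat : smx A ∈ suTM F q 3 :=
    suTM_eq hF 3 le_rfl (Or.inr hq) _ (fun u v => smx_pres A u v) A.1.2
  have key : ∀ B ∈ suTM F q 3, MIn (G.map (suGL F q)) B := by
    intro B hB
    induction hB using Submonoid.closure_induction with
    | mem B hB =>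
      obtain ⟨v, c, hv, hc, rfl⟩ := hB
      exact (hall v hv).2 c hc
    | one => exact MIn.one _
    | mul B C _ _ hB hC => exact hB.mul hC
  obtain ⟨g, hg, hgA⟩ := key _ hmat
  obtain ⟨A', hA', rfl⟩ := hg
  have h1 : A' = A := smx_ext hgA
  rwa [← h1]

theorem tv_add (e : Fin 3 → F) (hee : Cfsg.hermForm 3 F q e e = 0) (c d : F) :
    Cfsg.unitaryTransvection 3 q e c * Cfsg.unitaryTransvection 3 q e d =
      Cfsg.unitaryTransvection 3 q e (c + d) := by
  apply Matrix.mulVec_injective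
  funext x
  rw [← Matrix.mulVec_mulVec, unitaryTransvection_mulVec, unitaryTransvection_mulVec,
    unitaryTransvection_mulVec]
  simp only [hf_add_left, hf_smul_left, hee, mul_zero, add_zero]
  module

/-- the Heisenberg elements with `a ≠ 0` are regular unipotent -/
theorem heis_regular (hF : Fintype.card F = q ^ 2) {e W f : Fin 3 → F} (h : Frm q e W f)
    (a b : F) (ha : a ≠ 0) :
    IsNilpotent (heis q 3 e (a • W) b - 1) ∧ (heis q 3 e (a • W) b - 1) ^ 2 ≠ 0 := by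
  obtain ⟨D, hD⟩ : ∃ D : Matrix (Fin 3) (Fin 3) F, D = heis q 3 e (a • W) b - 1 := ⟨_, rfl⟩
  rw [← hD]
  have hDv : ∀ v : Fin 3 → F, D *ᵥ v = (a * Cfsg.hermForm 3 F q v e) • W +
      (b * Cfsg.hermForm 3 F q v e - a ^ q * Cfsg.hermForm 3 F q v W) • e := by
    intro v
    rw [hD, Matrix.sub_mulVec, Matrix.one_mulVec, heis_mulVec, hf_smul_right]
    module
  have hDe : D *ᵥ e = 0 := by
    rw [hDv, h.ee, h.ew hF]
    simp
  have hDW : D *ᵥ W = (-(a ^ q)) • e := by
    rw [hDv, h.we, h.ww]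
    module
  have hD2 : ∀ v : Fin 3 → F, (D ^ 2) *ᵥ v = (-(a * a ^ q) * Cfsg.hermForm 3 F q v e) • e := by
    intro v
    rw [pow_two, ← Matrix.mulVec_mulVec, hDv v, Matrix.mulVec_add, Matrix.mulVec_smul,
      Matrix.mulVec_smul, hDe, hDW]
    module
  have hD3 : D ^ 3 = 0 := by
    apply Matrix.mulVec_injective
    funext v
    rw [pow_succ, ← Matrix.mulVec_mulVec, hD2, hDv, Matrix.zero_mulVec, hf_add_left,
      hf_smul_left, hf_smul_left, h.we, h.ee]
    simp
  refine ⟨⟨3, hD3⟩, ?_⟩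
  intro h0
  have h1 := hD2 f
  rw [h0, Matrix.zero_mulVec, h.fe hF] at h1
  have hne : -(a * a ^ q) * 1 ≠ 0 := by
    rw [mul_one]
    exact neg_ne_zero.mpr (mul_ne_zero ha (pow_ne_zero _ ha))
  have he0 : e = 0 := (smul_eq_zero.mp h1.symm).resolve_left hne
  have h2 := h.ef
  rw [he0, hf_zero_left] at h2
  exact zero_ne_one h2

theorem su3_two_regular (hF : Fintype.card F = q ^ 2) (hq : 3 ≤ q) :
    ∃ u g : ↥(Cfsg.SU 3 F q), (IsNilpotent (smx u - 1) ∧ (smx u - 1) ^ 2 ≠ 0) ∧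
      Subgroup.closure ({u, g * u * g⁻¹} : Set ↥(Cfsg.SU 3 F q)) = ⊤ := by
  obtain ⟨e₀, w₀, f₀, hee₀, hff₀, hef₀, hww₀, hwe₀, hwf₀⟩ :=
    Cfsg.Agent.Lib.Helper43.RU3.exists_frame hF
  obtain ⟨t, ht0, htu, htn, hρ, halt⟩ := Cfsg.Agent.Lib.Helper31.RU3.par hF hq
  obtain ⟨u, hu⟩ : ∃ u : F, t ^ q = u := ⟨_, rfl⟩
  have hu' : u ^ q = t := by rw [← hu, herm_pow_pow hF]
  have hu0 : u ≠ 0 := by rw [← hu]; exact pow_ne_zero _ ht0
  have hρ' := hρ
  rw [hu] at htu htn halt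
  obtain ⟨E, W, Fv, γ, a, b, x, g, hfr, hγ0, hγ, ha0, hab, hx, hSE, hSW, hSF, hN, hB⟩ :=
    construction' hF (⟨hee₀, hff₀, hef₀, hww₀, hwe₀, hwf₀⟩ : Frm q e₀ w₀ f₀) hu ht0 htu htn
  obtain ⟨e, he⟩ : ∃ e : Fin 3 → F, e = E + γ • Fv := ⟨_, rfl⟩
  rw [← he] at hx
  have hγq : γ ^ q = -γ := by linear_combination hγ
  have hFE : Cfsg.hermForm 3 F q Fv E = 1 := hfr.fe hF
  have hfr' : Frm q e W Fv := by
    refine ⟨?_, hfr.ff, ?_, hfr.ww, ?_, hfr.wf⟩
    · rw [he]
      simp only [hf_add_left, hf_add_right hF, hf_smul_left, hf_smul_right, hfr.ee, hfr.ff,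
        hfr.ef, hFE, hγq]
      ring
    · rw [he, hf_add_left, hf_smul_left, hfr.ef, hfr.ff]
      ring
    · rw [he, hf_add_right hF, hf_smul_right, hfr.we, hfr.wf]
      ring
  refine ⟨x, g, ?_, ?_⟩
  · rw [hx]
    exact heis_regular hF hfr' a b ha0
  · apply top_of_cen hF hq
    obtain ⟨G, hG⟩ : ∃ G : Subgroup (Cfsg.SU 3 F q),
        G = Subgroup.closure ({x, g * x * g⁻¹} : Set ↥(Cfsg.SU 3 F q)) := ⟨_, rfl⟩
    rw [← hG]
    have hM := map_suGL_le G
    obtain ⟨M, hMd⟩ : ∃ M : Subgroup (GL (Fin 3) F), M = G.map (suGL F q) := ⟨_, rfl⟩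
    rw [← hMd] at hM ⊢
    have hxM : MIn M (smx x) := by
      rw [hMd]
      exact MIn_map_suGL (by rw [hG]; exact Subgroup.subset_closure (by simp))
    have hyM : MIn M (smx (g * x * g⁻¹)) := by
      rw [hMd]
      exact MIn_map_suGL (by rw [hG]; exact Subgroup.subset_closure (by simp))
    obtain ⟨S, hS⟩ : ∃ S : Matrix (Fin 3) (Fin 3) F, S = smx (x * (g * x * g⁻¹)) := ⟨_, rfl⟩
    rw [← hS] at hSE hSW hSF
    have hSM : MIn M S := by rw [hS]; exact hxM.mul hyM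
    have hxM' : MIn M (heis q 3 e (a • W) b) := by rw [← hx]; exact hxM
    -- the element `C = S ^ (q - 1)`
    have hCM : MIn M (S ^ (q - 1)) := Cfsg.Agent.Lib.Helper73.RU3.MIn_pow hSM (q - 1)
    have hq1 : q - 1 + 1 = q := by omega
    have hlamE : t ^ (q - 1) = u / t := by rw [eq_div_iff ht0, ← pow_succ, hq1, hu]
    have hlamF : (u⁻¹) ^ (q - 1) = u / t := by
      have h1 : (u⁻¹) ^ (q - 1) * u⁻¹ = t⁻¹ := by rw [← pow_succ, hq1, inv_pow, hu']
      rw [mul_inv_eq_iff_eq_mul₀ hu0] at h1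
      rw [h1]
      ring
    have hη : (u / t) ^ (q - 1) = (t / u) ^ 2 := by
      have h1 : (u / t) ^ (q - 1) * (u / t) = t / u := by
        rw [← pow_succ, hq1, div_pow, hu', hu]
      have h2 : u / t ≠ 0 := div_ne_zero hu0 ht0
      rw [(eq_div_iff h2).mpr h1]
      field_simp
    have hCe : (S ^ (q - 1)) *ᵥ e = (u / t) • e := by
      rw [he, Matrix.mulVec_add, Matrix.mulVec_smul,
        Cfsg.Agent.Lib.Helper73.RU3.pow_mulVec_eigen S E t hSE,
        Cfsg.Agent.Lib.Helper73.RU3.pow_mulVec_eigen S Fv u⁻¹ hSF, hlamE, hlamF]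
      module
    have hCW : (S ^ (q - 1)) *ᵥ W = ((t / u) ^ 2) • W := by
      rw [Cfsg.Agent.Lib.Helper73.RU3.pow_mulVec_eigen S W (u / t) hSW, hη]
    have hlamq : (u / t) ^ q = t / u := by rw [div_pow, hu', hu]
    have hlam : (u / t) * (u / t) ^ q = 1 := by
      rw [hlamq]; field_simp
    obtain ⟨-, hTA, hTB, hTC⟩ := Cfsg.Agent.Lib.Helper13.RU3.tv hF hM hfr'.ee hfr'.we hfr'.ww hab
      hxM' hCM hCe hCW hlam
    have hm : (u / t) ^ q * (t / u) ^ 2 = (t / u) ^ 3 := by rw [hlamq]; ring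
    have hmq : ((t / u) ^ 3) ^ q = (u / t) ^ 3 := by
      rw [← pow_mul, mul_comm, pow_mul, div_pow, hu', hu]
    have hmq' : ((u / t) ^ 3) ^ q = (t / u) ^ 3 := by
      rw [← pow_mul, mul_comm, pow_mul, div_pow, hu', hu]
    rw [hm, hmq] at hTA
    rw [hm] at hTB
    have hN0 : a * a ^ q ≠ 0 := mul_ne_zero ha0 (pow_ne_zero _ ha0)
    have hNq : (a * a ^ q) ^ q = a * a ^ q := by
      rw [mul_pow, herm_pow_pow hF]; ring
    -- the parameter `κ_A`
    have hκAq : a * a ^ q * ((u / t) ^ 3 - (t / u) ^ 3) +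
        (a * a ^ q * ((u / t) ^ 3 - (t / u) ^ 3)) ^ q = 0 := by
      rw [mul_pow, hNq, herm_sub_pow hF, hmq, hmq']
      ring
    have hκA0 : u ^ 6 ≠ t ^ 6 → a * a ^ q * ((u / t) ^ 3 - (t / u) ^ 3) ≠ 0 := by
      intro h6 h0
      rcases mul_eq_zero.mp h0 with h | h
      · exact hN0 h
      · apply h6
        field_simp at h
        linear_combination h
    -- doubling in odd characteristic
    have hdbl : (2 : F) ≠ 0 → ∀ κ : F, κ ≠ 0 → κ + κ ^ q = 0 →
        MIn M (Cfsg.unitaryTransvection 3 q e κ) →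
        ∃ κ' : F, κ' ≠ 0 ∧ κ' + κ' ^ q = 0 ∧ κ' * γ ≠ 1 ∧
          MIn M (Cfsg.unitaryTransvection 3 q e κ') := by
      intro h2 κ hκ0 hκ hκM
      by_cases h1 : κ * γ = 1
      · refine ⟨κ + κ, ?_, ?_, ?_, ?_⟩
        · intro h
          have h3 : 2 * κ = 0 := by linear_combination h
          exact hκ0 ((mul_eq_zero.mp h3).resolve_left h2)
        · rw [herm_add_pow hF]
          linear_combination 2 * hκ
        · intro h
          have h3 : (1 : F) = 0 := by linear_combination h - 2 * h1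
          exact one_ne_zero h3
        · rw [← tv_add e hfr'.ee]
          exact hκM.mul hκM
      · exact ⟨κ, hκ0, hκ, h1, hκM⟩
    have hsel : ∃ κ : F, κ ≠ 0 ∧ κ + κ ^ q = 0 ∧ κ * γ ≠ 1 ∧
        MIn M (Cfsg.unitaryTransvection 3 q e κ) := by
      rcases halt with ⟨h2, h6⟩ | ⟨h2, h3, hpoly⟩ | ⟨h2, h6, h9⟩ | ⟨h2, h4⟩
      · exact hdbl h2 _ (hκA0 h6) hκAq hTA
      · have hm1 : (t / u) ^ 3 = -1 := by
          rw [div_pow, h3]
          field_simp
        have h2q : (2 : F) ^ q = 2 := by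
          have h := herm_add_pow hF (1 : F) 1
          rw [one_pow, one_add_one_eq_two] at h
          exact h
        refine hdbl h2 _ ?_ ?_ (hTB hm1)
        · intro h0
          apply hpoly
          rw [← hB, h0, zero_mul]
        · rw [herm_add_pow hF, mul_pow, h2q, hNq]
          linear_combination 2 * hab
      · have hκC : a * a ^ q + (a * a ^ q) ^ q = 0 := by
          rw [hNq]
          linear_combination (a * a ^ q) * h2
        by_cases h1 : a * a ^ q * γ = 1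
        · refine ⟨_, hκA0 h6, hκAq, ?_, hTA⟩
          intro h
          have h5 : (u / t) ^ 3 - (t / u) ^ 3 = 1 := by
            have h7 : a * a ^ q * γ * ((u / t) ^ 3 - (t / u) ^ 3) = a * a ^ q * γ * 1 := by
              linear_combination h - h1
            exact mul_left_cancel₀ (mul_ne_zero hN0 hγ0) h7
          have h8 : u ^ 6 - t ^ 6 = t ^ 3 * u ^ 3 := by
            field_simp at h5
            linear_combination h5
          apply h9
          linear_combination (u ^ 3 - t ^ 3) * h8 + (t ^ 3 * u ^ 6 - t ^ 9) * h2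
        · exact ⟨_, hN0, hκC, h1, hTC h2⟩
      · have hκC : a * a ^ q + (a * a ^ q) ^ q = 0 := by
          rw [hNq]
          linear_combination (a * a ^ q) * h2
        refine ⟨_, hN0, hκC, ?_, hTC h2⟩
        intro h1
        apply h4
        rw [h1, one_mul] at hN
        linear_combination -hN
    obtain ⟨κ, hκ0, hκ, hns, hκM⟩ := hsel
    obtain ⟨hcE, hcF, hce⟩ := Cfsg.Agent.Lib.Helper73.RU3.step2 hF hM hfr.ee hfr.ff hfr.ef ht0 hSM
      hSE (by rw [hu]; exact hSF) hρ' hγ0 hγ hκ0 hκ hns (by rw [← he]; exact hκM)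
    rw [← he] at hce
    exact Cfsg.Agent.Lib.Helper65.RU3.gc hF hM hfr'.ee hfr'.ff hfr'.ef hfr'.ww hfr'.we hfr'.wf
      (fun v => Cfsg.Agent.Lib.Helper43.RU3.frame_complete hF hfr'.ee hfr'.ff hfr'.ef hfr'.ww
        hfr'.we hfr'.wf v) hce hcF ha0 hab hxM'

end

end Cfsg.Agent.Lib.Helper93.RU3
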