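import Mathlib
import Cfsg.Agent.Lib.Helper93.Sl3Defs
import Cfsg.Agent.Lib.Helper86.Sl3BSTEP
import Cfsg.Agent.Lib.Helper23.Sl3COMM
import Cfsg.Agent.Lib.Helper17.Sl3IDX
import Cfsg.Agent.Lib.Helper23.Sl3L12
import Cfsg.Agent.Lib.Helper35.Sl3MATA
import Cfsg.Agent.Lib.Helper34.Sl3MATB
import Cfsg.Agent.Lib.Helper5.Sl3MATCARD
import Cfsg.Agent.Lib.Helper2.Sl3MATG
import Cfsg.Agent.Lib.Helper2.Sl3MATGEN
import Cfsg.Agent.Lib.Helper2.Sl3MATPW
import Cfsg.Agent.Lib.Helper23.Sl3MOVES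
import Cfsg.Agent.Lib.Helper26.Sl3NACT
import Cfsg.Agent.Lib.Helper65.Sl3PSTEP1
import Cfsg.Agent.Lib.Helper4.Sl3PSTEP2
import Cfsg.Agent.Lib.Helper4.Sl3PSTEP3
import Cfsg.Agent.Lib.Helper86.Sl3QSTEP
import Cfsg.Agent.Lib.Helper94.Sl3RANK
import Cfsg.Agent.Lib.Helper43.Sl3RANK1SUB
import Cfsg.Agent.Lib.Helper73.Sl3STEIN
import Cfsg.Agent.Lib.Helper57.Sl3TORA
import Cfsg.Agent.Lib.Helper5.Sl3TORB
import Cfsg.Agent.Lib.Helper73.Sl3TORREL
import Cfsg.Agent.Lib.Helper17.Sl3TRANSFER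
import Cfsg.Agent.Lib.Helper23.Sl3XTG
import Cfsg.Agent.Lib.Helper86.Sl3YCARD
import Cfsg.Agent.Lib.Helper93.PresMain

set_option autoImplicit false

namespace Cfsg.Agent.Lib.Helper93.Sl3

open Polynomial Matrix

/-! ## Level 3: the count -/

section count

variable {P : Type*} [Group P] {q : ℕ} {U T : Subgroup P} {t c : P}

/-- COUNT -/
theorem bn_count (D : BNData q U T t c)
    (hgen : Subgroup.closure ((U : Set P) ∪ T ∪ {t, c}) = ⊤) :
    Finite P ∧ Nat.card P ≤ Nat.card T * q ^ 3 * (q + 1) * (q ^ 2 + q + 1) := by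
  have N := nAct D
  obtain ⟨hYB, cYB, hYQ, cYQ, hYP, cYP⟩ := y_card D
  haveI := D.finT
  have h1 : (1 : P) ∈ YB U t c :=
    ⟨1, U.one_mem, 1, (cj c U).one_mem, 1, (cj (t * c) U).one_mem, by simp⟩
  obtain ⟨fB, cB⟩ := index_lemma T (YB U t c) hYB (SB U T t c) h1 (b_step D N)
  haveI : Finite (Bsub U T t c) := fB
  have h1Q : (1 : P) ∈ YQ U t := Or.inl rfl
  obtain ⟨fQ, cQ⟩ := index_lemma (Bsub U T t c) (YQ U t) hYQ (SB U T t c ∪ {t}) h1Q
    (q_step D N)
  haveI : Finite (Qsub U T t c) := fQ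
  have h1P : (1 : P) ∈ YP U t c := Or.inl (Or.inl rfl)
  have hP : ∀ y ∈ YP U t c, ∀ s ∈ ((U : Set P) ∪ T ∪ {t, c}),
      ∃ a ∈ Qsub U T t c, ∃ y' ∈ YP U t c, y * s = a * y' := by
    intro y hy s hs
    rcases hy with hy | ⟨v, hv, z, hz, rfl⟩
    · exact p_step1 D N y hy s hs
    · rcases hs with hs | hs
      · exact p_step2 D N v hv z hz s (Or.inl hs)
      · rcases hs with rfl | hs
        · exact p_step2 D N v hv z hz s (Or.inr rfl)
        · rw [Set.mem_singleton_iff] at hs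
          subst hs
          exact p_step3 D N v hv z hz
  obtain ⟨fP, cP⟩ := index_lemma (Qsub U T t c) (YP U t c) hYP _ h1P hP
  rw [hgen] at fP cP
  haveI : Finite P := Finite.of_equiv _ (Subgroup.topEquiv (G := P)).toEquiv
  refine ⟨inferInstance, ?_⟩
  rw [Subgroup.card_top] at cP
  have cB' : Nat.card (Bsub U T t c) ≤ Nat.card T * q ^ 3 :=
    cB.trans (Nat.mul_le_mul_left _ cYB)
  have cQ' : Nat.card (Qsub U T t c) ≤ Nat.card T * q ^ 3 * (q + 1) :=
    cQ.trans (Nat.mul_le_mul cB' cYQ)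
  exact cP.trans (Nat.mul_le_mul cQ' cYP)

end count

/-! ## Level 2 → 3 -/

section l23

variable {F : Type*} [Field F] {P : Type*} [Group P] {ζ : F} {x : F → P} {h t c : P}

/-- L23 -/
theorem bnData_of_rootData [Fintype F] (D : RootData ζ x h t c) (hζ0 : ζ ≠ 0)
    (hζ : ∀ a : F, a ≠ 0 → ∃ j : ℕ, a = ζ ^ j) :
    BNData (Fintype.card F) (rootSub x D.add) (torusT h c) t c ∧
      Nat.card (torusT h c) ≤ (Fintype.card F - 1) ^ 2 := by
  have R := torRel D
  obtain ⟨hiii, hq, ht2⟩ := rank_one D R hζ0 hζ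
  have M := moves D R hζ0 ht2
  obtain ⟨hTt, hTc, hTx⟩ := torus_act D R hζ0
  have hst := steinberg_all D M hζ0 hζ
  obtain ⟨hc1, hc2⟩ := stein_comm D.add hst
  have hqpos : 0 < Fintype.card F - 1 := by
    have := Fintype.one_lt_card (α := F); omega
  obtain ⟨tf, tcard⟩ := torus_card h c (Fintype.card F - 1) hqpos D.hh hq
  have hhT : h ∈ torusT h c := Subgroup.subset_closure (by simp)
  have hzT : Subgroup.zpowers h ≤ torusT h c := by
    rw [Subgroup.zpowers_le]; exact hhT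
  obtain ⟨r1, r1'⟩ := rank_one_sub D.add (torusT h c) hzT hTt (hzT ht2)
    (fun τ hτ a => by
      obtain ⟨s, hs⟩ := hTx τ hτ
      exact ⟨s * a, hs a⟩) hiii
  have hsurj : Function.Surjective (fun a : F => (⟨x a, a, rfl⟩ : rootSub x D.add)) := by
    rintro ⟨_, a, rfl⟩
    exact ⟨a, rfl⟩
  have hmemc : ∀ w ∈ cj c (rootSub x D.add), ∃ b, w = c * x b * c⁻¹ := by
    intro w hw
    obtain ⟨_, ⟨b, rfl⟩, rfl⟩ := mem_cj.mp hw
    exact ⟨b, rfl⟩
  have hmemz : ∀ z ∈ cj (t * c) (rootSub x D.add), ∃ d, z = t * c * x d * c⁻¹ * t⁻¹ := by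
    intro z hz
    obtain ⟨_, ⟨d, rfl⟩, rfl⟩ := mem_cj.mp hz
    exact ⟨d, by group⟩
  refine ⟨⟨Finite.of_surjective _ hsurj, ?_, tf, D.c3, D.ct, hzT ht2, hTt, hTc, ?_, ?_, ?_, ?_,
    ?_, ?_⟩, tcard⟩
  · have h1 := Nat.card_le_card_of_surjective _ hsurj
    have h2 : Nat.card F = Fintype.card F := Nat.card_eq_fintype_card
    rw [h2] at h1
    exact h1
  · rintro τ hτ _ ⟨a, rfl⟩
    obtain ⟨s, hs⟩ := hTx τ hτ
    exact ⟨s * a, (hs a).symm⟩
  · rintro _ ⟨a, rfl⟩ hv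
    obtain ⟨a', τ, hτ, a'', e⟩ := r1 a hv
    exact ⟨x a', ⟨a', rfl⟩, τ, hτ, x a'', ⟨a'', rfl⟩, e⟩
  · rintro _ ⟨a, rfl⟩ hv
    obtain ⟨a', τ, hτ, a'', e⟩ := r1' a hv
    exact ⟨x a', ⟨a', rfl⟩, τ, hτ, x a'', ⟨a'', rfl⟩, e⟩
  · rintro _ ⟨a, rfl⟩ w hw
    obtain ⟨b, rfl⟩ := hmemc w hw
    rw [hst a b]
    exact mem_cj.mpr ⟨x (a * b), ⟨a * b, rfl⟩, by group⟩
  · rintro _ ⟨a, rfl⟩ z hz
    obtain ⟨d, rfl⟩ := hmemz z hz
    exact hc1 a d
  · intro w hw z hz
    obtain ⟨b, rfl⟩ := hmemc w hw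
    obtain ⟨d, rfl⟩ := hmemz z hz
    exact hc2 b d

end l23

/-! ## The bound for an abstract group -/

theorem card_arith (q : ℕ) (hq : 2 ≤ q) :
    (q - 1) ^ 2 * q ^ 3 * (q + 1) * (q ^ 2 + q + 1) = q ^ 3 * (q ^ 2 - 1) * (q ^ 3 - 1) := by
  obtain ⟨n, rfl⟩ : ∃ n, q = n + 1 := ⟨q - 1, by omega⟩
  have e1 : n + 1 - 1 = n := by omega
  have e2 : (n + 1) ^ 2 - 1 = n * (n + 2) := by
    have : (n + 1) ^ 2 = n * (n + 2) + 1 := by ring
    omega
  have e3 : (n + 1) ^ 3 - 1 = n * ((n + 1) ^ 2 + (n + 1) + 1) := by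
    have : (n + 1) ^ 3 = n * ((n + 1) ^ 2 + (n + 1) + 1) + 1 := by ring
    omega
  rw [e1, e2, e3]
  ring

theorem core_bound {F : Type*} [Field F] [Fintype F] (p : ℕ) [Fact p.Prime]
    [Algebra (ZMod p) F] (ζ : F) (hζ0 : ζ ≠ 0) (hζ : ∀ a : F, a ≠ 0 → ∃ j : ℕ, a = ζ ^ j)
    {P : Type*} [Group P] (u h t c : P) (hgen : Subgroup.closure {u, h, t, c} = ⊤)
    (hcomm : ∀ i j, Commute (Pres.aC u (gC h c) i) (Pres.aC u (gC h c) j))
    (hrel : ∀ r ∈ relsCore p (minpoly (ZMod p) ζ) u h t c, r = 1) :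
    Finite P ∧ Nat.card P ≤
      Fintype.card F ^ 3 * (Fintype.card F ^ 2 - 1) * (Fintype.card F ^ 3 - 1) := by
  have hu : u ^ p = 1 := hrel _ (by simp [relsCore])
  have hm : Pres.pw p u (gC h c) (minpoly (ZMod p) ζ) = 1 := hrel _ (by simp [relsCore])
  have hsurj : Function.Surjective (fun f : (ZMod p)[X] => aeval ζ f) := by
    intro y
    by_cases hy : y = 0
    · exact ⟨0, by simp [hy]⟩
    · obtain ⟨j, rfl⟩ := hζ y hy
      exact ⟨X ^ j, by simp⟩
  obtain ⟨x, hadd, hx1, hg, -⟩ := exists_xt_gen p ζ hsurj u (gC h c) hu hcomm hm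
  have D := rootData_of_xt ζ hζ0 hζ u h t c p _ x hadd hx1 hg hrel
  obtain ⟨B, hT⟩ := bnData_of_rootData D hζ0 hζ
  have hgen' : Subgroup.closure ((rootSub x D.add : Set P) ∪ torusT h c ∪ {t, c}) = ⊤ := by
    rw [eq_top_iff, ← hgen, Subgroup.closure_le]
    intro y hy
    simp only [Set.mem_insert_iff, Set.mem_singleton_iff] at hy
    apply Subgroup.subset_closure
    rcases hy with rfl | rfl | rfl | rfl
    · exact Or.inl (Or.inl ⟨1, hx1⟩)
    · exact Or.inl (Or.inr (Subgroup.subset_closure (by simp)))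
    · exact Or.inr (by simp)
    · exact Or.inr (by simp)
  obtain ⟨hfin, hcard⟩ := bn_count B hgen'
  refine ⟨hfin, ?_⟩
  have hq2 : 2 ≤ Fintype.card F := Fintype.one_lt_card
  rw [← card_arith _ hq2]
  calc Nat.card P ≤ Nat.card (torusT h c) * Fintype.card F ^ 3 * (Fintype.card F + 1) *
        (Fintype.card F ^ 2 + Fintype.card F + 1) := hcard
    _ ≤ (Fintype.card F - 1) ^ 2 * Fintype.card F ^ 3 * (Fintype.card F + 1) *
        (Fintype.card F ^ 2 + Fintype.card F + 1) := by gcongr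

/-! ## The presentation -/

theorem range_four {G : Type*} (f : Fin 4 → G) : Set.range f = {f 0, f 1, f 2, f 3} := by
  ext x
  simp only [Set.mem_range, Set.mem_insert_iff, Set.mem_singleton_iff]
  constructor
  · rintro ⟨i, rfl⟩
    fin_cases i <;> simp
  · rintro (rfl | rfl | rfl | rfl) <;> exact ⟨_, rfl⟩

/-- General recognition lemma for four generators. -/
theorem pres_iso4 {G : Type*} [Group G] (R : List (FreeGroup (Fin 4))) (u h t c : G)
    (hrel : ∀ r ∈ R.map (FreeGroup.lift ![u, h, t, c]), r = 1)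
    (hgen : Subgroup.closure {u, h, t, c} = ⊤)
    (hcard : ∀ (P : Type) [Group P] (u' h' t' c' : P), Subgroup.closure {u', h', t', c'} = ⊤ →
      (∀ r ∈ R.map (FreeGroup.lift ![u', h', t', c']), r = 1) →
        Finite P ∧ Nat.card P ≤ Nat.card G) :
    ∃ rels : Finset (FreeGroup (Fin 4)), rels.card ≤ R.length ∧
      Nonempty (PresentedGroup (↑rels : Set (FreeGroup (Fin 4))) ≃* G) := by
  classical
  refine ⟨R.toFinset, List.toFinset_card_le R, ?_⟩
  have hrel' : ∀ r ∈ (↑R.toFinset : Set (FreeGroup (Fin 4))),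
      FreeGroup.lift ![u, h, t, c] r = 1 := by
    intro r hr
    exact hrel _ (List.mem_map_of_mem (by simpa using hr))
  let φ := PresentedGroup.toGroup hrel'
  have hsurj : Function.Surjective φ := by
    rw [← MonoidHom.range_eq_top, eq_top_iff, ← hgen, Subgroup.closure_le]
    have h4 : ({u, h, t, c} : Set G) = Set.range ![u, h, t, c] := by
      rw [range_four]; simp
    rw [h4]
    rintro _ ⟨i, rfl⟩
    exact ⟨PresentedGroup.of i, PresentedGroup.toGroup.of hrel'⟩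
  have hmk : FreeGroup.lift ![(PresentedGroup.of 0 :
      PresentedGroup (↑R.toFinset : Set (FreeGroup (Fin 4)))),
      PresentedGroup.of 1, PresentedGroup.of 2, PresentedGroup.of 3] = PresentedGroup.mk _ := by
    ext i
    fin_cases i <;> simp [PresentedGroup.of]
  have hP := hcard (PresentedGroup (↑R.toFinset : Set (FreeGroup (Fin 4))))
    (PresentedGroup.of 0) (PresentedGroup.of 1) (PresentedGroup.of 2) (PresentedGroup.of 3)
    (by
      rw [← PresentedGroup.closure_range_of, range_four])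
    (by
      intro r hr
      rw [hmk] at hr
      obtain ⟨r', hr', rfl⟩ := List.mem_map.mp hr
      exact PresentedGroup.one_of_mem (by simpa using hr'))
  haveI := hP.1
  have hbij : Function.Bijective φ := hsurj.bijective_of_nat_card_le hP.2
  exact ⟨MulEquiv.ofBijective φ hbij⟩

/-- the four generators of the free group -/
abbrev fu : FreeGroup (Fin 4) := FreeGroup.of 0
abbrev fh : FreeGroup (Fin 4) := FreeGroup.of 1
abbrev ft : FreeGroup (Fin 4) := FreeGroup.of 2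
abbrev fc : FreeGroup (Fin 4) := FreeGroup.of 3

theorem lift_fu {G : Type*} [Group G] (u h t c : G) : FreeGroup.lift ![u, h, t, c] fu = u := by
  simp [fu]
theorem lift_fh {G : Type*} [Group G] (u h t c : G) : FreeGroup.lift ![u, h, t, c] fh = h := by
  simp [fh]
theorem lift_ft {G : Type*} [Group G] (u h t c : G) : FreeGroup.lift ![u, h, t, c] ft = t := by
  simp [ft]
theorem lift_fc {G : Type*} [Group G] (u h t c : G) : FreeGroup.lift ![u, h, t, c] fc = c := by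
  simp [fc]

/-- S2287 -/
theorem main_sl3 {F : Type*} [Field F] [Fintype F] :
    ∃ rels : Finset (FreeGroup (Fin 4)), rels.card ≤ 14 ∧
      Nonempty (PresentedGroup (↑rels : Set (FreeGroup (Fin 4))) ≃*
        SpecialLinearGroup (Fin 3) F) := by
  classical
  obtain ⟨p, hp⟩ := CharP.exists F
  haveI : Fact p.Prime := ⟨CharP.char_is_prime F p⟩
  letI : Algebra (ZMod p) F := ZMod.algebra F p
  obtain ⟨ζ, hζ0, hζ⟩ := Pres.exists_gen (F := F)
  obtain ⟨hXadd, -, haC⟩ := mat_basic ζ hζ0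
  have hX0 : mX (0 : F) = 1 := by
    have h0 := hXadd 0 0
    rw [add_zero] at h0
    exact left_eq_mul.mp h0
  have hpw : Pres.pw p (mX (1 : F)) (gC (mH ζ hζ0) (mC F)) (minpoly (ZMod p) ζ) = 1 := by
    rw [mat_pw, minpoly.aeval, hX0]
  by_cases h5 : 1 + ζ = 0
  · obtain ⟨rels, hc, hiso⟩ := pres_iso4 (relsCore p (minpoly (ZMod p) ζ) fu fh ft fc)
      (mX (1 : F)) (mH ζ hζ0) (mT F) (mC F)
      (by
        rw [map_relsCore, lift_fu, lift_fh, lift_ft, lift_fc]
        exact mat_relsCore p ζ hζ0 haC hpw)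
      (mat_gen ζ hζ0 hζ)
      (by
        intro P _ u' h' t' c' hgen hrel
        rw [map_relsCore, lift_fu, lift_fh, lift_ft, lift_fc] at hrel
        have hm : Pres.pw p u' (gC h' c') (minpoly (ZMod p) ζ) = 1 :=
          hrel _ (by simp [relsCore])
        rw [card_SL3]
        exact core_bound p ζ hζ0 hζ u' h' t' c' hgen
          (comm_of_neg_one p ζ h5 u' (gC h' c') hm) hrel)
    exact ⟨rels, hc.trans (by simp [relsCore]), hiso⟩
  · obtain ⟨k, hk⟩ := hζ (1 + ζ) h5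
    obtain ⟨rels, hc, hiso⟩ := pres_iso4
      (relsGap k fu fh fc ++ relsCore p (minpoly (ZMod p) ζ) fu fh ft fc)
      (mX (1 : F)) (mH ζ hζ0) (mT F) (mC F)
      (by
        rw [List.map_append, map_relsCore, map_relsGap, lift_fu, lift_fh, lift_ft, lift_fc]
        intro r hr
        rcases List.mem_append.mp hr with hr | hr
        · exact mat_relsGap ζ hζ0 k hk.symm haC r hr
        · exact mat_relsCore p ζ hζ0 haC hpw r hr)
      (mat_gen ζ hζ0 hζ)
      (by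
        intro P _ u' h' t' c' hgen hrel
        rw [List.map_append, map_relsCore, map_relsGap, lift_fu, lift_fh, lift_ft, lift_fc]
          at hrel
        have hg0 : Pres.aC u' (gC h' c') 0 * Pres.aC u' (gC h' c') 1 *
            (Pres.aC u' (gC h' c') 0)⁻¹ * (Pres.aC u' (gC h' c') 1)⁻¹ = 1 :=
          hrel _ (List.mem_append_left _ (by simp [relsGap]))
        have hg1 : (Pres.aC u' (gC h' c') k)⁻¹ *
            (Pres.aC u' (gC h' c') 0 * Pres.aC u' (gC h' c') 1) = 1 :=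
          hrel _ (List.mem_append_left _ (by simp [relsGap]))
        rw [card_SL3]
        exact core_bound p ζ hζ0 hζ u' h' t' c' hgen
          (comm_of_gap u' (gC h' c') k hg0 hg1)
          (fun r hr => hrel r (List.mem_append_right _ hr)))
    exact ⟨rels, hc.trans (by simp [relsCore, relsGap]), hiso⟩

end Cfsg.Agent.Lib.Helper93.Sl3
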