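import Mathlib
import Cfsg.Agent.Lib.Helper93.Sp4Defs
import Cfsg.Agent.Lib.Helper86.Sp4BSTEP
import Cfsg.Agent.Lib.Helper52.Sp4CENTER
import Cfsg.Agent.Lib.Helper75.Sp4COMMA
import Cfsg.Agent.Lib.Helper18.Sp4COMMB
import Cfsg.Agent.Lib.Helper60.Sp4COMMR
import Cfsg.Agent.Lib.Helper85.Sp4L12
import Cfsg.Agent.Lib.Helper46.Sp4MATA
import Cfsg.Agent.Lib.Helper52.Sp4MATCARD
import Cfsg.Agent.Lib.Helper46.Sp4MATGA
import Cfsg.Agent.Lib.Helper13.Sp4MATGEN
import Cfsg.Agent.Lib.Helper57.Sp4MATPW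
import Cfsg.Agent.Lib.Helper85.Sp4MATRA
import Cfsg.Agent.Lib.Helper92.Sp4MATRB
import Cfsg.Agent.Lib.Helper89.Sp4MATTNS
import Cfsg.Agent.Lib.Helper28.Sp4MOVES
import Cfsg.Agent.Lib.Helper19.Sp4NACT
import Cfsg.Agent.Lib.Helper87.Sp4NF1
import Cfsg.Agent.Lib.Helper55.Sp4NF2
import Cfsg.Agent.Lib.Helper78.Sp4P01
import Cfsg.Agent.Lib.Helper26.Sp4P2A
import Cfsg.Agent.Lib.Helper28.Sp4P2B
import Cfsg.Agent.Lib.Helper86.Sp4P3A
import Cfsg.Agent.Lib.Helper90.Sp4P3B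
import Cfsg.Agent.Lib.Helper19.Sp4QSTEP
import Cfsg.Agent.Lib.Helper92.Sp4R1G
import Cfsg.Agent.Lib.Helper21.Sp4R1S
import Cfsg.Agent.Lib.Helper17.Sp4STC1
import Cfsg.Agent.Lib.Helper60.Sp4STC2
import Cfsg.Agent.Lib.Helper87.Sp4TORA
import Cfsg.Agent.Lib.Helper60.Sp4TORB
import Cfsg.Agent.Lib.Helper86.Sp4YCARD
import Cfsg.Agent.Lib.Helper93.PresMain
import Cfsg.Agent.Lib.Helper23.Sl3COMM
import Cfsg.Agent.Lib.Helper17.Sl3IDX
import Cfsg.Agent.Lib.Helper43.Sl3RANK1SUB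
import Cfsg.Prelude.Def_Classical

set_option autoImplicit false

namespace Cfsg.Agent.Lib.Helper93.Sp4

open Polynomial Matrix
open Cfsg.Agent.Lib.Helper93.Sl3 (cj mem_cj conj_mem_cj rootSub index_lemma rank_one_sub)

/-! ## Level 3: the count -/

section count

variable {P : Type*} [Group P] {q : ℕ} {Ua Ub T : Subgroup P} {ta tb : P}

theorem c2_count (D : C2Data q Ua Ub T ta tb)
    (hgen : Subgroup.closure (SP Ua Ub T ta tb) = ⊤) :
    Finite P ∧ Nat.card P ≤ Nat.card T * q ^ 4 * (q + 1) * (q ^ 3 + q ^ 2 + q + 1) := by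
  have N := c2Act D
  obtain ⟨hYB, cYB, hYQ, cYQ, hYP, cYP⟩ := c2_y_card D
  haveI := D.finT
  have h1 : (1 : P) ∈ YB Ua Ub ta tb :=
    ⟨1, Ua.one_mem, 1, Ub.one_mem, 1, (cj tb Ua).one_mem, 1, (cj ta Ub).one_mem, by simp⟩
  obtain ⟨fB, cB⟩ := index_lemma T (YB Ua Ub ta tb) hYB (SB Ua Ub T ta tb) h1 (c2_b_step D N)
  haveI : Finite (Bsub Ua Ub T ta tb) := fB
  have h1Q : (1 : P) ∈ YQ Ua ta := Or.inl rfl
  obtain ⟨fQ, cQ⟩ := index_lemma (Bsub Ua Ub T ta tb) (YQ Ua ta) hYQ (SB Ua Ub T ta tb ∪ {ta})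
    h1Q (c2_q_step D N)
  haveI : Finite (Qsub Ua Ub T ta tb) := fQ
  have h1P : (1 : P) ∈ YP Ua Ub ta tb := Or.inl (Or.inl (Or.inl rfl))
  have h2a := c2_p_step2a D N
  have h3a := c2_p_step3a D N
  have hP : ∀ y ∈ YP Ua Ub ta tb, ∀ s ∈ SP Ua Ub T ta tb,
      ∃ a ∈ Qsub Ua Ub T ta tb, ∃ y' ∈ YP Ua Ub ta tb, y * s = a * y' := by
    intro y hy s hs
    rcases hy with (hy | hy) | hy
    · exact c2_p_step01 D N y hy s hs
    · rcases hs with hs | hs
      · obtain ⟨a, ha, y', hy', e⟩ := h2a y hy s hs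
        exact ⟨a, ha, y', Or.inl (Or.inr hy'), e⟩
      · exact c2_p_step2b D N h2a y hy s hs
    · rcases hs with hs | hs
      · obtain ⟨a, ha, y', hy', e⟩ := h3a y hy s hs
        exact ⟨a, ha, y', Or.inr hy', e⟩
      · exact c2_p_step3b D N h3a y hy s hs
  obtain ⟨fP, cP⟩ := index_lemma (Qsub Ua Ub T ta tb) (YP Ua Ub ta tb) hYP _ h1P hP
  rw [hgen] at fP cP
  haveI : Finite P := Finite.of_equiv _ (Subgroup.topEquiv (G := P)).toEquiv
  refine ⟨inferInstance, ?_⟩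
  rw [Subgroup.card_top] at cP
  have cB' : Nat.card (Bsub Ua Ub T ta tb) ≤ Nat.card T * q ^ 4 :=
    cB.trans (Nat.mul_le_mul_left _ cYB)
  have cQ' : Nat.card (Qsub Ua Ub T ta tb) ≤ Nat.card T * q ^ 4 * (q + 1) :=
    cQ.trans (Nat.mul_le_mul cB' cYQ)
  exact cP.trans (Nat.mul_le_mul cQ' cYP)

end count

/-! ## Level 2 → 3 -/

section l23

variable {F : Type*} [Field F] {P : Type*} [Group P] {ζ : F} {n : ℕ} {xa xb : F → P}
  {ha ta hb tb : P}

theorem c2Data_of_root [Fintype F] (D : C2Root ζ n xa xb ha ta hb tb) (hζ0 : ζ ≠ 0)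
    (hζ : ∀ a : F, a ≠ 0 → ∃ j : ℕ, a = ζ ^ j) (hfT : Finite (torus2 ha hb)) :
    C2Data (Fintype.card F) (rootSub xa D.adda) (rootSub xb D.addb) (torus2 ha hb) ta tb := by
  have M := c2Moves D hζ0
  have hA := comm_a_aab D M hζ0 hζ
  have hB := comm_b_aab D M hζ0 hζ
  have h1 := nfact1 D hζ0 hζ
  have h2 := nfact2 D hζ0 hζ
  obtain ⟨hABAAB, hBAB⟩ := comm_rest hA h1 h2
  have hC1 := stein_c1 D M hζ0 hζ hB hBAB hABAAB
  have hC2 := stein_c2 D.adda D.addb hC1 hA hABAAB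
  obtain ⟨hTta, hTtb, hTxa, hTxb⟩ := torus2_act D M hζ0
  have hhaT : ha ∈ torus2 ha hb := Subgroup.subset_closure (by simp)
  have hhbT : hb ∈ torus2 ha hb := Subgroup.subset_closure (by simp)
  have hzaT : Subgroup.zpowers ha ≤ torus2 ha hb := by
    rw [Subgroup.zpowers_le]; exact hhaT
  have hzbT : Subgroup.zpowers hb ≤ torus2 ha hb := by
    rw [Subgroup.zpowers_le]; exact hhbT
  obtain ⟨r1a, -⟩ := rank_one_sub (x := xa) (h := ha) (t := ta) D.adda (torus2 ha hb) hzaT hTta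
    (hzaT D.ta2)
    (fun τ hτ a => by
      obtain ⟨s, hs⟩ := hTxa τ hτ
      exact ⟨s * a, hs a⟩) D.ra
  obtain ⟨r1b, -⟩ := rank_one_sub (x := xb) (h := hb) (t := tb) D.addb (torus2 ha hb) hzbT hTtb
    (hzbT D.tb2)
    (fun τ hτ a => by
      obtain ⟨s, hs⟩ := hTxb τ hτ
      exact ⟨s * a, hs a⟩) D.rb
  have hsurja : Function.Surjective (fun a : F => (⟨xa a, a, rfl⟩ : rootSub xa D.adda)) := by
    rintro ⟨_, a, rfl⟩
    exact ⟨a, rfl⟩
  have hsurjb : Function.Surjective (fun a : F => (⟨xb a, a, rfl⟩ : rootSub xb D.addb)) := by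
    rintro ⟨_, a, rfl⟩
    exact ⟨a, rfl⟩
  have hcF : Nat.card F = Fintype.card F := Nat.card_eq_fintype_card
  have hmem_ab : ∀ z ∈ cj tb (rootSub xa D.adda), ∃ d, z = tb * xa d * tb⁻¹ := by
    intro z hz
    obtain ⟨_, ⟨d, rfl⟩, rfl⟩ := mem_cj.mp hz
    exact ⟨d, rfl⟩
  have hmem_aab : ∀ z ∈ cj ta (rootSub xb D.addb), ∃ d, z = ta * xb d * ta⁻¹ := by
    intro z hz
    obtain ⟨_, ⟨d, rfl⟩, rfl⟩ := mem_cj.mp hz
    exact ⟨d, rfl⟩
  have mk_ab : ∀ d, tb * xa d * tb⁻¹ ∈ cj tb (rootSub xa D.adda) :=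
    fun d => conj_mem_cj ⟨d, rfl⟩
  have mk_aab : ∀ d, ta * xb d * ta⁻¹ ∈ cj ta (rootSub xb D.addb) :=
    fun d => conj_mem_cj ⟨d, rfl⟩
  refine
    { finUa := Finite.of_surjective _ hsurja
      cardUa := ?_
      finUb := Finite.of_surjective _ hsurjb
      cardUb := ?_
      finT := hfT
      ta2 := hzaT D.ta2
      tb2 := hzbT D.tb2
      Tta := hTta
      Ttb := hTtb
      TUa := ?_
      TUb := ?_
      braid := ⟨1, Subgroup.one_mem _, by rw [mul_one]; exact D.braid⟩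
      n1 := ?_
      n2 := ?_
      rank1a := ?_
      rank1b := ?_
      c1 := ?_
      c2 := ?_
      c3a := ?_
      c3b := ?_
      c3c := ?_
      c3d := ?_ }
  · have h := Nat.card_le_card_of_surjective _ hsurja
    rwa [hcF] at h
  · have h := Nat.card_le_card_of_surjective _ hsurjb
    rwa [hcF] at h
  · rintro τ hτ _ ⟨a, rfl⟩
    obtain ⟨s, hs⟩ := hTxa τ hτ
    exact ⟨s * a, (hs a).symm⟩
  · rintro τ hτ _ ⟨a, rfl⟩
    obtain ⟨s, hs⟩ := hTxb τ hτ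
    exact ⟨s * a, (hs a).symm⟩
  · -- n1
    ext y
    constructor
    · intro hy
      obtain ⟨z, hz, rfl⟩ := mem_cj.mp hy
      obtain ⟨d, rfl⟩ := hmem_ab z hz
      have e : ta * (tb * xa d * tb⁻¹) * ta⁻¹ = tb * xa (-d) * tb⁻¹ := by
        rw [← h1 d]; group
      rw [e]
      exact mk_ab _
    · intro hy
      obtain ⟨d, rfl⟩ := hmem_ab y hy
      have e : ta * (tb * xa (-d) * tb⁻¹) * ta⁻¹ = tb * xa d * tb⁻¹ := by
        have h := h1 (-d)
        rw [neg_neg] at h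
        rw [← h]; group
      rw [← e]
      exact conj_mem_cj (mk_ab _)
  · -- n2
    ext y
    constructor
    · intro hy
      obtain ⟨z, hz, rfl⟩ := mem_cj.mp hy
      obtain ⟨d, rfl⟩ := hmem_aab z hz
      have e : tb * (ta * xb d * ta⁻¹) * tb⁻¹ = ta * xb d * ta⁻¹ := by
        conv_rhs => rw [← h2 d]
        group
      rw [e]
      exact mk_aab _
    · intro hy
      obtain ⟨d, rfl⟩ := hmem_aab y hy
      have e : tb * (ta * xb d * ta⁻¹) * tb⁻¹ = ta * xb d * ta⁻¹ := by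
        conv_rhs => rw [← h2 d]
        group
      rw [← e]
      exact conj_mem_cj (mk_aab _)
  · rintro _ ⟨a, rfl⟩ hv
    obtain ⟨a', τ, hτ, a'', e⟩ := r1a a hv
    exact ⟨xa a', ⟨a', rfl⟩, τ, hτ, xa a'', ⟨a'', rfl⟩, e⟩
  · rintro _ ⟨a, rfl⟩ hv
    obtain ⟨a', τ, hτ, a'', e⟩ := r1b a hv
    exact ⟨xb a', ⟨a', rfl⟩, τ, hτ, xb a'', ⟨a'', rfl⟩, e⟩
  · rintro _ ⟨a, rfl⟩ _ ⟨b, rfl⟩
    exact ⟨_, mk_ab _, _, mk_aab _, hC1 a b⟩
  · rintro _ ⟨a, rfl⟩ z1 hz1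
    obtain ⟨d, rfl⟩ := hmem_ab z1 hz1
    obtain ⟨e, he⟩ := hC2 a d
    rw [he]
    exact mk_aab e
  · rintro _ ⟨a, rfl⟩ z2 hz2
    obtain ⟨d, rfl⟩ := hmem_aab z2 hz2
    exact hA a d
  · rintro _ ⟨b, rfl⟩ z1 hz1
    obtain ⟨d, rfl⟩ := hmem_ab z1 hz1
    exact hBAB b d
  · rintro _ ⟨b, rfl⟩ z2 hz2
    obtain ⟨d, rfl⟩ := hmem_aab z2 hz2
    exact hB b d
  · intro z1 hz1 z2 hz2
    obtain ⟨a, rfl⟩ := hmem_ab z1 hz1
    obtain ⟨d, rfl⟩ := hmem_aab z2 hz2
    exact hABAAB a d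

end l23

/-! ## The bound for an abstract group -/

theorem card_arith_sp (q : ℕ) (hq : 2 ≤ q) :
    (q - 1) * (q - 1) * q ^ 4 * (q + 1) * (q ^ 3 + q ^ 2 + q + 1) =
      q ^ 4 * (q ^ 2 - 1) * (q ^ 4 - 1) := by
  obtain ⟨n, rfl⟩ : ∃ n, q = n + 1 := ⟨q - 1, by omega⟩
  have e1 : n + 1 - 1 = n := by omega
  have e2 : (n + 1) ^ 2 - 1 = n * (n + 2) := by
    have : (n + 1) ^ 2 = n * (n + 2) + 1 := by ring
    omega
  have e3 : (n + 1) ^ 4 - 1 = n * (n + 2) * ((n + 1) ^ 2 + 1) := by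
    have : (n + 1) ^ 4 = n * (n + 2) * ((n + 1) ^ 2 + 1) + 1 := by ring
    omega
  rw [e1, e2, e3]
  ring

theorem core_sp {F : Type*} [Field F] [Fintype F] (p : ℕ) [Fact p.Prime] [CharP F p]
    [Algebra (ZMod p) F] (ζ : F) (hζ0 : ζ ≠ 0) (hζ : ∀ a : F, a ≠ 0 → ∃ j : ℕ, a = ζ ^ j)
    (fz fzi : (ZMod p)[X]) (hfz : aeval (ζ ^ 2) fz = ζ) (hfzi : aeval (ζ ^ 2) fzi = ζ⁻¹)
    {P : Type*} [Group P] (ua ha ta ub hb tb : P)
    (hgen : Subgroup.closure {ua, ha, ta, ub, hb, tb} = ⊤)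
    (hcommA : ∀ i j, Commute (Pres.aC ua hb⁻¹ i) (Pres.aC ua hb⁻¹ j))
    (hcommB : ∀ i j, Commute (Pres.aC ub hb i) (Pres.aC ub hb j))
    (hrel : ∀ r ∈ relsCore p (minpoly (ZMod p) ζ) (minpoly (ZMod p) (ζ ^ 2)) fz fzi
      ua ha ta ub hb tb, r = 1) :
    Finite P ∧ Nat.card P ≤
      Fintype.card F ^ 4 * (Fintype.card F ^ 2 - 1) * (Fintype.card F ^ 4 - 1) ∧
      (ta ^ 2 = 1 → (2 : F) ≠ 0 → 2 * Nat.card P ≤
        Fintype.card F ^ 4 * (Fintype.card F ^ 2 - 1) * (Fintype.card F ^ 4 - 1)) := by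
  have hA : ∀ r ∈ relsA p (minpoly (ZMod p) ζ) ua ha ta hb, r = 1 := fun r hr =>
    hrel r (List.mem_append_left _ (List.mem_append_left _ (List.mem_append_left _
      (List.mem_append_left _ hr))))
  have hBr : ∀ r ∈ Pres.relsBase p (minpoly (ZMod p) (ζ ^ 2)) fz fzi ub hb tb, r = 1 :=
    fun r hr => hrel r (List.mem_append_left _ (List.mem_append_left _ (List.mem_append_left _
      (List.mem_append_right _ hr))))
  have hT : ∀ r ∈ relsT ha ta ub hb tb, r = 1 := fun r hr =>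
    hrel r (List.mem_append_left _ (List.mem_append_left _ (List.mem_append_right _ hr)))
  have hN : ∀ r ∈ relsN ua ta ub tb, r = 1 := fun r hr =>
    hrel r (List.mem_append_left _ (List.mem_append_right _ hr))
  have hS : ∀ r ∈ relsS ua ta ub tb, r = 1 := fun r hr =>
    hrel r (List.mem_append_right _ hr)
  have hu : ua ^ p = 1 := hA _ (by simp [relsA])
  have hmA : Pres.pw p ua hb⁻¹ (minpoly (ZMod p) ζ) = 1 := hA _ (by simp [relsA])
  have h2' : (ha⁻¹ * ua * ha)⁻¹ * Pres.aC ua hb⁻¹ 2 = 1 := hA _ (by simp [relsA])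
  have hth' : ta * ha * ta⁻¹ * ha = 1 := hA _ (by simp [relsA])
  have hw : ua * ta⁻¹ * ua * ta * ua * ta⁻¹ = 1 := hA _ (by simp [relsA])
  have hT1 : ha * hb * ha⁻¹ * hb⁻¹ = 1 := hT _ (by simp [relsT])
  have hT2 : ta * hb * ta⁻¹ * (ha * hb)⁻¹ = 1 := hT _ (by simp [relsT])
  have htbhb' : tb * hb * tb⁻¹ * hb = 1 := hBr _ (by simp [Pres.relsBase])
  have h2 : ha⁻¹ * ua * ha = Pres.aC ua hb⁻¹ 2 := inv_mul_eq_one.mp h2'
  have hth : ta * ha * ta⁻¹ = ha⁻¹ := eq_inv_of_mul_eq_one_left hth'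
  have hhh : ha * hb = hb * ha := by
    have h := mul_inv_eq_one.mp hT1
    calc ha * hb = (ha * hb * ha⁻¹) * ha := by group
      _ = hb * ha := by rw [h]
  have hgh : hb⁻¹ * ha = ha * hb⁻¹ := by
    calc hb⁻¹ * ha = hb⁻¹ * (ha * hb) * hb⁻¹ := by group
      _ = hb⁻¹ * (hb * ha) * hb⁻¹ := by rw [hhh]
      _ = ha * hb⁻¹ := by group
  have hT2e : ta * hb * ta⁻¹ = ha * hb := mul_inv_eq_one.mp hT2
  have hgt : (hb⁻¹)⁻¹ * ta * hb⁻¹ = ha⁻¹ * ta := by
    rw [inv_inv]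
    have e1 : ta * hb = ha * hb * ta := by
      calc ta * hb = (ta * hb * ta⁻¹) * ta := by group
        _ = ha * hb * ta := by rw [hT2e]
    calc hb * ta * hb⁻¹ = ha⁻¹ * (ha * hb * ta) * hb⁻¹ := by group
      _ = ha⁻¹ * (ta * hb) * hb⁻¹ := by rw [e1]
      _ = ha⁻¹ * ta := by group
  obtain ⟨xa, hadda, hxa1, ha_g, ha_ha, hra, hhaq, hta2⟩ :=
    r1pkg_g p ζ hζ0 hζ ua ha ta hb⁻¹ hcommA hu hmA hgh h2 hth hw hgt
  have ha_hb : ∀ a, hb * xa a * hb⁻¹ = xa (ζ * a) := by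
    intro a
    have h := ha_g a
    rwa [inv_inv] at h
  obtain ⟨xb, haddb, hxb1, hb_hb, hrb, hhbq, htb2⟩ :=
    r1pkg_sq p ζ hζ0 hζ fz fzi hfz hfzi ub hb tb hcommB hBr
  have htbhb : tb * hb * tb⁻¹ = hb⁻¹ := eq_inv_of_mul_eq_one_left htbhb'
  have D := c2Root_of_rels ζ hζ0 hζ ua ha ta ub hb tb xa xb hadda hxa1 ha_hb ha_ha hra hhaq hta2
    haddb hxb1 hb_hb hrb hhbq htb2 hth htbhb hT hN hS
  have hq2 : 2 ≤ Fintype.card F := Fintype.one_lt_card
  have hqpos : 0 < Fintype.card F - 1 := by omega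
  have key : ∀ m : ℕ, 0 < m → ha ^ m = 1 → Finite P ∧ Nat.card P ≤
      m * (Fintype.card F - 1) * Fintype.card F ^ 4 * (Fintype.card F + 1) *
        (Fintype.card F ^ 3 + Fintype.card F ^ 2 + Fintype.card F + 1) := by
    intro m hm hma
    obtain ⟨tf, tcard⟩ := torus2_card ha hb m (Fintype.card F - 1) hm hqpos D.hh hma D.hbq
    have B := c2Data_of_root D hζ0 hζ tf
    have hgen' : Subgroup.closure
        (SP (rootSub xa D.adda) (rootSub xb D.addb) (torus2 ha hb) ta tb) = ⊤ := by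
      rw [eq_top_iff, ← hgen, Subgroup.closure_le]
      intro y hy
      simp only [Set.mem_insert_iff, Set.mem_singleton_iff] at hy
      apply Subgroup.subset_closure
      rcases hy with hy | hy | hy | hy | hy | hy
      · rw [hy]; exact Or.inl (Or.inl (Or.inl ⟨1, hxa1⟩))
      · rw [hy]; exact Or.inl (Or.inr (Subgroup.subset_closure (by simp)))
      · rw [hy]; exact Or.inr (by simp)
      · rw [hy]; exact Or.inl (Or.inl (Or.inr ⟨1, hxb1⟩))
      · rw [hy]; exact Or.inl (Or.inr (Subgroup.subset_closure (by simp)))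
      · rw [hy]; exact Or.inr (by simp)
    obtain ⟨hfin, hcard⟩ := c2_count B hgen'
    refine ⟨hfin, hcard.trans ?_⟩
    gcongr
  obtain ⟨hfin, hcard⟩ := key (Fintype.card F - 1) hqpos hhaq
  refine ⟨hfin, ?_, ?_⟩
  · rw [← card_arith_sp _ hq2]; exact hcard
  · intro ht2 h2F
    obtain ⟨j0, hj0⟩ := hζ (-1) (neg_ne_zero.mpr one_ne_zero)
    have hj : ha ^ j0 = 1 := by rw [← hta2 j0 hj0.symm, ht2]
    have hhd : ha ^ (Nat.gcd j0 (Fintype.card F - 1)) = 1 := pow_gcd_eq_one.mpr ⟨hj, hhaq⟩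
    have hdpos : 0 < Nat.gcd j0 (Fintype.card F - 1) := Nat.gcd_pos_of_pos_right _ hqpos
    have hq1 : ζ ^ (Fintype.card F - 1) = 1 := FiniteField.pow_card_sub_one_eq_one ζ hζ0
    have hd2 : 2 * Nat.gcd j0 (Fintype.card F - 1) ≤ Fintype.card F - 1 := by
      obtain ⟨m, hm⟩ := Nat.gcd_dvd_right j0 (Fintype.card F - 1)
      have hm1 : m ≠ 1 := by
        rintro rfl
        rw [mul_one] at hm
        have hdvd : (Fintype.card F - 1) ∣ j0 := by
          rw [hm]; exact Nat.gcd_dvd_left _ _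
        obtain ⟨c, hc⟩ := hdvd
        have h11 : ζ ^ j0 = 1 := by rw [hc, pow_mul, hq1, one_pow]
        rw [← hj0] at h11
        apply h2F
        linear_combination (-1 : F) * h11
      have hm0 : m ≠ 0 := by
        rintro rfl
        rw [mul_zero] at hm; omega
      have h2m : 2 ≤ m := by omega
      calc 2 * Nat.gcd j0 (Fintype.card F - 1) ≤ m * Nat.gcd j0 (Fintype.card F - 1) :=
            Nat.mul_le_mul_right _ h2m
        _ = Fintype.card F - 1 := by rw [mul_comm]; exact hm.symm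
    obtain ⟨-, hcard2⟩ := key _ hdpos hhd
    rw [← card_arith_sp _ hq2]
    calc 2 * Nat.card P ≤ 2 * (Nat.gcd j0 (Fintype.card F - 1) * (Fintype.card F - 1) *
          Fintype.card F ^ 4 * (Fintype.card F + 1) *
          (Fintype.card F ^ 3 + Fintype.card F ^ 2 + Fintype.card F + 1)) :=
          Nat.mul_le_mul_left 2 hcard2
      _ = (2 * Nat.gcd j0 (Fintype.card F - 1)) * (Fintype.card F - 1) *
          Fintype.card F ^ 4 * (Fintype.card F + 1) *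
          (Fintype.card F ^ 3 + Fintype.card F ^ 2 + Fintype.card F + 1) := by ring
      _ ≤ (Fintype.card F - 1) * (Fintype.card F - 1) * Fintype.card F ^ 4 *
          (Fintype.card F + 1) *
          (Fintype.card F ^ 3 + Fintype.card F ^ 2 + Fintype.card F + 1) := by gcongr

/-! ## The presentation -/

/-- General recognition lemma for `n` generators. -/
theorem pres_iso_fun {n : ℕ} {G : Type*} [Group G] (R : List (FreeGroup (Fin n)))
    (g : Fin n → G) (hrel : ∀ r ∈ R.map (FreeGroup.lift g), r = 1)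
    (hgen : Subgroup.closure (Set.range g) = ⊤)
    (hcard : ∀ (P : Type) [Group P] (g' : Fin n → P), Subgroup.closure (Set.range g') = ⊤ →
      (∀ r ∈ R.map (FreeGroup.lift g'), r = 1) → Finite P ∧ Nat.card P ≤ Nat.card G) :
    ∃ rels : Finset (FreeGroup (Fin n)), rels.card ≤ R.length ∧
      Nonempty (PresentedGroup (↑rels : Set (FreeGroup (Fin n))) ≃* G) := by
  classical
  refine ⟨R.toFinset, List.toFinset_card_le R, ?_⟩
  have hrel' : ∀ r ∈ (↑R.toFinset : Set (FreeGroup (Fin n))), FreeGroup.lift g r = 1 := by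
    intro r hr
    exact hrel _ (List.mem_map_of_mem (by simpa using hr))
  let φ := PresentedGroup.toGroup hrel'
  have hsurj : Function.Surjective φ := by
    rw [← MonoidHom.range_eq_top, eq_top_iff, ← hgen, Subgroup.closure_le]
    rintro _ ⟨i, rfl⟩
    exact ⟨PresentedGroup.of i, PresentedGroup.toGroup.of hrel'⟩
  have hmk : FreeGroup.lift (fun i => (PresentedGroup.of i :
      PresentedGroup (↑R.toFinset : Set (FreeGroup (Fin n))))) = PresentedGroup.mk _ := by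
    ext i
    simp [PresentedGroup.of]
  have hP := hcard (PresentedGroup (↑R.toFinset : Set (FreeGroup (Fin n))))
    (fun i => PresentedGroup.of i)
    (PresentedGroup.closure_range_of _)
    (by
      intro r hr
      rw [hmk] at hr
      obtain ⟨r', hr', rfl⟩ := List.mem_map.mp hr
      exact PresentedGroup.one_of_mem (by simpa using hr'))
  haveI := hP.1
  have hbij : Function.Bijective φ := hsurj.bijective_of_nat_card_le hP.2
  exact ⟨MulEquiv.ofBijective φ hbij⟩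

theorem range_six {G : Type*} (f : Fin 6 → G) :
    Set.range f = {f 0, f 1, f 2, f 3, f 4, f 5} := by
  ext x
  simp only [Set.mem_range, Set.mem_insert_iff, Set.mem_singleton_iff]
  constructor
  · rintro ⟨i, rfl⟩
    fin_cases i <;> simp
  · rintro (rfl | rfl | rfl | rfl | rfl | rfl) <;> exact ⟨_, rfl⟩

section data

variable {F : Type*} [Field F]

/-- the six matrices -/
def gmat (ζ : F) (hζ0 : ζ ≠ 0) : Fin 6 → symplecticGroup (Fin 2) F :=
  ![sX 1, sHa ζ hζ0, sTa F, sY 1, sHb ζ hζ0, sTb F]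

theorem gmat_0 (ζ : F) (hζ0 : ζ ≠ 0) : gmat ζ hζ0 0 = sX 1 := rfl
theorem gmat_1 (ζ : F) (hζ0 : ζ ≠ 0) : gmat ζ hζ0 1 = sHa ζ hζ0 := rfl
theorem gmat_2 (ζ : F) (hζ0 : ζ ≠ 0) : gmat ζ hζ0 2 = sTa F := rfl
theorem gmat_3 (ζ : F) (hζ0 : ζ ≠ 0) : gmat ζ hζ0 3 = sY 1 := rfl
theorem gmat_4 (ζ : F) (hζ0 : ζ ≠ 0) : gmat ζ hζ0 4 = sHb ζ hζ0 := rfl
theorem gmat_5 (ζ : F) (hζ0 : ζ ≠ 0) : gmat ζ hζ0 5 = sTb F := rfl

theorem gapA_data (p : ℕ) [Fact p.Prime] [Algebra (ZMod p) F] (ζ : F) (hζ0 : ζ ≠ 0)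
    (hζ : ∀ a : F, a ≠ 0 → ∃ j : ℕ, a = ζ ^ j)
    (hadd : ∀ a b : F, sX (a + b) = sX a * sX b)
    (haC : ∀ i : ℕ, Pres.aC (sX (1 : F)) (sHb ζ hζ0)⁻¹ i = sX (ζ ^ i)) :
    ∃ RA : List (FreeGroup (Fin 6)), RA.length ≤ 2 ∧
      (∀ r ∈ RA.map (FreeGroup.lift (gmat ζ hζ0)), r = 1) ∧
      (∀ (P : Type) [Group P] (g' : Fin 6 → P), (∀ r ∈ RA.map (FreeGroup.lift g'), r = 1) →
        Pres.pw p (g' 0) (g' 4)⁻¹ (minpoly (ZMod p) ζ) = 1 →
        ∀ i j, Commute (Pres.aC (g' 0) (g' 4)⁻¹ i) (Pres.aC (g' 0) (g' 4)⁻¹ j)) := by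
  by_cases h5 : 1 + ζ = 0
  · exact ⟨[], by simp, by simp,
      fun P _ g' _ hm => Sl3.comm_of_neg_one p ζ h5 (g' 0) (g' 4)⁻¹ hm⟩
  · obtain ⟨k, hk⟩ := hζ (1 + ζ) h5
    refine ⟨relsGapA k (FreeGroup.of 0) (FreeGroup.of 4), by simp [relsGapA], ?_, ?_⟩
    · rw [map_relsGapA, FreeGroup.lift_apply_of, FreeGroup.lift_apply_of, gmat_0, gmat_4]
      exact mat_relsGapA ζ hζ0 k hk.symm hadd haC
    · intro P _ g' hrel hm
      rw [map_relsGapA, FreeGroup.lift_apply_of, FreeGroup.lift_apply_of] at hrel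
      exact Sl3.comm_of_gap (g' 0) (g' 4)⁻¹ k (hrel _ (by simp [relsGapA]))
        (hrel _ (by simp [relsGapA]))

theorem gapB_data (p : ℕ) [Fact p.Prime] [Algebra (ZMod p) F] (ζ : F) (hζ0 : ζ ≠ 0)
    (hζ : ∀ a : F, a ≠ 0 → ∃ j : ℕ, a = ζ ^ j)
    (hB : ∀ k : ℕ, ζ ^ (2 * k) = (1 + ζ ^ 2) ^ 2 →
      ∀ r ∈ Pres.relsComm k (sY (1 : F)) (sHb ζ hζ0), r = 1) :
    ∃ RB : List (FreeGroup (Fin 6)), RB.length ≤ 3 ∧
      (∀ r ∈ RB.map (FreeGroup.lift (gmat ζ hζ0)), r = 1) ∧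
      (∀ (P : Type) [Group P] (g' : Fin 6 → P), (∀ r ∈ RB.map (FreeGroup.lift g'), r = 1) →
        Pres.pw p (g' 3) (g' 4) (minpoly (ZMod p) (ζ ^ 2)) = 1 →
        ∀ i j, Commute (Pres.aC (g' 3) (g' 4) i) (Pres.aC (g' 3) (g' 4) j)) := by
  by_cases h5 : 1 + ζ ^ 2 = 0
  · exact ⟨[], by simp, by simp,
      fun P _ g' _ hm => Pres.comm_of_sq_neg_one p ζ h5 (g' 3) (g' 4) hm⟩
  · obtain ⟨k, hk⟩ := hζ (1 + ζ ^ 2) h5
    have hk' : ζ ^ (2 * k) = (1 + ζ ^ 2) ^ 2 := by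
      rw [mul_comm, pow_mul, ← hk]
    refine ⟨Pres.relsComm k (FreeGroup.of 3) (FreeGroup.of 4), by simp [Pres.relsComm], ?_, ?_⟩
    · rw [Pres.map_relsComm, FreeGroup.lift_apply_of, FreeGroup.lift_apply_of, gmat_3, gmat_4]
      exact hB k hk'
    · intro P _ g' hrel hm
      rw [Pres.map_relsComm, FreeGroup.lift_apply_of, FreeGroup.lift_apply_of] at hrel
      exact Pres.comm_of_gap_odd (g' 3) (g' 4) k hrel

theorem sp4_data [Fintype F] :
    ∃ (R : List (FreeGroup (Fin 6))) (g : Fin 6 → symplecticGroup (Fin 2) F), R.length ≤ 25 ∧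
      (∀ r ∈ R.map (FreeGroup.lift g), r = 1) ∧ Subgroup.closure (Set.range g) = ⊤ ∧
      g 2 ^ 2 ∈ Subgroup.center (symplecticGroup (Fin 2) F) ∧
      (∀ (P : Type) [Group P] (g' : Fin 6 → P), Subgroup.closure (Set.range g') = ⊤ →
        (∀ r ∈ R.map (FreeGroup.lift g'), r = 1) → Finite P ∧
          Nat.card P ≤ Nat.card (symplecticGroup (Fin 2) F) ∧
          (g' 2 ^ 2 = 1 → (2 : F) ≠ 0 →
            2 * Nat.card P ≤ Nat.card (symplecticGroup (Fin 2) F))) := by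
  classical
  obtain ⟨p, hp⟩ := CharP.exists F
  haveI : Fact p.Prime := ⟨CharP.char_is_prime F p⟩
  letI : Algebra (ZMod p) F := ZMod.algebra F p
  obtain ⟨ζ, hζ0, hζ⟩ := Pres.exists_gen (F := F)
  obtain ⟨fz, hfz⟩ := Pres.aeval_sq_surj p ζ hζ ζ
  obtain ⟨fzi, hfzi⟩ := Pres.aeval_sq_surj p ζ hζ ζ⁻¹
  obtain ⟨hXadd, -, haC⟩ := mat_a_basic ζ hζ0
  have hX0 : sX (0 : F) = 1 := by
    have h0 := hXadd 0 0
    rw [add_zero] at h0
    exact left_eq_mul.mp h0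
  have hpw : Pres.pw p (sX (1 : F)) (sHb ζ hζ0)⁻¹ (minpoly (ZMod p) ζ) = 1 := by
    rw [mat_a_pw, minpoly.aeval, hX0]
  obtain ⟨hmB, hmBc⟩ := mat_relsB p ζ hζ0 fz fzi hfz hfzi
  obtain ⟨hmT, hmN, hmS⟩ := mat_relsTNS ζ hζ0
  have hmA := mat_relsA p ζ hζ0 hXadd haC hpw
  obtain ⟨RA, lA, mA, cA⟩ := gapA_data p ζ hζ0 hζ hXadd haC
  obtain ⟨RB, lB, mB, cB⟩ := gapB_data p ζ hζ0 hζ hmBc
  refine ⟨relsCore p (minpoly (ZMod p) ζ) (minpoly (ZMod p) (ζ ^ 2)) fz fzi (FreeGroup.of 0)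
    (FreeGroup.of 1) (FreeGroup.of 2) (FreeGroup.of 3) (FreeGroup.of 4) (FreeGroup.of 5) ++
    (RA ++ RB), gmat ζ hζ0, ?_, ?_, ?_, ?_, ?_⟩
  · have h20 : (relsCore p (minpoly (ZMod p) ζ) (minpoly (ZMod p) (ζ ^ 2)) fz fzi
        (FreeGroup.of (0 : Fin 6)) (FreeGroup.of 1) (FreeGroup.of 2) (FreeGroup.of 3)
        (FreeGroup.of 4) (FreeGroup.of 5)).length = 20 := by
      simp [relsCore, relsA, Pres.relsBase, relsT, relsN, relsS]
    simp only [List.length_append, h20]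
    omega
  · intro r hr
    rw [List.map_append, List.map_append] at hr
    rcases List.mem_append.mp hr with hr | hr
    · rw [map_relsCore] at hr
      simp only [FreeGroup.lift_apply_of, gmat_0, gmat_1, gmat_2, gmat_3, gmat_4, gmat_5] at hr
      unfold relsCore at hr
      simp only [List.mem_append] at hr
      rcases hr with (((hr | hr) | hr) | hr) | hr
      · exact hmA r hr
      · exact hmB r hr
      · exact hmT r hr
      · exact hmN r hr
      · exact hmS r hr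
    · rcases List.mem_append.mp hr with hr | hr
      · exact mA r hr
      · exact mB r hr
  · rw [range_six, gmat_0, gmat_1, gmat_2, gmat_3, gmat_4, gmat_5]
    exact mat_gen_sp ζ hζ0 hζ
  · rw [gmat_2]
    exact sp4_center.1
  · intro P _ g' hgen hrel
    rw [List.map_append, List.map_append, map_relsCore] at hrel
    simp only [FreeGroup.lift_apply_of] at hrel
    have hcore : ∀ r ∈ relsCore p (minpoly (ZMod p) ζ) (minpoly (ZMod p) (ζ ^ 2)) fz fzi
        (g' 0) (g' 1) (g' 2) (g' 3) (g' 4) (g' 5), r = 1 :=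
      fun r hr => hrel r (List.mem_append_left _ hr)
    have hRA : ∀ r ∈ RA.map (FreeGroup.lift g'), r = 1 :=
      fun r hr => hrel r (List.mem_append_right _ (List.mem_append_left _ hr))
    have hRB : ∀ r ∈ RB.map (FreeGroup.lift g'), r = 1 :=
      fun r hr => hrel r (List.mem_append_right _ (List.mem_append_right _ hr))
    have hmA' : Pres.pw p (g' 0) (g' 4)⁻¹ (minpoly (ZMod p) ζ) = 1 :=
      hcore _ (by simp [relsCore, relsA])
    have hmB' : Pres.pw p (g' 3) (g' 4) (minpoly (ZMod p) (ζ ^ 2)) = 1 :=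
      hcore _ (by simp [relsCore, Pres.relsBase])
    rw [range_six] at hgen
    rw [card_Sp4]
    exact core_sp p ζ hζ0 hζ fz fzi hfz hfzi (g' 0) (g' 1) (g' 2) (g' 3) (g' 4) (g' 5) hgen
      (cA P g' hRA hmA') (cB P g' hRB hmB') hcore

end data

/-- S2293, first half -/
theorem main_sp4 {F : Type*} [Field F] [Fintype F] :
    ∃ rels : Finset (FreeGroup (Fin 6)), rels.card ≤ 35 ∧
      Nonempty (PresentedGroup (↑rels : Set (FreeGroup (Fin 6))) ≃*
        symplecticGroup (Fin 2) F) := by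
  obtain ⟨R, g, hl, hrel, hgen, -, hcard⟩ := sp4_data (F := F)
  obtain ⟨rels, hc, hiso⟩ := pres_iso_fun R g hrel hgen
    (fun P _ g' hg hr => ⟨(hcard P g' hg hr).1, (hcard P g' hg hr).2.1⟩)
  exact ⟨rels, by omega, hiso⟩

/-- S2293, second half -/
theorem main_psp4 {F : Type*} [Field F] [Fintype F] :
    ∃ rels : Finset (FreeGroup (Fin 6)), rels.card ≤ 36 ∧
      Nonempty (PresentedGroup (↑rels : Set (FreeGroup (Fin 6))) ≃* Cfsg.PSp 2 F) := by
  obtain ⟨R, g, hl, hrel, hgen, hcen, hcard⟩ := sp4_data (F := F)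
  obtain ⟨-, hcenter⟩ := sp4_center (F := F)
  let π : symplecticGroup (Fin 2) F →* Cfsg.PSp 2 F := QuotientGroup.mk' _
  have hπ : Function.Surjective π := QuotientGroup.mk'_surjective _
  have hcomp : FreeGroup.lift (fun i => π (g i)) = π.comp (FreeGroup.lift g) := by
    ext i; simp
  obtain ⟨rels, hc, hiso⟩ := pres_iso_fun (R ++ [FreeGroup.of 2 ^ 2]) (fun i => π (g i))
    (by
      intro r hr
      rw [List.map_append] at hr
      rcases List.mem_append.mp hr with hr | hr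
      · rw [hcomp] at hr
        obtain ⟨r', hr', rfl⟩ := List.mem_map.mp hr
        have h1 := hrel _ (List.mem_map_of_mem hr')
        rw [MonoidHom.comp_apply, h1, map_one]
      · simp only [List.map_cons, List.map_nil, List.mem_singleton] at hr
        subst hr
        rw [map_pow, FreeGroup.lift_apply_of, ← map_pow]
        exact (QuotientGroup.eq_one_iff _).mpr hcen)
    (by
      have hr : Set.range (fun i => π (g i)) = π '' Set.range g := by
        rw [← Set.range_comp]; rfl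
      rw [hr, ← MonoidHom.map_closure, hgen, ← MonoidHom.range_eq_map, MonoidHom.range_eq_top]
      exact hπ)
    (by
      intro P _ g' hgen' hrel'
      rw [List.map_append] at hrel'
      have h1 : ∀ r ∈ R.map (FreeGroup.lift g'), r = 1 :=
        fun r hr => hrel' r (List.mem_append_left _ hr)
      have h2 : g' 2 ^ 2 = 1 := by
        have h := hrel' (FreeGroup.lift g' (FreeGroup.of 2 ^ 2))
          (List.mem_append_right _ (by simp))
        simpa using h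
      obtain ⟨hfin, hc1, hc2⟩ := hcard P g' hgen' h1
      refine ⟨hfin, ?_⟩
      by_cases h2F : (2 : F) = 0
      · have hg : Nat.gcd 2 (Fintype.card F - 1) = 1 := by
          haveI : CharP F 2 := Pres.two_eq_zero_or h2F
          obtain ⟨n, -, hn⟩ := FiniteField.card F 2
          have hodd : Odd (Fintype.card F - 1) := by
            rw [hn]
            exact Nat.Even.sub_odd (Nat.one_le_two_pow)
              (Nat.even_pow.2 ⟨even_two, n.ne_zero⟩) odd_one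
          exact Nat.coprime_two_left.2 hodd
        rw [hg, one_mul] at hcenter
        exact hc1.trans hcenter
      · have h3 := hc2 h2 h2F
        have hg : Nat.gcd 2 (Fintype.card F - 1) ≤ 2 :=
          Nat.le_of_dvd (by norm_num) (Nat.gcd_dvd_left _ _)
        have h4 : 2 * Nat.card P ≤ 2 * Nat.card (Cfsg.PSp 2 F) :=
          h3.trans (hcenter.trans (Nat.mul_le_mul_right _ hg))
        omega)
  refine ⟨rels, ?_, hiso⟩
  have hlen : (R ++ [FreeGroup.of (2 : Fin 6) ^ 2]).length = R.length + 1 := by simp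
  rw [hlen] at hc
  omega

end Cfsg.Agent.Lib.Helper93.Sp4
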